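import Mathlib

set_option autoImplicit false

/-! Sylow subgroups fixing points: definitions for S4181 and S3580. -/

namespace Cfsg.Agent.SyF

open Pointwise

universe u v

/-- carrier for dot notation -/
structure Ar (p : ℕ) (G : Type u) (Ω : Type v) : Type where
  mk ::

variable {p : ℕ} {G : Type u} [Group G] {Ω : Type v} [MulAction G Ω]

def gen (𝒯 : Set (Sylow p G)) : Subgroup G := ⨆ P ∈ 𝒯, (P : Subgroup G)

def Inv (L : Subgroup G) (A : Set Ω) : Prop := ∀ g ∈ L, ∀ a ∈ A, g • a ∈ A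

def Fix (L : Subgroup G) : Set Ω := {a | ∀ g ∈ L, g • a = a}

def Reg (L : Subgroup G) (K : Set Ω) : Set Ω := {a | ∃ x ∈ L, ∃ z ∈ K, x • z = a}

noncomputable def fx (P : Sylow p G) (A : Set Ω) : ℕ := (A ∩ Fix (P : Subgroup G)).ncard

/-- deficiency -/
noncomputable def D (P : Sylow p G) (A : Set Ω) : ℤ :=
  (2 * (p : ℤ) - 1) * (((A.ncard : ℤ) - fx P A) / p) - A.ncard

/-- elements fixing every member of a family of sets -/
def Ker (G : Type u) [Group G] [MulAction G Ω] (𝒪 : Set (Set Ω)) : Subgroup G := ⨅ A ∈ 𝒪, MulAction.stabilizer G A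

def Alt (H : Subgroup G) (W : Set Ω) : Prop :=
  ∀ a ∈ W, ∀ b ∈ W, ∀ e ∈ W, a ≠ b → a ≠ e → b ≠ e →
    ∃ g ∈ H, g • a = b ∧ g • b = e ∧ g • e = a ∧ ∀ x ∈ W, x ≠ a → x ≠ b → x ≠ e → g • x = x

def Dbl (H : Subgroup G) (W : Set Ω) : Prop :=
  ∀ a ∈ W, ∀ b ∈ W, ∀ e ∈ W, ∀ f ∈ W, a ≠ b → a ≠ e → a ≠ f → b ≠ e → b ≠ f → e ≠ f →
    ∃ g ∈ H, g • a = b ∧ g • b = a ∧ g • e = f ∧ g • f = e ∧ ∀ x ∈ W, x ≠ a → x ≠ b → x ≠ e → x ≠ f → g • x = x

namespace Ar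

variable (c : Ar p G Ω)

def SS (_c : Ar p G Ω) (S : Set Ω) : Set (Sylow p G) := {P | S ⊆ Fix (P : Subgroup G)}

noncomputable def nu (S : Set Ω) : ℕ := (c.SS S).ncard

def X (S : Set Ω) : Subgroup G := gen (c.SS S)

def cl (S : Set Ω) : Set Ω := Fix (c.X S)

def Pos (S : Set Ω) (y : Ω) : Prop :=
  y ∉ c.cl S ∧ (2 * (p : ℤ) - 1) * c.nu (insert y S) < ((p : ℤ) - 1) * c.nu S

def U (S : Set Ω) : Set Ω := {y | c.Pos S y}

def E (S : Set Ω) (y : Ω) : Set Ω := {z | c.SS (insert z S) = c.SS (insert y S)}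

def Orbs (S : Set Ω) : Set (Set Ω) := {O | ∃ y ∈ c.U S, O = Reg (c.X S) {y}}

/-- all `s`-sets are good, closed, equally covered, and carry the alternating group -/
def K (s l : ℕ) : Prop :=
  ∀ W : Set Ω, W.ncard = s → (c.SS W).Nonempty ∧ c.cl W = W ∧ c.nu W = l ∧ Alt (⊤ : Subgroup G) W

/-- minimal counterexample -/
structure Cx : Prop where
  ih : ∀ (𝒯 : Set (Sylow p G)), ∀ P ∈ 𝒯, ∀ a : Ω, Reg (gen 𝒯) {a} ≠ Set.univ → a ∉ Fix (gen 𝒯) →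
    0 ≤ D P (Reg (gen 𝒯) {a})
  neg : ∀ P : Sylow p G, D P (Set.univ : Set Ω) < 0
  k1 : ∃ l, c.K 1 l
  mv : ∃ (P : Sylow p G) (a : Ω), a ∉ Fix (P : Subgroup G)

/-- flat spanned by each of its `(s+1)`-subsets -/
structure Fl (s : ℕ) (T : Set Ω) : Prop where
  good : (c.SS T).Nonempty
  cl_eq : c.cl T = T
  lt : s < T.ncard
  span : ∀ V ⊆ T, V.ncard = s + 1 → c.SS V = c.SS T

/-- non-special flat -/
structure NS (s l : ℕ) (T : Set Ω) : Prop where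
  fl : c.Fl s T
  eq : (2 * (p : ℤ) - 1) * c.nu T = ((p : ℤ) - 1) * l

/-- the inductive situation -/
structure St (s l : ℕ) : Prop where
  cx : c.Cx
  k : c.K s l
  one : 1 ≤ s
  le : s + 2 ≤ p

def Sig (T W : Set Ω) : Set Ω := c.U T \ c.U W

/-- every point is special over every `s`-set -/
def AS (s : ℕ) : Prop := ∀ W : Set Ω, W.ncard = s → ∀ y, y ∉ W → c.Pos W y

end Ar

end Cfsg.Agent.SyF
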