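import Mathlib
import Cfsg.Agent.SyF.Defs

set_option autoImplicit false
set_option linter.unusedSectionVars false

namespace Cfsg.Agent.SyF

open Pointwise

universe u v

variable {p : ℕ} [Fact p.Prime] {G : Type u} [Group G] [Finite G] {Ω : Type v} [MulAction G Ω] [Finite Ω]
  {c : Ar p G Ω} {s l : ℕ}

theorem bas_eq {L : Subgroup G} {A : Set Ω} (h : Inv L A) {g : G} (hg : g ∈ L) : g • A = A := by
  ext a
  rw [Set.mem_smul_set_iff_inv_smul_mem]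
  exact ⟨fun ha => by simpa using h g hg _ ha, h _ (inv_mem hg) a⟩

theorem bas_mem {P : Sylow p G} {x g : G} : g ∈ ((x • P : Sylow p G) : Subgroup G) ↔ x⁻¹ * g * x ∈ (P : Subgroup G) := by
  simp [Sylow.smul_def, Sylow.pointwise_smul_def, Subgroup.mem_pointwise_smul_iff_inv_smul_mem]

theorem bas_le {L : Subgroup G} {P : Sylow p G} (hP : (P : Subgroup G) ≤ L) {x : G} (hx : x ∈ L) :
    ((x • P : Sylow p G) : Subgroup G) ≤ L := fun g hg => by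
  simpa [mul_assoc] using mul_mem (mul_mem hx (hP (bas_mem.1 hg))) (inv_mem hx)

theorem le_gen {𝒯 : Set (Sylow p G)} {P : Sylow p G} (h : P ∈ 𝒯) : (P : Subgroup G) ≤ gen 𝒯 :=
  le_iSup₂_of_le (f := fun (P : Sylow p G) (_ : P ∈ 𝒯) => (P : Subgroup G)) P h le_rfl

theorem gen_le {𝒯 : Set (Sylow p G)} {H : Subgroup G} : gen 𝒯 ≤ H ↔ ∀ P ∈ 𝒯, (P : Subgroup G) ≤ H :=
  iSup₂_le_iff

theorem gen_mono {𝒯 𝒯' : Set (Sylow p G)} (h : 𝒯 ⊆ 𝒯') : gen 𝒯 ≤ gen 𝒯' :=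
  gen_le.2 fun _ hP => le_gen (h hP)

theorem mem_Fix_gen {𝒯 : Set (Sylow p G)} {a : Ω} : a ∈ Fix (gen 𝒯) ↔ ∀ P ∈ 𝒯, a ∈ Fix (P : Subgroup G) :=
  ⟨fun h _ hP g hg => h g (le_gen hP hg),
    fun h _ hg => (gen_le (H := MulAction.stabilizer G a)).2 (fun P hP g hg => h P hP g hg) hg⟩

theorem inv_gen {𝒯 : Set (Sylow p G)} {A : Set Ω} : Inv (gen 𝒯) A ↔ ∀ P ∈ 𝒯, Inv (P : Subgroup G) A := by
  refine ⟨fun h P hP g hg => h g (le_gen hP hg), fun h g hg a ha => ?_⟩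
  have : g • A = A := (gen_le (H := MulAction.stabilizer G A)).2 (fun P hP g hg => bas_eq (h P hP) hg) hg
  exact this ▸ Set.smul_mem_smul_set ha

theorem Fix_anti {L M : Subgroup G} (h : M ≤ L) : (Fix L : Set Ω) ⊆ Fix M :=
  fun _ ha g hg => ha g (h hg)

theorem Inv.mono {L M : Subgroup G} {A : Set Ω} (h : Inv L A) (hM : M ≤ L) : Inv M A :=
  fun g hg => h g (hM hg)

theorem Inv.union {L : Subgroup G} {A B : Set Ω} (h : Inv L A) (h' : Inv L B) : Inv L (A ∪ B) :=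
  fun g hg a ha => ha.imp (h g hg a) (h' g hg a)

theorem Inv.inter {L : Subgroup G} {A B : Set Ω} (h : Inv L A) (h' : Inv L B) : Inv L (A ∩ B) :=
  fun g hg a ha => ⟨h g hg a ha.1, h' g hg a ha.2⟩

theorem Inv.compl {L : Subgroup G} {A : Set Ω} (h : Inv L A) : Inv L Aᶜ :=
  fun g hg a ha hb => ha (by simpa using h g⁻¹ (inv_mem hg) _ hb)

theorem Inv.diff {L : Subgroup G} {A B : Set Ω} (h : Inv L A) (h' : Inv L B) : Inv L (A \ B) :=
  h.inter h'.compl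

theorem Inv.smul_eq {L : Subgroup G} {A : Set Ω} (h : Inv L A) {g : G} (hg : g ∈ L) : g • A = A :=
  bas_eq h hg

theorem inv_univ {L : Subgroup G} : Inv L (Set.univ : Set Ω) :=
  fun _ _ _ _ => trivial

theorem inv_of_sub_Fix {L : Subgroup G} {A : Set Ω} (h : A ⊆ Fix L) : Inv L A :=
  fun g hg a ha => by rwa [h ha g hg]

theorem inv_stab {A : Set Ω} : Inv (MulAction.stabilizer G A) A :=
  fun g hg a ha => (MulAction.mem_stabilizer_iff.1 hg) ▸ Set.smul_mem_smul_set ha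

theorem inv_Reg {L : Subgroup G} {K : Set Ω} : Inv L (Reg L K) := by
  rintro g hg _ ⟨x, hx, z, hz, rfl⟩
  exact ⟨g * x, mul_mem hg hx, z, hz, mul_smul _ _ _⟩

theorem sub_Reg {L : Subgroup G} {K : Set Ω} : K ⊆ Reg L K :=
  fun z hz => ⟨1, one_mem _, z, hz, one_smul _ _⟩

theorem Reg_sub {L : Subgroup G} {K A : Set Ω} (h : Inv L A) (hK : K ⊆ A) : Reg L K ⊆ A := by
  rintro _ ⟨x, hx, z, hz, rfl⟩
  exact h x hx z (hK hz)

theorem mem_Ker {𝒪 : Set (Set Ω)} {g : G} : g ∈ Ker G 𝒪 ↔ ∀ A ∈ 𝒪, g • A = A := by simp [Ker, Subgroup.mem_iInf]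

theorem exists_conj {L : Subgroup G} {P Q : Sylow p G} (hP : (P : Subgroup G) ≤ L) (hQ : (Q : Subgroup G) ≤ L) :
    ∃ x ∈ L, x • P = Q := by
  obtain ⟨x, hx⟩ := MulAction.exists_smul_eq L (P.subtype hP) (Q.subtype hQ)
  refine ⟨x, x.2, Sylow.subtype_injective (hP := bas_le hP x.2) (hQ := hQ) ?_⟩
  rw [← hx]
  ext y
  simp [Sylow.smul_def, Sylow.pointwise_smul_def, Subgroup.mem_pointwise_smul_iff_inv_smul_mem, Subgroup.mem_subgroupOf]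

theorem smul_le_of_mem {L : Subgroup G} {P : Sylow p G} (hP : (P : Subgroup G) ≤ L) {x : G} (hx : x ∈ L) :
    ((x • P : Sylow p G) : Subgroup G) ≤ L :=
  bas_le hP hx

theorem smul_mem_Fix {P : Sylow p G} {x : G} {a : Ω} :
    x • a ∈ Fix ((x • P : Sylow p G) : Subgroup G) ↔ a ∈ Fix (P : Subgroup G) := by
  refine ⟨fun h g hg => ?_, fun h g hg => ?_⟩
  · have := h (x * g * x⁻¹) (bas_mem.2 (by simpa [mul_assoc] using hg))
    simpa [mul_smul] using this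
  · have := h _ (bas_mem.1 hg)
    rw [mul_smul, mul_smul, inv_smul_eq_iff] at this
    exact this

theorem mem_SS_iff_le {S : Set Ω} {P : Sylow p G} : P ∈ c.SS S ↔ (P : Subgroup G) ≤ c.X S :=
  ⟨fun h => le_gen h, fun h a ha => Fix_anti h (mem_Fix_gen.2 fun _ hQ => hQ ha)⟩

theorem SS_anti {S S' : Set Ω} (h : S ⊆ S') : c.SS S' ⊆ c.SS S :=
  fun _ hP => h.trans hP

theorem SS_union {S S' : Set Ω} : c.SS (S ∪ S') = c.SS S ∩ c.SS S' :=
  Set.ext fun _ => Set.union_subset_iff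

theorem mem_SS_insert {S : Set Ω} {a : Ω} {P : Sylow p G} :
    P ∈ c.SS (insert a S) ↔ a ∈ Fix (P : Subgroup G) ∧ P ∈ c.SS S :=
  Set.insert_subset_iff

theorem X_anti {S S' : Set Ω} (h : S ⊆ S') : c.X S' ≤ c.X S :=
  gen_mono (SS_anti h)

theorem nu_anti {S S' : Set Ω} (h : S ⊆ S') : c.nu S' ≤ c.nu S :=
  Set.ncard_le_ncard (SS_anti h)

theorem nu_pos {S : Set Ω} : 0 < c.nu S ↔ (c.SS S).Nonempty :=
  Set.ncard_pos

theorem SS_eq_of_nu_le {S S' : Set Ω} (h : c.SS S ⊆ c.SS S') (h' : c.nu S' ≤ c.nu S) : c.SS S = c.SS S' :=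
  Set.eq_of_subset_of_ncard_le h h'

theorem sub_cl {S : Set Ω} : S ⊆ c.cl S :=
  fun _ ha => mem_Fix_gen.2 fun _ hQ => hQ ha

theorem mem_cl {S : Set Ω} {a : Ω} : a ∈ c.cl S ↔ ∀ P ∈ c.SS S, a ∈ Fix (P : Subgroup G) :=
  mem_Fix_gen

theorem mem_cl' {S : Set Ω} {a : Ω} : a ∈ c.cl S ↔ c.SS (insert a S) = c.SS S :=
  ⟨fun h => (SS_anti (Set.subset_insert _ _)).antisymm fun P hP => mem_SS_insert.2 ⟨mem_cl.1 h P hP, hP⟩,
    fun h => mem_cl.2 fun _ hP => (mem_SS_insert.1 (h ▸ hP)).1⟩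

theorem sub_cl_iff {S A : Set Ω} : A ⊆ c.cl S ↔ c.SS S ⊆ c.SS A :=
  ⟨fun h P hP _ ha => mem_cl.1 (h ha) P hP, fun h _ ha => mem_cl.2 fun _ hP => h hP ha⟩

theorem SS_cl {S : Set Ω} : c.SS (c.cl S) = c.SS S :=
  (SS_anti sub_cl).antisymm (sub_cl_iff.1 subset_rfl)

theorem cl_cl {S : Set Ω} : c.cl (c.cl S) = c.cl S := by rw [Ar.cl, Ar.X, SS_cl]; rfl

theorem cl_mono {S S' : Set Ω} (h : S ⊆ S') : c.cl S ⊆ c.cl S' :=
  Fix_anti (X_anti h)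

theorem SS_congr {S S' : Set Ω} (h : c.SS S = c.SS S') : c.cl S = c.cl S' ∧ c.X S = c.X S' ∧ c.nu S = c.nu S' ∧
    c.U S = c.U S' ∧ ∀ A : Set Ω, c.SS (A ∪ S) = c.SS (A ∪ S') := by
  have h1 : ∀ A : Set Ω, c.SS (A ∪ S) = c.SS (A ∪ S') := fun A => by rw [SS_union, SS_union, h]
  have h2 : c.cl S = c.cl S' := by simp only [Ar.cl, Ar.X, h]
  refine ⟨h2, by simp only [Ar.X, h], by simp only [Ar.nu, h], Set.ext fun y => ?_, h1⟩
  have := h1 {y}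
  simp only [Set.singleton_union] at this
  simp only [Ar.U, Ar.Pos, Ar.nu, Set.mem_setOf_eq, h, h2, this]

theorem SS_ins_congr {S S' : Set Ω} (h : c.SS S = c.SS S') (y : Ω) : c.SS (insert y S) = c.SS (insert y S') := by simpa only [Set.singleton_union] using (SS_congr h).2.2.2.2 {y}

theorem smul_mem_SS {S : Set Ω} {P : Sylow p G} {g : G} : g • P ∈ c.SS (g • S) ↔ P ∈ c.SS S :=
  ⟨fun h _ ha => smul_mem_Fix.1 (h (Set.smul_mem_smul_set ha)), by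
    rintro h _ ⟨a, ha, rfl⟩
    exact smul_mem_Fix.2 (h ha)⟩

theorem nu_smul (S : Set Ω) (g : G) : c.nu (g • S) = c.nu S := by
  have : c.SS (g • S) = g • c.SS S := Set.ext fun P => by
    rw [Set.mem_smul_set_iff_inv_smul_mem, ← smul_mem_SS (S := S) (g := g), smul_inv_smul]
  rw [Ar.nu, this, Set.ncard_smul_set]; rfl

theorem cl_smul (S : Set Ω) (g : G) : c.cl (g • S) = g • c.cl S := by
  ext a
  rw [Set.mem_smul_set_iff_inv_smul_mem, mem_cl, mem_cl]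
  refine ⟨fun h P hP => ?_, fun h P hP => ?_⟩
  · rw [← smul_mem_Fix (x := g), smul_inv_smul]; exact h _ (smul_mem_SS.2 hP)
  · have := h (g⁻¹ • P) (by rwa [← smul_mem_SS (g := g), smul_inv_smul])
    exact smul_mem_Fix.1 this

theorem mem_X_conj {S : Set Ω} {g x : G} (hx : x ∈ c.X S) : g * x * g⁻¹ ∈ c.X (g • S) := by
  refine (gen_le (H := (c.X (g • S)).comap (MulAut.conj g).toMonoidHom)).2 (fun P hP y hy => ?_) hx
  exact le_gen (smul_mem_SS.2 hP) (bas_mem.2 (by simpa [mul_assoc] using hy))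

theorem Pos_smul {S : Set Ω} {g : G} {y : Ω} : c.Pos (g • S) (g • y) ↔ c.Pos S y := by
  rw [Ar.Pos, Ar.Pos, cl_smul, Set.smul_mem_smul_set_iff, ← Set.smul_set_insert, nu_smul, nu_smul]

theorem X_smul_eq {S A : Set Ω} {x : G} (hx : x ∈ c.X S) (hA : A ⊆ c.cl S) : x • A = A :=
  (inv_of_sub_Fix hA).smul_eq hx

theorem nu_ins_X {S : Set Ω} {x : G} (hx : x ∈ c.X S) (y : Ω) : c.nu (insert (x • y) S) = c.nu (insert y S) := by rw [← nu_smul (insert y S) x, Set.smul_set_insert, X_smul_eq hx sub_cl]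

theorem inv_cl {S : Set Ω} : Inv (c.X S) (c.cl S) :=
  inv_of_sub_Fix subset_rfl

theorem inv_U {S : Set Ω} : Inv (c.X S) (c.U S) :=
  fun g hg a ha => by
  have := (Pos_smul (g := g)).2 ha
  rwa [X_smul_eq hg sub_cl] at this

theorem U_disj {S : Set Ω} : Disjoint (c.U S) (c.cl S) :=
  Set.disjoint_left.2 fun _ ha => ha.1

theorem orbs_smul {T : Set Ω} {g : G} (hg : g • T = T) : ∀ A ∈ c.Orbs T, g • A ∈ c.Orbs T := by
  rintro _ ⟨y, hy, rfl⟩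
  refine ⟨g • y, hg ▸ Pos_smul.2 hy, Set.ext fun a => ⟨?_, ?_⟩⟩
  · rintro ⟨_, ⟨x, hx, _, rfl, rfl⟩, rfl⟩
    exact ⟨g * x * g⁻¹, hg ▸ mem_X_conj hx, _, rfl, by simp [mul_smul]⟩
  · rintro ⟨x, hx, _, rfl, rfl⟩
    have hg' : g⁻¹ • T = T := inv_smul_eq_iff.2 hg.symm
    exact ⟨_, ⟨g⁻¹ * x * g⁻¹⁻¹, hg' ▸ mem_X_conj hx, _, rfl, rfl⟩, by simp [mul_smul]⟩

theorem ker_orb {T : Set Ω} {g : G} (hg : g ∈ Ker G (c.Orbs T)) {y : Ω} (hy : y ∈ c.U T) : ∃ x ∈ c.X T, g • y = x • y := by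
  have h1 := mem_Ker.1 hg _ ⟨y, hy, rfl⟩
  obtain ⟨x, hx, _, rfl, h2⟩ : g • y ∈ Reg (c.X T) {y} := h1 ▸ Set.smul_mem_smul_set (sub_Reg rfl)
  exact ⟨x, hx, h2.symm⟩

theorem Ar.Fl.smul {T : Set Ω} (h : c.Fl s T) (g : G) : c.Fl s (g • T) := by
  refine ⟨nu_pos.1 (by rw [nu_smul]; exact nu_pos.2 h.good), by rw [cl_smul, h.cl_eq], by
    rw [Set.ncard_smul_set]; exact h.lt, fun V hV hs => Set.ext fun P => ?_⟩
  have := h.span (g⁻¹ • V) (by rw [← inv_smul_smul g T]; exact Set.smul_set_mono hV) (by rwa [Set.ncard_smul_set])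
  rw [← smul_mem_SS (g := g⁻¹), this, ← smul_mem_SS (g := g), smul_inv_smul]

theorem Ar.NS.smul {T : Set Ω} (h : c.NS s l T) (g : G) : c.NS s l (g • T) :=
  ⟨h.fl.smul g, by rw [nu_smul]; exact h.eq⟩

theorem Ar.Fl.ins {T W : Set Ω} (h : c.Fl s T) (hW : W ⊆ T) (hs : W.ncard = s) {z : Ω} (hz : z ∈ T) (hz' : z ∉ W) :
    c.SS (insert z W) = c.SS T ∧ c.cl (insert z W) = T := by
  have := h.span _ (Set.insert_subset hz hW) (by rw [Set.ncard_insert_of_notMem hz', hs])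
  exact ⟨this, (SS_congr this).1.trans h.cl_eq⟩

theorem Ar.Fl.eq_of {T T' V : Set Ω} (h : c.Fl s T) (h' : c.Fl s T') (hV : V ⊆ T) (hV' : V ⊆ T') (hs : V.ncard = s + 1) :
    T = T' := by
  rw [← h.cl_eq, ← h'.cl_eq, ← (SS_congr (h.span V hV hs)).1, ← (SS_congr (h'.span V hV' hs)).1]

end Cfsg.Agent.SyF
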