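import Mathlib
import Cfsg.Agent.SyF.Bas

set_option autoImplicit false
set_option linter.unusedSectionVars false

namespace Cfsg.Agent.SyF

open Pointwise

universe u v

theorem alt_fin4 : ∀ x : Equiv.Perm (Fin 4), Equiv.Perm.sign x = 1 → x ≠ 1 →
    ∃ g : Equiv.Perm (Fin 4), Equiv.Perm.sign g = 1 ∧
      (g * x * g⁻¹ = Equiv.swap 0 1 * Equiv.swap 2 3 ∨ g * x * g⁻¹ * x⁻¹ = Equiv.swap 0 1 * Equiv.swap 2 3) := by
  decide +kernel

theorem alt_normal {α : Type*} [Fintype α] [DecidableEq α] (h4 : 4 ≤ Nat.card α) (N : Subgroup (Equiv.Perm α))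
    (hN : ∀ g ∈ alternatingGroup α, ∀ x ∈ N, g * x * g⁻¹ ∈ N) {x : Equiv.Perm α} (hx : x ∈ N)
    (hxa : x ∈ alternatingGroup α) (hx1 : x ≠ 1) {a b e f : α} (hab : a ≠ b) (hae : a ≠ e) (haf : a ≠ f)
    (hbe : b ≠ e) (hbf : b ≠ f) (hef : e ≠ f) : Equiv.swap a b * Equiv.swap e f ∈ N := by
  rcases h4.eq_or_lt with h4 | h5
  · have hinj : Function.Injective (![a, b, e, f] : Fin 4 → α) := by
      intro i j hij
      fin_cases i <;> fin_cases j <;> simp_all [eq_comm]
    have hbij : Function.Bijective (![a, b, e, f] : Fin 4 → α) := by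
      rw [Fintype.bijective_iff_injective_and_card]
      exact ⟨hinj, by rw [← Nat.card_eq_fintype_card (α := α), ← h4]; simp⟩
    let E : Fin 4 ≃ α := Equiv.ofBijective _ hbij
    let Φ : Equiv.Perm (Fin 4) ≃* Equiv.Perm α := E.permCongrHom
    have hs : ∀ y, Equiv.Perm.sign (Φ y) = Equiv.Perm.sign y := fun y => Equiv.Perm.sign_permCongr E y
    have hsw : ∀ i j, Φ (Equiv.swap i j) = Equiv.swap (E i) (E j) := fun i j => by
      change E.permCongr (Equiv.swap i j) = _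
      ext t
      obtain ⟨t, rfl⟩ := E.surjective t
      rw [Equiv.permCongr_apply, E.symm_apply_apply, E.injective.map_swap]
    obtain ⟨y, rfl⟩ := Φ.surjective x
    have hy1 : y ≠ 1 := fun h => hx1 (by rw [h, map_one])
    obtain ⟨g, hg, h⟩ := alt_fin4 y (by rw [← hs]; exact Equiv.Perm.mem_alternatingGroup.1 hxa) hy1
    have hg' : Φ g ∈ alternatingGroup α := Equiv.Perm.mem_alternatingGroup.2 (by rw [hs, hg])
    have key : Φ (Equiv.swap 0 1 * Equiv.swap 2 3) = Equiv.swap a b * Equiv.swap e f := by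
      rw [map_mul, hsw, hsw]; rfl
    rw [← key]
    rcases h with h | h
    · rw [← h, map_mul, map_mul, map_inv]; exact hN _ hg' _ hx
    · rw [← h, map_mul, map_mul, map_mul, map_inv, map_inv]; exact N.mul_mem (hN _ hg' _ hx) (N.inv_mem hx)
  · haveI : (N.subgroupOf (alternatingGroup α)).Normal :=
      ⟨fun y hy g => Subgroup.mem_subgroupOf.2 (hN g g.2 y (Subgroup.mem_subgroupOf.1 hy))⟩
    rcases alternatingGroup.normal_subgroup_eq_bot_or_eq_top (α := α) h5 (N := N.subgroupOf (alternatingGroup α)) with h | h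
    · have : (⟨x, hxa⟩ : alternatingGroup α) ∈ N.subgroupOf (alternatingGroup α) := Subgroup.mem_subgroupOf.2 hx
      rw [h, Subgroup.mem_bot] at this
      exact absurd (congrArg Subtype.val this) hx1
    · have hm : Equiv.swap a b * Equiv.swap e f ∈ alternatingGroup α := by
        rw [Equiv.Perm.mem_alternatingGroup, map_mul, Equiv.Perm.sign_swap hab, Equiv.Perm.sign_swap hef]; rfl
      have : (⟨_, hm⟩ : alternatingGroup α) ∈ N.subgroupOf (alternatingGroup α) := by rw [h]; trivial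
      exact Subgroup.mem_subgroupOf.1 this

theorem alt_ker {K α β : Type*} [Group K] [Finite K] [Fintype α] [DecidableEq α] [Finite β]
    (φ : K →* Equiv.Perm α) (ψ : K →* Equiv.Perm β) (hφ : alternatingGroup α ≤ φ.range)
    (h4 : 4 ≤ Nat.card α) (hc : Nat.card β < Nat.card α) :
    ∃ k ∈ ψ.ker, φ k ∈ alternatingGroup α ∧ φ k ≠ 1 := by
  classical
  by_contra hcon
  push Not at hcon
  let L : Subgroup K := (alternatingGroup α).comap φ
  have hle : (ψ.comp L.subtype).ker ≤ (φ.comp L.subtype).ker := fun k hk => hcon k hk k.2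
  have h1 : (φ.comp L.subtype).range = alternatingGroup α := by
    rw [MonoidHom.range_comp, Subgroup.range_subtype, Subgroup.map_comap_eq, inf_eq_right.2 hφ]
  have h2 : (φ.comp L.subtype).ker.index ≤ (ψ.comp L.subtype).ker.index := Subgroup.index_antitone hle
  rw [Subgroup.index_ker, Subgroup.index_ker, h1] at h2
  have h3 : Nat.card (ψ.comp L.subtype).range ≤ (Nat.card β).factorial := by
    rw [← Nat.card_perm]; exact Subgroup.card_le_card_group _
  haveI : Nontrivial α := Finite.one_lt_card_iff_nontrivial.1 (by omega)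
  have h5 := two_mul_nat_card_alternatingGroup (α := α)
  rw [Nat.card_perm] at h5
  obtain ⟨n, hn⟩ : ∃ n, Nat.card α = n + 1 := ⟨Nat.card α - 1, by omega⟩
  rw [hn, Nat.factorial_succ] at h5
  have h6 : (Nat.card β).factorial ≤ n.factorial := Nat.factorial_le (by omega)
  have h7 : 4 * n.factorial ≤ (n + 1) * n.factorial := Nat.mul_le_mul_right _ (by omega)
  have h8 := n.factorial_pos
  omega

variable {p : ℕ} [Fact p.Prime] {G : Type u} [Group G] [Finite G] {Ω : Type v} [MulAction G Ω] [Finite Ω]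
  {c : Ar p G Ω} {s l : ℕ}

theorem dbl_ker {H : Subgroup G} {W : Set Ω} (hA : Alt H W) (hi : Inv H W) (h4 : 4 ≤ W.ncard) {𝒪 : Set (Set Ω)}
    (hO : ∀ g ∈ H, ∀ A ∈ 𝒪, g • A ∈ 𝒪) (hc : 𝒪.ncard < W.ncard) : Dbl (H ⊓ Ker G 𝒪) W := by
  classical
  let S : SubMulAction H Ω := ⟨W, fun g _ hx => hi g g.2 _ hx⟩
  let T : SubMulAction H (Set Ω) := ⟨𝒪, fun g _ hx => hO g g.2 _ hx⟩
  haveI : Fintype S := Fintype.ofFinite _
  let φ : H →* Equiv.Perm S := MulAction.toPermHom H S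
  let ψ : H →* Equiv.Perm T := MulAction.toPermHom H T
  have hφv : ∀ (g : H) (x : S), ((φ g x : S) : Ω) = (g : G) • (x : Ω) := fun _ _ => rfl
  have hS : Nat.card S = W.ncard := rfl
  have hT : Nat.card T = 𝒪.ncard := rfl
  have hφ : alternatingGroup S ≤ φ.range := by
    rw [← Equiv.Perm.closure_three_cycles_eq_alternating, Subgroup.closure_le]
    intro σ hσ
    have hσ' : σ.IsThreeCycle := hσ
    obtain ⟨a, ha⟩ : σ.support.Nonempty := Finset.card_pos.1 (by rw [hσ'.card_support]; norm_num)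
    have hsup := hσ'.support_eq_iff_mem_support.2 ha
    have hnd := hσ'.nodup_iff_mem_support.2 ha
    have h3 : σ (σ (σ a)) = a := by
      have : (σ ^ 3) a = a := by rw [← hσ'.orderOf, pow_orderOf_eq_one]; rfl
      simpa [pow_succ] using this
    simp only [List.nodup_cons, List.mem_cons, List.not_mem_nil, or_false, not_or] at hnd
    obtain ⟨g, hg, g1, g2, g3, g4⟩ := hA a a.2 (σ a) (σ a).2 (σ (σ a)) (σ (σ a)).2
      (fun h => hnd.1.1 (Subtype.ext h)) (fun h => hnd.1.2 (Subtype.ext h)) (fun h => hnd.2.1 (Subtype.ext h))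
    refine ⟨⟨g, hg⟩, Equiv.ext fun x => Subtype.ext ?_⟩
    rw [hφv]
    by_cases hx : x ∈ σ.support
    · rw [hsup] at hx
      simp only [Finset.mem_insert, Finset.mem_singleton] at hx
      rcases hx with rfl | rfl | rfl
      · exact g1
      · exact g2
      · rw [h3]; exact g3
    · rw [Equiv.Perm.notMem_support.1 hx]
      rw [hsup] at hx
      simp only [Finset.mem_insert, Finset.mem_singleton, not_or] at hx
      exact g4 x x.2 (fun h => hx.1 (Subtype.ext h)) (fun h => hx.2.1 (Subtype.ext h)) (fun h => hx.2.2 (Subtype.ext h))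
  obtain ⟨k, hk, hka, hk1⟩ := alt_ker φ ψ hφ (hS ▸ h4) (by rw [hS, hT]; exact hc)
  intro a ha b hb e he f hf hab hae haf hbe hbf hef
  have hN : ∀ g ∈ alternatingGroup S, ∀ x ∈ ψ.ker.map φ, g * x * g⁻¹ ∈ ψ.ker.map φ := by
    rintro g hg _ ⟨y, hy, rfl⟩
    obtain ⟨z, rfl⟩ := hφ hg
    exact ⟨z * y * z⁻¹, ψ.normal_ker.conj_mem y hy z, by rw [map_mul, map_mul, map_inv]⟩
  have ne : ∀ {x y : Ω} (hx : x ∈ W) (hy : y ∈ W), x ≠ y → (⟨x, hx⟩ : S) ≠ ⟨y, hy⟩ :=
    fun _ _ h h' => h (congrArg Subtype.val h')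
  obtain ⟨g, hg, hgσ⟩ := alt_normal (hS ▸ h4) (ψ.ker.map φ) hN ⟨k, hk, rfl⟩ hka hk1
    (ne ha hb hab) (ne ha he hae) (ne ha hf haf) (ne hb he hbe) (ne hb hf hbf) (ne he hf hef)
  have hv : ∀ (x : Ω) (hx : x ∈ W), (g : G) • x =
      ((Equiv.swap (⟨a, ha⟩ : S) ⟨b, hb⟩ (Equiv.swap (⟨e, he⟩ : S) ⟨f, hf⟩ ⟨x, hx⟩) : S) : Ω) := fun x hx => by
    rw [← Equiv.Perm.mul_apply, ← hgσ]; rfl
  refine ⟨g, Subgroup.mem_inf.2 ⟨g.2, mem_Ker.2 fun A hA => ?_⟩, ?_, ?_, ?_, ?_, fun x hx h1 h2 h3 h4 => ?_⟩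
  · exact congrArg Subtype.val (Equiv.congr_fun (MonoidHom.mem_ker.1 hg) (⟨A, hA⟩ : T))
  · rw [hv a ha, Equiv.swap_apply_of_ne_of_ne (ne ha he hae) (ne ha hf haf), Equiv.swap_apply_left]
  · rw [hv b hb, Equiv.swap_apply_of_ne_of_ne (ne hb he hbe) (ne hb hf hbf), Equiv.swap_apply_right]
  · rw [hv e he, Equiv.swap_apply_left, Equiv.swap_apply_of_ne_of_ne (ne hf ha haf.symm) (ne hf hb hbf.symm)]
  · rw [hv f hf, Equiv.swap_apply_right, Equiv.swap_apply_of_ne_of_ne (ne he ha hae.symm) (ne he hb hbe.symm)]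
  · rw [hv x hx, Equiv.swap_apply_of_ne_of_ne (ne hx he h3) (ne hx hf h4),
      Equiv.swap_apply_of_ne_of_ne (ne hx ha h1) (ne hx hb h2)]

end Cfsg.Agent.SyF
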