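import Mathlib
import Cfsg.Agent.SyF.Alt

set_option autoImplicit false
set_option linter.unusedSectionVars false

namespace Cfsg.Agent.SyF

open Pointwise

universe u v

variable {p : ℕ} [Fact p.Prime] {G : Type u} [Group G] [Finite G] {Ω : Type v} [MulAction G Ω] [Finite Ω]
  {c : Ar p G Ω} {s l : ℕ}

theorem Alt.mono {H H' : Subgroup G} {W : Set Ω} (h : Alt H W) (hH : H ≤ H') : Alt H' W :=
  fun a ha b hb e he h1 h2 h3 =>
    let ⟨g, hg, k⟩ := h a ha b hb e he h1 h2 h3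
    ⟨g, hH hg, k⟩

theorem Dbl.mono {H H' : Subgroup G} {W : Set Ω} (h : Dbl H W) (hH : H ≤ H') : Dbl H' W :=
  fun a ha b hb e he f hf h1 h2 h3 h4 h5 h6 =>
    let ⟨g, hg, k⟩ := h a ha b hb e he f hf h1 h2 h3 h4 h5 h6
    ⟨g, hH hg, k⟩

theorem Alt.stab {H : Subgroup G} {W : Set Ω} (h : Alt H W) : Alt (H ⊓ MulAction.stabilizer G W) W := by
  intro a ha b hb e he h1 h2 h3
  obtain ⟨g, hg, k1, k2, k3, k4⟩ := h a ha b hb e he h1 h2 h3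
  refine ⟨g, Subgroup.mem_inf.2 ⟨hg, Set.eq_of_subset_of_ncard_le ?_ (Set.ncard_smul_set g W).ge⟩, k1, k2, k3, k4⟩
  rintro _ ⟨x, hx, rfl⟩
  show g • x ∈ W
  by_cases e1 : x = a
  · rwa [e1, k1]
  by_cases e2 : x = b
  · rwa [e2, k2]
  by_cases e3 : x = e
  · rwa [e3, k3]
  rwa [k4 x hx e1 e2 e3]

theorem al2_two (a b : Ω) : ({a, b} : Set Ω).ncard ≤ 2 :=
  (Set.ncard_insert_le a {b}).trans (by rw [Set.ncard_singleton])

theorem al2_three (a b e : Ω) : ({a, b, e} : Set Ω).ncard ≤ 3 :=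
  (Set.ncard_insert_le a {b, e}).trans (Nat.succ_le_succ (al2_two b e))

theorem al2_four (a b e f : Ω) : ({a, b, e, f} : Set Ω).ncard ≤ 4 :=
  (Set.ncard_insert_le a {b, e, f}).trans (Nat.succ_le_succ (al2_three b e f))

theorem al2_pair {T A : Set Ω} (h : A.ncard + 2 ≤ T.ncard) : ∃ d ∈ T \ A, ∃ f ∈ T \ A, d ≠ f := by
  have := Set.le_ncard_diff A T
  exact (Set.one_lt_ncard (Set.toFinite _)).1 (by omega)

theorem alt_ker3 {H : Subgroup G} {W : Set Ω} (hA : Alt H W) (h3 : W.ncard = 3) {𝒪 : Set (Set Ω)}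
    (hO : ∀ g ∈ H, ∀ A ∈ 𝒪, g • A ∈ 𝒪) (hc : 𝒪.ncard < 3) : Alt (H ⊓ Ker G 𝒪) W := by
  intro a ha b hb e he h1 h2 h3
  obtain ⟨g, hg, k1, k2, k3, k4⟩ := hA a ha b hb e he h1 h2 h3
  have sq : ∀ A ∈ 𝒪, g • g • A = A := fun A hA => by
    by_contra hn
    have n1 : g • A ≠ A := fun k => hn (by rw [k, k])
    exact hc.not_ge ((Set.two_lt_ncard (Set.toFinite _)).2 ⟨_, hO g hg _ (hO g hg A hA), _, hO g hg A hA, A, hA,
      fun k => n1 (smul_left_cancel g k), hn, n1⟩)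
  refine ⟨g * g * (g * g), Subgroup.mem_inf.2 ⟨mul_mem (mul_mem hg hg) (mul_mem hg hg), mem_Ker.2 fun A hA => ?_⟩,
    ?_, ?_, ?_, fun x hx e1 e2 e3 => ?_⟩
  · simp only [mul_smul, sq A hA]
  · simp only [mul_smul, k1, k2, k3]
  · simp only [mul_smul, k1, k2, k3]
  · simp only [mul_smul, k1, k2, k3]
  · simp only [mul_smul, k4 x hx e1 e2 e3]

theorem altA {H : Subgroup G} {T : Set Ω} (h3 : 3 ≤ s) (hT : s ≤ T.ncard)
    (h : ∀ W ⊆ T, W.ncard = s → Alt (H ⊓ fixingSubgroup G (T \ W)) W) : Alt H T := by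
  intro a ha b hb e he h1 h2 h4
  obtain ⟨W, w1, w2, w3⟩ := Set.exists_subsuperset_card_eq (s := {a, b, e}) (t := T)
    (Set.insert_subset ha (Set.pair_subset hb he)) ((al2_three a b e).trans h3) hT
  obtain ⟨g, hg, k1, k2, k3, k4⟩ := h W w2 w3 a (w1 (by simp)) b (w1 (by simp)) e (w1 (by simp)) h1 h2 h4
  refine ⟨g, (Subgroup.mem_inf.1 hg).1, k1, k2, k3, fun x hx e1 e2 e3 => ?_⟩
  by_cases m : x ∈ W
  · exact k4 x m e1 e2 e3
  · exact (mem_fixingSubgroup_iff G).1 (Subgroup.mem_inf.1 hg).2 x ⟨hx, m⟩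

theorem al2_alt {H : Subgroup G} {T : Set Ω} (h5 : 5 ≤ T.ncard) (h : Dbl H T) : Alt H T := by
  intro a ha b hb e he h1 h2 h3
  obtain ⟨d, ⟨hd, hd'⟩, f, ⟨hf, hf'⟩, df⟩ := al2_pair (T := T) (A := {a, b, e}) (by have := al2_three a b e; omega)
  simp only [Set.mem_insert_iff, Set.mem_singleton_iff, not_or] at hd' hf'
  obtain ⟨g, hg, k1, k2, k3, k4, k5⟩ := h a ha b hb d hd f hf h1 (Ne.symm hd'.1) (Ne.symm hf'.1) (Ne.symm hd'.2.1)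
    (Ne.symm hf'.2.1) df
  obtain ⟨g', hg', j1, j2, j3, j4, j5⟩ := h a ha e he d hd f hf h2 (Ne.symm hd'.1) (Ne.symm hf'.1) (Ne.symm hd'.2.2)
    (Ne.symm hf'.2.2) df
  refine ⟨g' * g, mul_mem hg' hg, ?_, ?_, ?_, fun x hx e1 e2 e3 => ?_⟩
  · rw [mul_smul, k1, j5 b hb h1.symm h3 (Ne.symm hd'.2.1) (Ne.symm hf'.2.1)]
  · rw [mul_smul, k2, j1]
  · rw [mul_smul, k5 e he h2.symm h3.symm (Ne.symm hd'.2.2) (Ne.symm hf'.2.2), j2]
  by_cases e4 : x = d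
  · rw [mul_smul, e4, k3, j4]
  by_cases e5 : x = f
  · rw [mul_smul, e5, k4, j3]
  rw [mul_smul, k5 x hx e1 e2 e4 e5, j5 x hx e1 e3 e4 e5]

theorem altB {H : Subgroup G} {T : Set Ω} (h4 : 4 ≤ s) (hT : s ≤ T.ncard) (h5 : 5 ≤ T.ncard)
    (h : ∀ W ⊆ T, W.ncard = s → Dbl (H ⊓ fixingSubgroup G (T \ W)) W) : Alt H T := by
  refine al2_alt h5 fun a ha b hb e he f hf h1 h2 h3 h6 h7 h8 => ?_
  obtain ⟨W, w1, w2, w3⟩ := Set.exists_subsuperset_card_eq (s := {a, b, e, f}) (t := T)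
    (Set.insert_subset ha (Set.insert_subset hb (Set.pair_subset he hf))) ((al2_four a b e f).trans h4) hT
  obtain ⟨g, hg, k1, k2, k3, k4, k5⟩ := h W w2 w3 a (w1 (by simp)) b (w1 (by simp)) e (w1 (by simp)) f (w1 (by simp))
    h1 h2 h3 h6 h7 h8
  refine ⟨g, (Subgroup.mem_inf.1 hg).1, k1, k2, k3, k4, fun x hx e1 e2 e3 e4 => ?_⟩
  by_cases m : x ∈ W
  · exact k5 x m e1 e2 e3 e4
  · exact (mem_fixingSubgroup_iff G).1 (Subgroup.mem_inf.1 hg).2 x ⟨hx, m⟩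

theorem alt_ker5 {H : Subgroup G} {W : Set Ω} (hA : Alt H W) (hi : Inv H W) (h5 : 5 ≤ W.ncard) {𝒪 : Set (Set Ω)}
    (hO : ∀ g ∈ H, ∀ A ∈ 𝒪, g • A ∈ 𝒪) (hc : 𝒪.ncard < W.ncard) : Alt (H ⊓ Ker G 𝒪) W :=
  al2_alt h5 (dbl_ker hA hi (by omega) hO hc)

theorem trans_ker {H : Subgroup G} {W : Set Ω} (hA : Alt H W) (hi : Inv H W) (h3 : 3 ≤ W.ncard) {𝒪 : Set (Set Ω)}
    (hO : ∀ g ∈ H, ∀ A ∈ 𝒪, g • A ∈ 𝒪) (hc : 𝒪.ncard < W.ncard) {a b : Ω} (ha : a ∈ W) (hb : b ∈ W) :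
    ∃ g ∈ H ⊓ Ker G 𝒪, g • a = b := by
  by_cases hab : a = b
  · exact ⟨1, one_mem _, by rw [one_smul, hab]⟩
  have h2 := al2_two a b
  rcases h3.eq_or_lt with h | h
  · have := Set.le_ncard_diff {a, b} W
    obtain ⟨e, he, he'⟩ := Set.nonempty_of_ncard_ne_zero (s := W \ {a, b}) (by omega)
    simp only [Set.mem_insert_iff, Set.mem_singleton_iff, not_or] at he'
    obtain ⟨g, hg, k, -⟩ := alt_ker3 hA h.symm hO (h ▸ hc) a ha b hb e he hab (Ne.symm he'.1) (Ne.symm he'.2)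
    exact ⟨g, hg, k⟩
  · obtain ⟨d, ⟨hd, hd'⟩, f, ⟨hf, hf'⟩, df⟩ := al2_pair (T := W) (A := {a, b}) (by omega)
    simp only [Set.mem_insert_iff, Set.mem_singleton_iff, not_or] at hd' hf'
    obtain ⟨g, hg, k, -⟩ := dbl_ker hA hi h hO hc a ha b hb d hd f hf hab (Ne.symm hd'.1) (Ne.symm hf'.1)
      (Ne.symm hd'.2) (Ne.symm hf'.2) df
    exact ⟨g, hg, k⟩

theorem alt_up {H : Subgroup G} {T : Set Ω} (hi : Inv H T) (h3 : 3 ≤ s) (hT : s < T.ncard) (hT' : T.ncard < 2 * s)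
    (h : ∀ W ⊆ T, W.ncard = s → Alt H W) : Alt H T := by
  have hO : ∀ W : Set Ω, ∀ g ∈ H ⊓ MulAction.stabilizer G W, ∀ A ∈ (fun x => ({x} : Set Ω)) '' (T \ W),
      g • A ∈ (fun x => ({x} : Set Ω)) '' (T \ W) := by
    rintro W g hg _ ⟨x, hx, rfl⟩
    refine ⟨g • x, ⟨hi g (Subgroup.mem_inf.1 hg).1 x hx.1, fun m => hx.2 ?_⟩, Set.smul_set_singleton.symm⟩
    rwa [← MulAction.mem_stabilizer_iff.1 (Subgroup.mem_inf.1 hg).2, Set.smul_mem_smul_set_iff] at m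
  have hc : ∀ W ⊆ T, W.ncard = s → ((fun x => ({x} : Set Ω)) '' (T \ W)).ncard < W.ncard := fun W h1 h2 => by
    have := Set.ncard_image_le (f := fun x => ({x} : Set Ω)) (s := T \ W)
    have := Set.ncard_sdiff_add_ncard_of_subset h1
    omega
  have hl : ∀ W : Set Ω, H ⊓ MulAction.stabilizer G W ⊓ Ker G ((fun x => ({x} : Set Ω)) '' (T \ W)) ≤
      H ⊓ fixingSubgroup G (T \ W) := fun W g hg =>
    Subgroup.mem_inf.2 ⟨(Subgroup.mem_inf.1 (Subgroup.mem_inf.1 hg).1).1, (mem_fixingSubgroup_iff G).2 fun x hx =>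
      Set.singleton_injective (Set.smul_set_singleton.symm.trans
        (mem_Ker.1 (Subgroup.mem_inf.1 hg).2 _ ⟨x, hx, rfl⟩))⟩
  rcases h3.eq_or_lt with e | e
  · exact altA h3 hT.le fun W h1 h2 =>
      (alt_ker3 (h W h1 h2).stab (h2.trans e.symm) (hO W) (e ▸ h2 ▸ hc W h1 h2)).mono (hl W)
  · exact altB e hT.le (by omega) fun W h1 h2 =>
      (dbl_ker (h W h1 h2).stab (inv_stab.mono inf_le_right) (h2 ▸ e) (hO W) (hc W h1 h2)).mono (hl W)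

end Cfsg.Agent.SyF
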