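import Mathlib
import Cfsg.Agent.SyF.Bas

set_option autoImplicit false
set_option linter.unusedSectionVars false

namespace Cfsg.Agent.SyF

open Pointwise

universe u v

variable {p : ℕ} [Fact p.Prime] {G : Type u} [Group G] [Finite G] {Ω : Type v} [MulAction G Ω] [Finite Ω]
  {c : Ar p G Ω} {s l : ℕ}

theorem Cnt_modEq {K : Subgroup G} (hK : IsPGroup p K) {A : Set Ω} (hA : Inv K A) :
    A.ncard ≡ (A ∩ Fix K).ncard [MOD p] := by
  let S : SubMulAction K Ω := ⟨A, fun g a ha => hA g g.2 a ha⟩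
  have h := hK.card_modEq_card_fixedPoints S
  rw [show Nat.card (MulAction.fixedPoints K S) = (A ∩ Fix K).ncard from Nat.card_congr
    ⟨fun a => ⟨a.1.1, a.1.2, fun g hg => congrArg Subtype.val (a.2 ⟨g, hg⟩)⟩,
      fun a => ⟨⟨a.1, a.2.1⟩, fun g => Subtype.ext (a.2.2 g g.2)⟩, fun _ => rfl, fun _ => rfl⟩] at h
  exact h

theorem Cnt_fix {K : Subgroup G} (hK : IsPGroup p K) {R : Sylow p G} : R ∈ Fix K ↔ K ≤ (R : Subgroup G) :=
  ⟨fun h => hK.sylow_mem_fixedPoints_iff.1 fun g => h g g.2,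
    fun h g hg => hK.sylow_mem_fixedPoints_iff.2 h ⟨g, hg⟩⟩

theorem exists_le_of_norm {Z : Set Ω} (hZ : (c.SS Z).Nonempty) {K : Subgroup G} (hK : IsPGroup p K)
    (hn : ∀ g ∈ K, ∀ R ∈ c.SS Z, g • R ∈ c.SS Z) : ∃ R ∈ c.SS Z, K ≤ (R : Subgroup G) := by
  obtain ⟨R, hR⟩ := hZ
  have h1 := Cnt_modEq R.2 (A := c.SS Z) fun g hg Q hQ => by
    rw [← X_smul_eq (mem_SS_iff_le.1 hR hg) (sub_cl (S := Z))]
    exact smul_mem_SS.2 hQ
  rw [show c.SS Z ∩ Fix (R : Subgroup G) = {R} from Set.ext fun Q =>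
    ⟨fun h => Sylow.ext (R.3 Q.2 ((Cnt_fix R.2).1 h.2)), fun h => by
      rw [show Q = R from h]; exact ⟨hR, (Cnt_fix R.2).2 le_rfl⟩⟩,
    Set.ncard_singleton] at h1
  obtain ⟨Q, h2, h3⟩ := Set.nonempty_of_ncard_ne_zero (s := c.SS Z ∩ Fix K) fun e => by
    have h2 := h1.symm.trans (Cnt_modEq hK (A := c.SS Z) hn)
    rw [e] at h2
    exact (Fact.out : p.Prime).one_lt.ne' (Nat.dvd_one.1 ((Nat.modEq_zero_iff_dvd).1 h2))
  exact ⟨Q, h2, (Cnt_fix hK).1 h3⟩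

theorem fx_congr {L : Subgroup G} {P Q : Sylow p G} (hP : (P : Subgroup G) ≤ L) (hQ : (Q : Subgroup G) ≤ L) {A : Set Ω}
    (hA : Inv L A) : fx P A = fx Q A := by
  obtain ⟨x, hx, rfl⟩ := exists_conj hP hQ
  rw [fx, fx, ← Set.ncard_smul_set x, Set.smul_set_inter, hA.smul_eq hx]
  congr 2
  ext a
  rw [Set.mem_smul_set_iff_inv_smul_mem, ← smul_mem_Fix (x := x), smul_inv_smul]

theorem dc {L : Subgroup G} {P : Sylow p G} (hP : (P : Subgroup G) ≤ L) {A : Set Ω} (hA : Inv L A) :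
    ∑ a ∈ (Set.toFinite A).toFinset, {Q : Sylow p G | (Q : Subgroup G) ≤ L ∧ a ∈ Fix (Q : Subgroup G)}.ncard =
      {Q : Sylow p G | (Q : Subgroup G) ≤ L}.ncard * fx P A := by
  classical
  have h := Finset.sum_card_bipartiteAbove_eq_sum_card_bipartiteBelow (s := (Set.toFinite A).toFinset)
    (t := (Set.toFinite {Q : Sylow p G | (Q : Subgroup G) ≤ L}).toFinset) fun a (Q : Sylow p G) => a ∈ Fix (Q : Subgroup G)
  rw [Set.ncard_eq_toFinset_card _ (Set.toFinite _), ← smul_eq_mul, ← Finset.sum_const]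
  refine (Finset.sum_congr rfl fun a _ => ?_).trans (h.trans (Finset.sum_congr rfl fun Q hQ => ?_))
  · rw [← Set.ncard_coe_finset]
    congr 1
    ext Q
    simp
  · rw [fx_congr hP (by simpa using hQ) hA, fx, ← Set.ncard_coe_finset]
    congr 1
    ext a
    simp

theorem dcS {S : Set Ω} {P : Sylow p G} (hP : P ∈ c.SS S) {A : Set Ω} (hA : Inv (c.X S) A) :
    ∑ y ∈ (Set.toFinite A).toFinset, c.nu (insert y S) = c.nu S * fx P A := by
  have h := dc (mem_SS_iff_le.1 hP) hA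
  rw [show {Q : Sylow p G | (Q : Subgroup G) ≤ c.X S} = c.SS S from Set.ext fun _ => mem_SS_iff_le.symm] at h
  refine (Finset.sum_congr rfl fun a _ => congrArg Set.ncard (Set.ext fun Q => ?_)).trans h
  rw [mem_SS_insert, mem_SS_iff_le, and_comm]
  rfl

theorem dcS_const {S : Set Ω} {P : Sylow p G} (hP : P ∈ c.SS S) {A : Set Ω} (hA : Inv (c.X S) A) {n : ℕ}
    (hn : ∀ y ∈ A, c.nu (insert y S) = n) : A.ncard * n = c.nu S * fx P A := by
  rw [← dcS hP hA, Finset.sum_congr rfl fun y hy => hn y (by simpa using hy), Finset.sum_const, smul_eq_mul,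
    Set.ncard_eq_toFinset_card _ (Set.toFinite _)]

theorem fx_le (P : Sylow p G) (A : Set Ω) : fx P A ≤ A.ncard := Set.ncard_le_ncard Set.inter_subset_left

theorem dvd_mov {P : Sylow p G} {A : Set Ω} (hA : Inv (P : Subgroup G) A) : (p : ℤ) ∣ (A.ncard : ℤ) - fx P A :=
  Nat.modEq_iff_dvd.1 (Cnt_modEq P.2 hA).symm

theorem Cnt_ne : (p : ℤ) ≠ 0 := Int.natCast_ne_zero.2 (Fact.out : p.Prime).ne_zero

theorem D_mul {P : Sylow p G} {A : Set Ω} (hA : Inv (P : Subgroup G) A) :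
    (p : ℤ) * D P A = ((p : ℤ) - 1) * A.ncard - (2 * (p : ℤ) - 1) * fx P A := by
  obtain ⟨m, hm⟩ := dvd_mov hA
  rw [D, hm, Int.mul_ediv_cancel_left _ Cnt_ne]
  linear_combination (-(2 * (p : ℤ) - 1)) * hm

theorem D_union {P : Sylow p G} {A B : Set Ω} (hA : Inv (P : Subgroup G) A) (hB : Inv (P : Subgroup G) B)
    (h : Disjoint A B) : D P (A ∪ B) = D P A + D P B := by
  refine mul_left_cancel₀ (Cnt_ne (p := p)) ?_
  have h1 : fx P (A ∪ B) = fx P A + fx P B := by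
    rw [fx, Set.union_inter_distrib_right,
      Set.ncard_union_eq (h.mono Set.inter_subset_left Set.inter_subset_left), fx, fx]
  rw [mul_add, D_mul hA, D_mul hB, D_mul (hA.union hB), h1, Set.ncard_union_eq h]
  push_cast
  ring

theorem D_diff {P : Sylow p G} {A B : Set Ω} (hA : Inv (P : Subgroup G) A) (hB : Inv (P : Subgroup G) B)
    (h : B ⊆ A) : D P (A \ B) = D P A - D P B := by
  have := D_union (hA.diff hB) hB Set.disjoint_sdiff_left
  rw [Set.diff_union_of_subset h] at this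
  rw [this, add_sub_cancel_right]

theorem D_fixed {P : Sylow p G} {A : Set Ω} (hA : A ⊆ Fix (P : Subgroup G)) : D P A = -A.ncard := by
  rw [D, fx, Set.inter_eq_left.2 hA, sub_self, Int.zero_ediv, mul_zero, zero_sub]

theorem Cnt_ge {L : Subgroup G} {P : Sylow p G} (hP : (P : Subgroup G) ≤ L) (n : ℕ) : ∀ C : Set Ω, C.ncard = n →
    Inv L C → (∀ a ∈ C, 0 ≤ D P (Reg L {a})) → 0 ≤ D P C := by
  induction n using Nat.strong_induction_on with
  | _ n ih =>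
    rintro C rfl hC h
    rcases C.eq_empty_or_nonempty with rfl | ⟨a, ha⟩
    · rw [D_fixed (Set.empty_subset _), Set.ncard_empty]; rfl
    have h1 : Reg L {a} ⊆ C := Reg_sub hC (Set.singleton_subset_iff.2 ha)
    have h2 := ih _ (Set.ncard_lt_ncard (s := C \ Reg L {a})
      ⟨Set.diff_subset, fun e => (e ha).2 (sub_Reg rfl)⟩) _ rfl (hC.diff inv_Reg) fun b hb => h b hb.1
    have h3 := h a ha
    rw [D_diff (hC.mono hP) (inv_Reg.mono hP) h1] at h2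
    omega

theorem D_ge0 {L : Subgroup G} {P : Sylow p G} (hP : (P : Subgroup G) ≤ L) {C : Set Ω} (hC : Inv L C)
    (h : ∀ a ∈ C, a ∉ Fix L → 0 ≤ D P (Reg L {a})) : -((C ∩ Fix L).ncard : ℤ) ≤ D P C := by
  have h1 : Inv L (C ∩ Fix L) := inv_of_sub_Fix Set.inter_subset_right
  have h2 := Cnt_ge hP _ _ rfl (hC.diff h1) fun a ha => h a ha.1 fun e => ha.2 ⟨ha.1, e⟩
  rw [D_diff (hC.mono hP) (h1.mono hP) Set.inter_subset_left,
    D_fixed (Set.inter_subset_right.trans (Fix_anti hP))] at h2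
  omega

theorem orb_mov {𝒯 : Set (Sylow p G)} {P : Sylow p G} (hP : P ∈ 𝒯) {a : Ω} (ha : a ∉ Fix (gen 𝒯)) :
    (∃ b ∈ Reg (gen 𝒯) {a}, b ∉ Fix (P : Subgroup G)) ∧ p + fx P (Reg (gen 𝒯) {a}) ≤ (Reg (gen 𝒯) {a}).ncard := by
  obtain ⟨Q, hQ, h1⟩ : ∃ Q ∈ 𝒯, a ∉ Fix (Q : Subgroup G) := by
    by_contra k
    exact ha (mem_Fix_gen.2 fun Q hQ => by_contra fun e => k ⟨Q, hQ, e⟩)
  obtain ⟨x, hx, rfl⟩ := exists_conj (le_gen hP) (le_gen hQ)
  have h2 : x⁻¹ • a ∈ Reg (gen 𝒯) {a} := ⟨x⁻¹, inv_mem hx, a, rfl, rfl⟩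
  have h3 : x⁻¹ • a ∉ Fix (P : Subgroup G) := fun e => h1 (by simpa using (smul_mem_Fix (x := x)).2 e)
  refine ⟨⟨_, h2, h3⟩, ?_⟩
  have h4 : fx P (Reg (gen 𝒯) {a}) < (Reg (gen 𝒯) {a}).ncard :=
    Set.ncard_lt_ncard ⟨Set.inter_subset_left, fun e => h3 (e h2).2⟩
  have h5 := Int.le_of_dvd (by omega) (dvd_mov ((inv_Reg (K := {a})).mono (le_gen hP)))
  omega

end Cfsg.Agent.SyF
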