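import Mathlib
import Cfsg.Agent.SyF.Cnt

set_option autoImplicit false
set_option linter.unusedSectionVars false

namespace Cfsg.Agent.SyF

open Pointwise

universe u v

variable {p : ℕ} [Fact p.Prime] {G : Type u} [Group G] [Finite G] {Ω : Type v} [MulAction G Ω] [Finite Ω]
  {c : Ar p G Ω} {s l : ℕ}

theorem blk_count {𝓒 : Set (Set Ω)} {k : ℕ} (h1 : ∀ B ∈ 𝓒, B.ncard = k)
    (h2 : ∀ B ∈ 𝓒, ∀ B' ∈ 𝓒, ∀ a ∈ B, a ∈ B' → B = B') : (⋃₀ 𝓒).ncard = k * 𝓒.ncard := by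
  induction 𝓒, Set.toFinite 𝓒 using Set.Finite.induction_on with
  | empty => simp
  | @insert B 𝓒 hB _ ih =>
    rw [Set.sUnion_insert, Set.ncard_union_eq, Set.ncard_insert_of_notMem hB, h1 B (Set.mem_insert _ _),
      ih (fun B hB => h1 B (Set.mem_insert_of_mem _ hB)) fun B hB B' hB' =>
        h2 B (Set.mem_insert_of_mem _ hB) B' (Set.mem_insert_of_mem _ hB'), mul_add, mul_one, add_comm]
    refine Set.disjoint_left.2 fun a ha ⟨B', hB', ha'⟩ => hB ?_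
    rwa [h2 B (Set.mem_insert _ _) B' (Set.mem_insert_of_mem _ hB') a ha ha']

theorem blk0 {L : Subgroup G} {P : Sylow p G} (hP : (P : Subgroup G) ≤ L) {K : Set Ω}
    (hb : ∀ x ∈ L, ∀ a ∈ K, x • a ∈ K → ∀ b ∈ K, x • b ∈ K)
    (hf : ∀ Q : Sylow p G, (Q : Subgroup G) ≤ L → Inv (Q : Subgroup G) K → K ⊆ Fix (Q : Subgroup G)) :
    ∃ r φ : ℕ, (Reg L K).ncard = K.ncard * r ∧ fx P (Reg L K) = K.ncard * φ ∧ φ ≤ r ∧ (p : ℤ) ∣ (r : ℤ) - φ := by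
  have h1 : ∀ B ∈ Reg L ({K} : Set (Set Ω)), B.ncard = K.ncard := by
    rintro _ ⟨x, -, _, rfl, rfl⟩
    exact Set.ncard_smul_set _ _
  have h2 : ∀ B ∈ Reg L ({K} : Set (Set Ω)), ∀ B' ∈ Reg L ({K} : Set (Set Ω)), ∀ a ∈ B, a ∈ B' → B = B' := by
    rintro _ ⟨x, hx, U, rfl, rfl⟩ _ ⟨x', hx', _, rfl, rfl⟩ _ ⟨u, hu, rfl⟩ h
    rw [Set.mem_smul_set_iff_inv_smul_mem, smul_smul] at h
    rw [← inv_smul_eq_iff, smul_smul]
    refine Set.eq_of_subset_of_ncard_le ?_ (Set.ncard_smul_set _ _).ge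
    rintro _ ⟨b, hb', rfl⟩
    exact hb _ (mul_mem (inv_mem hx') hx) u hu h b hb'
  have e1 : Reg L K = ⋃₀ Reg L ({K} : Set (Set Ω)) := by
    ext a
    constructor
    · rintro ⟨x, hx, z, hz, rfl⟩
      exact ⟨_, ⟨x, hx, K, rfl, rfl⟩, Set.smul_mem_smul_set hz⟩
    · rintro ⟨_, ⟨x, hx, _, rfl, rfl⟩, z, hz, rfl⟩
      exact ⟨x, hx, z, hz, rfl⟩
  have e2 : Reg L K ∩ Fix (P : Subgroup G) = ⋃₀ (Reg L ({K} : Set (Set Ω)) ∩ Fix (P : Subgroup G)) := by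
    ext a
    constructor
    · rintro ⟨h, ha⟩
      obtain ⟨B, hB, h⟩ := e1 ▸ h
      exact ⟨B, ⟨hB, fun g hg => h2 _ (inv_Reg g (hP hg) B hB) B hB a ⟨a, h, ha g hg⟩ h⟩, h⟩
    · rintro ⟨_, ⟨⟨x, hx, U, rfl, rfl⟩, hB⟩, z, hz, rfl⟩
      refine ⟨⟨x, hx, z, hz, rfl⟩, ?_⟩
      have := smul_mem_Fix (x := x).2 (hf _ (smul_le_of_mem hP (inv_mem hx)) (fun g hg b hb' => by
        have e := hB _ (bas_mem.1 hg)
        rw [inv_inv, smul_smul, inv_mul_cancel_right, mul_smul, smul_left_cancel_iff] at e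
        exact e ▸ Set.smul_mem_smul_set hb') hz)
      rwa [smul_inv_smul] at this
  refine ⟨(Reg L ({K} : Set (Set Ω))).ncard, fx P (Reg L ({K} : Set (Set Ω))), ?_, ?_, fx_le _ _,
    dvd_mov (inv_Reg.mono hP)⟩
  · rw [e1, blk_count h1 h2]
  · rw [fx, e2, blk_count (fun B hB => h1 B hB.1) fun B hB B' hB' => h2 B hB.1 B' hB'.1, fx]

theorem clw {W S A : Set Ω} (hW : W ⊆ S) {y : Ω} (hg : (c.SS (insert y W)).Nonempty) (hA : Inv (c.X S) A)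
    {P : Sylow p G} (hP : P ∈ c.SS S) :
    (∃ d : ℤ, D P (Reg (c.X S) (c.E W y ∩ A)) = (c.E W y ∩ A).ncard * d) ∧
      ∀ z ∈ c.E W y ∩ A, z ∉ c.cl S → p * (c.E W y ∩ A).ncard ≤ (Reg (c.X S) (c.E W y ∩ A)).ncard := by
  have hP' := mem_SS_iff_le.1 hP
  have key : ∀ x ∈ c.X S, ∀ (b : Ω) (R : Sylow p G), x • R ∈ c.SS (insert (x • b) W) ↔ R ∈ c.SS (insert b W) :=
    fun x hx b R => by
      rw [← smul_mem_SS (g := x) (P := R), Set.smul_set_insert, X_smul_eq hx (hW.trans sub_cl)]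
  obtain ⟨r, φ, h1, h2, h3, m, hm⟩ := blk0 hP' (K := c.E W y ∩ A) (fun x hx a ha ha' b hb =>
    ⟨Set.ext fun R => by
      rw [← smul_inv_smul x R, key x hx, hb.1, ← ha.1, ← key x hx, ha'.1, ha.1], hA x hx b hb.2⟩) fun Q hQ hI b hb => by
      obtain ⟨R, hR, hle⟩ := exists_le_of_norm hg Q.2 fun g hg R hR => by
        rw [← (hI g hg b hb).1, key g (hQ hg), hb.1]
        exact hR
      rw [← hb.1] at hR
      exact Fix_anti hle (mem_SS_insert.1 hR).1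
  have hp : (0 : ℤ) < p := by exact_mod_cast (Fact.out : p.Prime).pos
  refine ⟨⟨(2 * p - 1) * m - r, mul_left_cancel₀ hp.ne' ?_⟩, fun z hz hz' => ?_⟩
  · rw [D_mul (inv_Reg.mono hP'), h1, h2]
    push_cast
    rw [show (φ : ℤ) = r - p * m by rw [← hm]; ring]
    ring
  · obtain ⟨⟨b, hb, hb'⟩, -⟩ := orb_mov hP hz'
    have h4 : fx P (Reg (c.X S) (c.E W y ∩ A)) < (Reg (c.X S) (c.E W y ∩ A)).ncard :=
      Set.ncard_lt_ncard ⟨Set.inter_subset_left, fun h => hb'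
        (h (Reg_sub inv_Reg (Set.singleton_subset_iff.2 (sub_Reg hz)) hb)).2⟩
    rw [h1, h2] at h4
    have h5 := Nat.lt_of_mul_lt_mul_left h4
    have h6 := Int.le_of_dvd (by omega) ⟨m, hm⟩
    rw [h1, mul_comm]
    exact Nat.mul_le_mul_left _ (by omega)

end Cfsg.Agent.SyF
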