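import Mathlib
import Cfsg.Agent.SyF.Cnt

set_option autoImplicit false
set_option linter.unusedSectionVars false

namespace Cfsg.Agent.SyF

open Pointwise

universe u v

variable {p : ℕ} [Fact p.Prime] {G : Type u} [Group G] [Finite G] {Ω : Type v} [MulAction G Ω] [Finite Ω]
  {c : Ar p G Ω} {s l : ℕ}

theorem Mea.two_le : (2 : ℤ) ≤ p := by exact_mod_cast (Fact.out : p.Prime).two_le

theorem Mea.const {S : Set Ω} {P : Sylow p G} (hP : P ∈ c.SS S) {A : Set Ω} (hA : Inv (c.X S) A) {n : ℕ}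
    (hn : ∀ y ∈ A, c.nu (insert y S) = n) :
    (p : ℤ) * c.nu S * D P A = A.ncard * (((p : ℤ) - 1) * c.nu S - (2 * (p : ℤ) - 1) * n) := by
  have h1 : (A.ncard : ℤ) * n = c.nu S * fx P A := by exact_mod_cast dcS_const hP hA hn
  have h2 := D_mul (hA.mono (mem_SS_iff_le.1 hP))
  linear_combination (c.nu S : ℤ) * h2 + (2 * (p : ℤ) - 1) * h1

theorem Mea.reg {S : Set Ω} {P : Sylow p G} (hP : P ∈ c.SS S) (y : Ω) :
    (p : ℤ) * c.nu S * D P (Reg (c.X S) {y}) =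
      (Reg (c.X S) {y}).ncard * (((p : ℤ) - 1) * c.nu S - (2 * (p : ℤ) - 1) * c.nu (insert y S)) :=
  Mea.const hP inv_Reg (by
    rintro _ ⟨x, hx, z, rfl, rfl⟩
    exact nu_ins_X hx _)

theorem Mea.reg_pos (L : Subgroup G) (y : Ω) : (0 : ℤ) < (Reg L {y}).ncard := by
  exact_mod_cast (Set.ncard_pos (Set.toFinite (Reg L {y}))).2 ⟨y, sub_Reg (K := {y}) rfl⟩

theorem Mea.pnu_pos {S : Set Ω} {P : Sylow p G} (hP : P ∈ c.SS S) : (0 : ℤ) < (p : ℤ) * c.nu S := by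
  have h1 : (0 : ℤ) < c.nu S := by exact_mod_cast nu_pos.2 ⟨P, hP⟩
  have := Mea.two_le (p := p)
  positivity

theorem Mea.good {S : Set Ω} {y : Ω} (hy : y ∉ c.cl S) : (c.SS S).Nonempty := by
  by_contra hne
  exact hy (mem_cl.2 fun P hP => absurd ⟨P, hP⟩ hne)

theorem Mea.reg_eq {L : Subgroup G} {y y' : Ω} (h : y' ∈ Reg L {y}) : Reg L {y'} = Reg L {y} := by
  refine Set.Subset.antisymm (Reg_sub inv_Reg (Set.singleton_subset_iff.2 h))
    (Reg_sub inv_Reg (Set.singleton_subset_iff.2 ?_))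
  obtain ⟨x, hx, z, rfl, rfl⟩ := h
  exact ⟨x⁻¹, inv_mem hx, _, rfl, inv_smul_smul _ _⟩

theorem Ar.Cx.D_ge (h : c.Cx) {𝒯 : Set (Sylow p G)} {P : Sylow p G} (hP : P ∈ 𝒯) {C : Set Ω} (hC : Inv (gen 𝒯) C)
    (h0 : (Fix (gen 𝒯) : Set Ω).Nonempty) : -((C ∩ Fix (gen 𝒯)).ncard : ℤ) ≤ D P C := by
  refine D_ge0 (le_gen hP) hC fun a _ ha => h.ih 𝒯 P hP a (fun e => ha ?_) ha
  obtain ⟨a0, ha0⟩ := h0
  obtain ⟨x, hx, z, rfl, rfl⟩ : a0 ∈ Reg (gen 𝒯) {a} := e ▸ Set.mem_univ _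
  have h1 := ha0 x⁻¹ (inv_mem hx)
  rw [inv_smul_smul] at h1
  exact h1 ▸ ha0

theorem Ar.Cx.all_of_neg (h : c.Cx) {𝒯 : Set (Sylow p G)} {P : Sylow p G} (hP : P ∈ 𝒯) {C : Set Ω} (hC : Inv (gen 𝒯) C)
    (h0 : Disjoint C (Fix (gen 𝒯))) (hD : D P C < 0) : C = Set.univ := by
  by_contra hne
  have h1 := D_ge0 (le_gen hP) hC fun a haC ha => h.ih 𝒯 P hP a
    (fun e => hne (Set.eq_univ_of_univ_subset (e ▸ Reg_sub hC (Set.singleton_subset_iff.2 haC)))) ha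
  rw [h0.inter_eq, Set.ncard_empty] at h1
  omega

theorem Ar.Cx.tot (h : c.Cx) (P : Sylow p G) : D P (Set.univ : Set Ω) = -1 := by
  have h1 := h.neg P
  have h2 := D_mul (P := P) (inv_univ (Ω := Ω))
  have h3 := Mea.two_le (p := p)
  have h4 : fx P (Set.univ : Set Ω) ≠ 0 := fun e => by
    rw [e] at h2
    have : (0 : ℤ) ≤ ((p : ℤ) - 1) * (Set.univ : Set Ω).ncard := mul_nonneg (by omega) (by positivity)
    have : (p : ℤ) * D P (Set.univ : Set Ω) < 0 := mul_neg_of_pos_of_neg (by omega) h1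
    omega
  obtain ⟨a, -, ha⟩ := Set.nonempty_of_ncard_ne_zero h4
  obtain ⟨l, hk⟩ := h.k1
  have h5 : Fix (gen (c.SS {a})) = {a} := (hk {a} (Set.ncard_singleton a)).2.1
  have h6 := h.D_ge (𝒯 := c.SS {a}) (P := P) (Set.singleton_subset_iff.2 ha) inv_univ (by rw [h5]; exact Set.singleton_nonempty a)
  rw [h5, Set.univ_inter, Set.ncard_singleton] at h6
  omega

theorem Ar.Cx.D_nonneg (h : c.Cx) {S : Set Ω} (hS : S.Nonempty) {P : Sylow p G} (hP : P ∈ c.SS S) {A : Set Ω}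
    (hA : Inv (c.X S) A) (hd : Disjoint A (c.cl S)) : 0 ≤ D P A := by
  have h1 : -((A ∩ c.cl S).ncard : ℤ) ≤ D P A := h.D_ge (𝒯 := c.SS S) hP hA (hS.mono (sub_cl (c := c)))
  rwa [hd.inter_eq, Set.ncard_empty, Nat.cast_zero, neg_zero] at h1

theorem Mea.reg_disj {S : Set Ω} {y : Ω} (hy : y ∉ c.cl S) : Disjoint (Reg (c.X S) {y}) (c.cl S) :=
  Set.subset_compl_iff_disjoint_right.1 (Reg_sub inv_cl.compl (Set.singleton_subset_iff.2 hy))

theorem Ar.Cx.le_c (h : c.Cx) {S : Set Ω} (hS : S.Nonempty) {y : Ω} (hy : y ∉ c.cl S) :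
    (2 * (p : ℤ) - 1) * c.nu (insert y S) ≤ ((p : ℤ) - 1) * c.nu S := by
  obtain ⟨P, hP⟩ := Mea.good hy
  have h1 := mul_nonneg (Mea.pnu_pos hP).le (h.D_nonneg hS hP inv_Reg (Mea.reg_disj hy))
  rw [Mea.reg hP y] at h1
  exact sub_nonneg.1 ((mul_nonneg_iff_of_pos_left (Mea.reg_pos _ y)).1 h1)

theorem Mea.eq_c (h : c.Cx) {S : Set Ω} (hS : S.Nonempty) {y : Ω} (hy : y ∉ c.cl S) (hU : y ∉ c.U S) :
    (2 * (p : ℤ) - 1) * c.nu (insert y S) = ((p : ℤ) - 1) * c.nu S :=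
  le_antisymm (h.le_c hS hy) (not_lt.1 fun hlt => hU ⟨hy, hlt⟩)

theorem Ar.Cx.D_zero (h : c.Cx) {S : Set Ω} (hS : S.Nonempty) {P : Sylow p G} (hP : P ∈ c.SS S) {A : Set Ω}
    (hA : Inv (c.X S) A) (hd : Disjoint A (c.cl S)) (hU : Disjoint A (c.U S)) : D P A = 0 := by
  rcases A.eq_empty_or_nonempty with rfl | ⟨y, hy⟩
  · rw [D_fixed (Set.empty_subset _), Set.ncard_empty, Nat.cast_zero, neg_zero]
  have h1 : ∀ y ∈ A, (2 * (p : ℤ) - 1) * c.nu (insert y S) = ((p : ℤ) - 1) * c.nu S := fun y hy =>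
    Mea.eq_c h hS (Set.disjoint_left.1 hd hy) (Set.disjoint_left.1 hU hy)
  have h3 := Mea.two_le (p := p)
  have h2 := Mea.const hP hA (n := c.nu (insert y S)) fun y' hy' => by
    exact_mod_cast mul_left_cancel₀ (by omega : 2 * (p : ℤ) - 1 ≠ 0) ((h1 y' hy').trans (h1 y hy).symm)
  rw [h1 y hy, sub_self, mul_zero] at h2
  exact (mul_eq_zero.1 h2).resolve_left (Mea.pnu_pos hP).ne'

theorem Ar.Cx.D_mono (h : c.Cx) {S : Set Ω} (hS : S.Nonempty) {P : Sylow p G} (hP : P ∈ c.SS S) {A B : Set Ω}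
    (hA : Inv (c.X S) A) (hB : Inv (c.X S) B) (hAB : A ⊆ B) (hd : Disjoint B (c.cl S)) : D P A ≤ D P B := by
  have h1 := h.D_nonneg hS hP (hB.diff hA) (hd.mono_left Set.sdiff_subset)
  rw [D_diff (hB.mono (mem_SS_iff_le.1 hP)) (hA.mono (mem_SS_iff_le.1 hP)) hAB] at h1
  omega

theorem Ar.Cx.D_pos (h : c.Cx) {S : Set Ω} (hS : S.Nonempty) {P : Sylow p G} (hP : P ∈ c.SS S) {A : Set Ω}
    (hA : Inv (c.X S) A) (hd : Disjoint A (c.cl S)) {y : Ω} (hy : y ∈ A) (hU : y ∈ c.U S) : 1 ≤ D P A := by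
  have h1 := h.D_mono hS hP inv_Reg hA (Reg_sub hA (Set.singleton_subset_iff.2 hy)) hd
  have h2 := mul_pos (Mea.reg_pos (c.X S) y) (sub_pos.2 hU.2)
  rw [← Mea.reg hP y] at h2
  have h3 := (mul_pos_iff_of_pos_left (Mea.pnu_pos hP)).1 h2
  omega

theorem Mea.D_compl (h : c.Cx) {S : Set Ω} {P : Sylow p G} (hP : P ∈ c.SS S) :
    D P (Set.univ \ c.cl S) = (c.cl S).ncard - 1 := by
  rw [D_diff inv_univ (inv_cl.mono (mem_SS_iff_le.1 hP)) (Set.subset_univ _), h.tot,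
    D_fixed fun a ha => mem_cl.1 ha P hP]
  ring

theorem Ar.Cx.D_U (h : c.Cx) {S : Set Ω} (hS : S.Nonempty) {P : Sylow p G} (hP : P ∈ c.SS S) :
    D P (c.U S) = (c.cl S).ncard - 1 := by
  have h1 := h.D_zero hS hP ((inv_univ.diff inv_cl).diff inv_U)
    (Set.disjoint_sdiff_left.mono_left Set.sdiff_subset) Set.disjoint_sdiff_left
  rw [D_diff ((inv_univ.diff inv_cl).mono (mem_SS_iff_le.1 hP)) (inv_U.mono (mem_SS_iff_le.1 hP))
    (fun y hy => ⟨Set.mem_univ _, hy.1⟩), Mea.D_compl h hP] at h1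
  omega

theorem Ar.Cx.D_le (h : c.Cx) {S : Set Ω} (hS : S.Nonempty) {P : Sylow p G} (hP : P ∈ c.SS S) {A : Set Ω}
    (hA : Inv (c.X S) A) (hd : Disjoint A (c.cl S)) : D P A ≤ (c.cl S).ncard - 1 :=
  (h.D_mono hS hP hA (inv_univ.diff inv_cl) (fun _ hy => ⟨Set.mem_univ _, Set.disjoint_left.1 hd hy⟩)
    Set.disjoint_sdiff_left).trans (Mea.D_compl h hP).le

theorem Ar.Cx.eq_of_D_le (h : c.Cx) {S : Set Ω} (hS : S.Nonempty) {P : Sylow p G} (hP : P ∈ c.SS S) {A B : Set Ω}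
    (hA : Inv (c.X S) A) (hB : Inv (c.X S) B) (hAB : A ⊆ B) (hU : B ⊆ c.U S) (hD : D P B ≤ D P A) : A = B := by
  refine Set.Subset.antisymm hAB fun y hy => ?_
  by_contra hy'
  have h1 := h.D_pos hS hP (hB.diff hA) (U_disj.mono_left (Set.sdiff_subset.trans hU)) ⟨hy, hy'⟩ (hU hy)
  rw [D_diff (hB.mono (mem_SS_iff_le.1 hP)) (hA.mono (mem_SS_iff_le.1 hP)) hAB] at h1
  omega

theorem Mea.orbs_le (h : c.Cx) {S : Set Ω} (hS : S.Nonempty) {P : Sylow p G} (hP : P ∈ c.SS S) (n : ℕ) :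
    ∀ A : Set Ω, A.ncard = n → Inv (c.X S) A → A ⊆ c.U S →
      ({O | ∃ y ∈ A, O = Reg (c.X S) {y}}.ncard : ℤ) ≤ D P A := by
  induction n using Nat.strong_induction_on with
  | _ n ih =>
    intro A hn hA hU
    rcases A.eq_empty_or_nonempty with rfl | ⟨y, hy⟩
    · rw [D_fixed (Set.empty_subset _)]
      simp
    have hR : Reg (c.X S) {y} ⊆ A := Reg_sub hA (Set.singleton_subset_iff.2 hy)
    have h1 : (A \ Reg (c.X S) {y}).ncard < n :=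
      hn ▸ Set.ncard_lt_ncard ⟨Set.sdiff_subset, fun hs => (hs hy).2 (sub_Reg rfl)⟩
    have h2 := ih _ h1 _ rfl (hA.diff inv_Reg) (Set.sdiff_subset.trans hU)
    rw [D_diff (hA.mono (mem_SS_iff_le.1 hP)) (inv_Reg.mono (mem_SS_iff_le.1 hP)) hR] at h2
    have h3 := h.D_pos hS hP inv_Reg (U_disj.mono_left (hR.trans hU)) (sub_Reg (K := {y}) rfl) (hU hy)
    have h4 : {O | ∃ y ∈ A, O = Reg (c.X S) {y}} ⊆
        insert (Reg (c.X S) {y}) {O | ∃ y' ∈ A \ Reg (c.X S) {y}, O = Reg (c.X S) {y'}} := by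
      rintro _ ⟨y', hy', rfl⟩
      by_cases e : y' ∈ Reg (c.X S) {y}
      · exact Or.inl (Mea.reg_eq e)
      · exact Or.inr ⟨y', ⟨hy', e⟩, rfl⟩
    have h5 := (Set.ncard_le_ncard h4).trans (Set.ncard_insert_le _ _)
    omega

theorem Ar.Cx.orbs_lt (h : c.Cx) {S : Set Ω} (hS : S.Nonempty) (hg : (c.SS S).Nonempty) :
    (c.Orbs S).ncard < (c.cl S).ncard := by
  obtain ⟨P, hP⟩ := hg
  have h1 : ((c.Orbs S).ncard : ℤ) ≤ D P (c.U S) := Mea.orbs_le h hS hP _ _ rfl inv_U le_rfl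
  rw [h.D_U hS hP] at h1
  omega

theorem D_prop {S : Set Ω} {P : Sylow p G} (hP : P ∈ c.SS S) {A B : Set Ω} (hA : Inv (c.X S) A) (hB : Inv (c.X S) B)
    {n : ℕ} (hn : ∀ y ∈ A ∪ B, c.nu (insert y S) = n) : D P A * B.ncard = D P B * A.ncard := by
  have h1 := Mea.const hP hA fun y hy => hn y (Or.inl hy)
  have h2 := Mea.const hP hB fun y hy => hn y (Or.inr hy)
  refine mul_left_cancel₀ (Mea.pnu_pos hP).ne' ?_
  linear_combination (B.ncard : ℤ) * h1 - (A.ncard : ℤ) * h2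

theorem Ar.Cx.tw (h : c.Cx) {S S' : Set Ω} (hS : S.Nonempty) (hg : (c.SS S).Nonempty) (h0 : (c.cl S ∩ c.cl S').Nonempty)
    (hU : c.U S = c.U S') : c.cl S ⊆ c.cl S' := by
  obtain ⟨P, hP⟩ := hg
  have h1 : Fix (gen (c.SS S ∪ c.SS S')) = c.cl S ∩ c.cl S' := by
    ext a
    rw [mem_Fix_gen, Set.mem_inter_iff, mem_cl, mem_cl]
    exact ⟨fun e => ⟨fun Q hQ => e Q (Or.inl hQ), fun Q hQ => e Q (Or.inr hQ)⟩,
      fun e Q hQ => hQ.elim (e.1 Q) (e.2 Q)⟩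
  have h2 : Inv (gen (c.SS S ∪ c.SS S')) (Set.univ \ c.U S) := inv_univ.diff (inv_gen.2 fun Q hQ =>
    hQ.elim (fun e => inv_U.mono (mem_SS_iff_le.1 e)) fun e => hU ▸ inv_U.mono (mem_SS_iff_le.1 e))
  have h3 := h.D_ge (𝒯 := c.SS S ∪ c.SS S') (P := P) (Or.inl hP) h2 (h1 ▸ h0)
  rw [h1, D_diff inv_univ (inv_U.mono (mem_SS_iff_le.1 hP)) (Set.subset_univ _), h.tot, h.D_U hS hP] at h3
  have h4 : ((Set.univ \ c.U S) ∩ (c.cl S ∩ c.cl S')).ncard ≤ (c.cl S ∩ c.cl S').ncard :=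
    Set.ncard_le_ncard Set.inter_subset_right
  have h5 : c.cl S ∩ c.cl S' = c.cl S := Set.eq_of_subset_of_ncard_le Set.inter_subset_left (by omega)
  exact Set.inter_eq_left.1 h5

theorem Ar.Cx.av (h : c.Cx) {S : Set Ω} (hS : S.Nonempty) {z : Ω} (hz : z ∉ c.cl S) (hz' : z ∉ c.U S) {A : Set Ω}
    (hA : Inv (c.X S) A) (hA' : ∀ y ∈ A, z ∉ c.cl (insert y S)) {y : Ω} (hy : y ∈ A) :
    (2 * (p : ℤ) - 1) * c.nu (insert y (insert z S)) = ((p : ℤ) - 1) * c.nu (insert y S) := by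
  have h1 := Mea.eq_c h hS hz hz'
  have h2 := Mea.two_le (p := p)
  have h3 : (0 : ℤ) < c.nu S := by exact_mod_cast nu_pos.2 (Mea.good hz)
  obtain ⟨P, hP⟩ : (c.SS (insert z S)).Nonempty := nu_pos.1 (Nat.pos_of_ne_zero fun e => by
    rw [e, Nat.cast_zero, mul_zero] at h1
    exact (mul_pos (by omega) h3).ne h1)
  have h4 : ∑ y ∈ (Set.toFinite A).toFinset, (c.nu (insert y S) : ℤ) = c.nu S * fx P A := by
    exact_mod_cast dcS (SS_anti (Set.subset_insert _ _) hP) hA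
  have h5 : ∑ y ∈ (Set.toFinite A).toFinset, (c.nu (insert y (insert z S)) : ℤ) = c.nu (insert z S) * fx P A := by
    exact_mod_cast dcS hP (hA.mono (X_anti (Set.subset_insert _ _)))
  have h6 : ∑ y ∈ (Set.toFinite A).toFinset, (2 * (p : ℤ) - 1) * c.nu (insert y (insert z S)) =
      ∑ y ∈ (Set.toFinite A).toFinset, ((p : ℤ) - 1) * c.nu (insert y S) := by
    rw [← Finset.mul_sum, ← Finset.mul_sum, h4, h5]
    linear_combination (fx P A : ℤ) * h1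
  refine (Finset.sum_eq_sum_iff_of_le fun y hy => ?_).1 h6 y ((Set.Finite.mem_toFinset _).2 hy)
  rw [Set.insert_comm]
  exact h.le_c (Set.insert_nonempty _ _) (hA' y ((Set.Finite.mem_toFinset _).1 hy))

theorem Ar.Cx.av_pos (h : c.Cx) {S : Set Ω} (hS : S.Nonempty) {z : Ω} (hz : z ∉ c.cl S) (hz' : z ∉ c.U S) {A : Set Ω}
    (hA : Inv (c.X S) A) (hA' : ∀ y ∈ A, z ∉ c.cl (insert y S)) (hU : A ⊆ c.U S) : A ⊆ c.U (insert z S) := by
  intro y hy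
  have h1 := h.av hS hz hz' hA hA' hy
  have h2 := Mea.two_le (p := p)
  have h3 := (hU hy).2
  rw [← Mea.eq_c h hS hz hz'] at h3
  have h4 : (c.nu (insert y S) : ℤ) < c.nu (insert z S) := lt_of_mul_lt_mul_left h3 (by omega)
  have h5 : (2 * (p : ℤ) - 1) * c.nu (insert y (insert z S)) < ((p : ℤ) - 1) * c.nu (insert z S) :=
    h1 ▸ mul_lt_mul_of_pos_left h4 (by omega)
  refine ⟨fun e => ?_, h5⟩
  have h6 : c.nu (insert y (insert z S)) = c.nu (insert z S) := congrArg Set.ncard (mem_cl'.1 e)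
  rw [h6] at h5
  have h7 : (0 : ℤ) ≤ (p : ℤ) * c.nu (insert z S) := by positivity
  linarith

end Cfsg.Agent.SyF
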