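import Mathlib
import Cfsg.Agent.SyF.Mea

set_option autoImplicit false
set_option linter.unusedSectionVars false

namespace Cfsg.Agent.SyF

open Pointwise

universe u v

variable {p : ℕ} [Fact p.Prime] {G : Type u} [Group G] [Finite G] {Ω : Type v} [MulAction G Ω] [Finite Ω]
  {c : Ar p G Ω} {s l : ℕ}

namespace Ex

theorem p_pos : (0 : ℤ) < p := by exact_mod_cast (Fact.out : p.Prime).pos

theorem two_le : (2 : ℤ) ≤ p := by exact_mod_cast (Fact.out : p.Prime).two_le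

theorem ne_of {W : Set Ω} (h1 : 1 ≤ s) (hW : W.ncard = s) : W.Nonempty :=
  Set.nonempty_of_ncard_ne_zero (by omega)

theorem reg_disj {S : Set Ω} {y : Ω} (hy : y ∉ c.cl S) : Disjoint (Reg (c.X S) {y}) (c.cl S) :=
  Set.disjoint_left.2 fun _ ha => Reg_sub inv_cl.compl (Set.singleton_subset_iff.2 hy) ha

theorem nu_reg {S : Set Ω} {y : Ω} : ∀ z ∈ Reg (c.X S) {y}, c.nu (insert z S) = c.nu (insert y S) := by
  rintro _ ⟨x, hx, z, rfl, rfl⟩
  exact nu_ins_X hx _

theorem card_ins {W : Set Ω} (hW : W.ncard = s) {z : Ω} (hz : z ∉ W) : (insert z W).ncard = s + 1 := by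
  rw [Set.ncard_insert_of_notMem hz, hW]

theorem card_del {V : Set Ω} (hV : V.ncard = s + 1) {a : Ω} (ha : a ∈ V) : (V \ {a}).ncard = s := by
  have := Set.ncard_diff_singleton_add_one ha
  omega

theorem ins_del {V : Set Ω} {a : Ω} (ha : a ∈ V) : insert a (V \ {a}) = V := by
  rw [Set.insert_diff_singleton, Set.insert_eq_of_mem ha]

theorem orb_ge {S : Set Ω} {P : Sylow p G} (hP : P ∈ c.SS S) {y : Ω} (hy : y ∉ c.cl S) :
    p + fx P (Reg (c.X S) {y}) ≤ (Reg (c.X S) {y}).ncard := (orb_mov hP hy).2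

theorem inv_P {S A : Set Ω} {P : Sylow p G} (hP : P ∈ c.SS S) (hA : Inv (c.X S) A) : Inv (P : Subgroup G) A :=
  hA.mono (mem_SS_iff_le.1 hP)

end Ex

open Ex

theorem Ar.Cx.good1 (h : c.Cx) (k : c.K s l) (h1 : 1 ≤ s) (hp : s + 1 ≤ p) {V : Set Ω} (hV : V.ncard = s + 1) :
    (c.SS V).Nonempty := by
  obtain ⟨y, hy⟩ : V.Nonempty := Set.nonempty_of_ncard_ne_zero (by omega)
  have hW := card_del hV hy
  obtain ⟨⟨P, hP⟩, hc, -, -⟩ := k _ hW
  by_contra hn
  have h0 : c.nu (insert y (V \ {y})) = 0 := by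
    rw [ins_del hy]
    exact Nat.eq_zero_of_not_pos fun h => hn (nu_pos.1 h)
  have yc : y ∉ c.cl (V \ {y}) := by rw [hc]; simp
  have h2 := dcS_const hP inv_Reg (n := 0) (fun z hz => (nu_reg z hz).trans h0)
  have h3 : fx P (Reg (c.X (V \ {y})) {y}) = 0 := by
    have := (nu_pos (c := c)).2 ⟨P, hP⟩
    rw [mul_zero] at h2
    exact (mul_eq_zero.1 h2.symm).resolve_left this.ne'
  have h4 := orb_ge hP yc
  have h5 := D_mul (inv_P hP (inv_Reg (K := {y})))
  have h6 := h.D_le (ne_of h1 hW) hP inv_Reg (reg_disj yc)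
  rw [hc, hW] at h6
  rw [h3] at h4 h5
  have h7 : (p : ℤ) ≤ (Reg (c.X (V \ {y})) {y}).ncard := by exact_mod_cast (by omega)
  have h8 : (s : ℤ) + 1 ≤ p := by exact_mod_cast hp
  have h9 := p_pos (p := p)
  push_cast at h5
  nlinarith

theorem Ar.St.ex (h : c.St s l) {W : Set Ω} (hW : W.ncard = s) {b z : Ω} (hb : b ∉ W) (hz : z ∉ W)
    (hm : b ∈ c.cl (insert z W)) : z ∈ c.cl (insert b W) := by
  by_contra hn
  obtain ⟨hg, hc, hl, -⟩ := h.k W hW
  have hne := ne_of h.one hW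
  have e1 : c.SS (insert z (insert b W)) = c.SS (insert z W) := by rw [Set.insert_comm]; exact mem_cl'.1 hm
  have e2 : c.nu (insert z (insert b W)) = c.nu (insert z W) := (SS_congr e1).2.2.1
  obtain ⟨P, hP⟩ := h.cx.good1 h.k h.one (by have := h.le; omega) (card_ins hW hz)
  have hPb : P ∈ c.SS (insert b W) := SS_anti (Set.subset_insert _ _) (e1 ▸ hP)
  have hPW : P ∈ c.SS W := SS_anti (Set.subset_insert _ _) hP
  have n0 : 0 < c.nu (insert z W) := nu_pos.2 ⟨P, hP⟩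
  have l0 : 0 < l := hl ▸ nu_pos.2 hg
  have c1 := h.cx.le_c (Set.insert_nonempty b W) hn
  have c2 := h.cx.le_c hne (y := b) (by rwa [hc])
  have zc : z ∉ c.cl W := by rwa [hc]
  rw [e2] at c1
  rw [hl] at c2
  have d1 := dcS_const hPW inv_Reg nu_reg (A := Reg (c.X W) {z})
  have d2 := D_mul (inv_P hPW (inv_Reg (K := {z})))
  have d3 := h.cx.D_le hne hPW inv_Reg (reg_disj zc)
  rw [hc, hW] at d3
  rw [hl] at d1
  have hp := p_pos (p := p)
  have hs : (s : ℤ) + 2 ≤ p := by exact_mod_cast h.le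
  have hs1 : (1 : ℤ) ≤ s := by exact_mod_cast h.one
  have hinv : Inv (c.X (insert b W)) (Reg (c.X W) {z}) := inv_Reg.mono (X_anti (Set.subset_insert _ _))
  have hsub : Reg (c.X (insert b W)) {z} ⊆ Reg (c.X W) {z} := Reg_sub hinv sub_Reg
  have hd : ∀ x ∈ Reg (c.X W) {z}, x ∉ c.cl (insert b W) := fun x hx hx' => by
    have h1 : c.nu (insert b W) ≤ c.nu (insert x W) := by
      rw [← (SS_congr (mem_cl'.1 hx')).2.2.1]
      exact nu_anti (Set.insert_subset_insert (Set.subset_insert _ _))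
    rw [nu_reg x hx] at h1
    have h2 : (c.nu (insert b W) : ℤ) ≤ c.nu (insert z W) := by exact_mod_cast h1
    have h3 : (0 : ℤ) < c.nu (insert z W) := by exact_mod_cast n0
    nlinarith
  have zm : z ∈ Reg (c.X W) {z} := sub_Reg rfl
  have g0 : 0 < (Reg (c.X W) {z}).ncard := (Set.ncard_pos (Set.toFinite _)).2 ⟨z, zm⟩
  have lt : (Reg (c.X W) {z}).ncard < 2 * p := by
    have d1' : ((Reg (c.X W) {z}).ncard : ℤ) * c.nu (insert z W) = l * fx P (Reg (c.X W) {z}) := by exact_mod_cast d1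
    have l0' : (0 : ℤ) < l := by exact_mod_cast l0
    have g0' : (0 : ℤ) < (Reg (c.X W) {z}).ncard := by exact_mod_cast g0
    generalize ((Reg (c.X W) {z}).ncard : ℕ) = g at *
    generalize (fx P (Reg (c.X W) {z}) : ℤ) = f at *
    generalize D P (Reg (c.X W) {z}) = d at *
    generalize (c.nu (insert z W) : ℤ) = n at *
    generalize (c.nu (insert b W) : ℤ) = m at *
    have a1 : (2 * (p : ℤ) - 1) ^ 2 * n ≤ (p - 1) ^ 2 * l := by nlinarith
    have a2 : (2 * (p : ℤ) - 1) ^ 2 * f ≤ (p - 1) ^ 2 * g := by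
      refine le_of_mul_le_mul_left ?_ l0'
      have := mul_le_mul_of_nonneg_left a1 g0'.le
      calc (l : ℤ) * ((2 * p - 1) ^ 2 * f) = g * ((2 * p - 1) ^ 2 * n) := by linear_combination (-(2 * (p : ℤ) - 1) ^ 2) * d1'
        _ ≤ _ := this
        _ = _ := by ring
    have a3 : ((p : ℤ) - 1) * g ≤ (2 * p - 1) * d := by
      refine le_of_mul_le_mul_left ?_ hp
      have : (p : ℤ) * ((2 * p - 1) * d) = (2 * p - 1) * ((p - 1) * g) - (2 * p - 1) ^ 2 * f := by
        linear_combination (2 * (p : ℤ) - 1) * d2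
      nlinarith
    have a4 : (2 * (p : ℤ) - 1) * d ≤ (2 * p - 1) * (p - 3) := mul_le_mul_of_nonneg_left (by omega) (by omega)
    have : (g : ℤ) < 2 * p := by
      by_contra hc'
      push Not at hc'
      nlinarith
    exact_mod_cast this
  have eq : Reg (c.X (insert b W)) {z} = Reg (c.X W) {z} := by
    by_contra hne'
    obtain ⟨x, hx, hx'⟩ := Set.exists_of_ssubset (hsub.ssubset_of_ne hne')
    have h1 : Reg (c.X (insert b W)) {x} ⊆ Reg (c.X W) {z} \ Reg (c.X (insert b W)) {z} :=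
      Reg_sub (hinv.diff inv_Reg) (Set.singleton_subset_iff.2 ⟨hx, hx'⟩)
    have h2 := orb_ge hPb (hd x hx)
    have h3 := orb_ge hPb hn
    have h4 := Set.ncard_le_ncard h1
    have h5 := Set.ncard_diff_add_ncard_of_subset hsub
    omega
  have d4 := dcS_const hPb inv_Reg nu_reg (A := Reg (c.X (insert b W)) {z})
  rw [eq, e2, d1] at d4
  have f0 : 0 < fx P (Reg (c.X W) {z}) := by
    have := Nat.mul_pos g0 n0
    rw [d1] at this
    exact Nat.pos_of_mul_pos_left this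
  have d5 : l = c.nu (insert b W) := Nat.eq_of_mul_eq_mul_right f0 d4
  rw [← d5] at c2
  have l0' : (0 : ℤ) < l := by exact_mod_cast l0
  nlinarith

theorem Ar.St.E_eq (h : c.St s l) {W : Set Ω} (hW : W.ncard = s) {z : Ω} (hz : z ∉ W) :
    c.E W z = c.cl (insert z W) \ W := by
  ext x
  constructor
  · intro hx
    have hx : c.SS (insert x W) = c.SS (insert z W) := hx
    refine ⟨mem_cl.2 fun P hP => (mem_SS_insert.1 (hx ▸ hP)).1, fun hx' => hz ?_⟩
    rw [Set.insert_eq_of_mem hx'] at hx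
    rw [← (h.k W hW).2.1]
    exact mem_cl'.2 hx.symm
  · rintro ⟨h1, h2⟩
    have h3 := h.ex hW h2 hz h1
    refine Set.Subset.antisymm (fun P hP => ?_) (fun P hP => ?_)
    · exact mem_SS_insert.2 ⟨mem_cl.1 h3 P hP, (mem_SS_insert.1 hP).2⟩
    · exact mem_SS_insert.2 ⟨mem_cl.1 h1 P hP, (mem_SS_insert.1 hP).2⟩

theorem Ex.span (h : c.St s l) {V' : Set Ω} (hV' : V'.ncard = s + 1) (n : ℕ) :
    ∀ V : Set Ω, V.ncard = s + 1 → V' ⊆ c.cl V → (V' \ V).ncard = n → c.SS V' = c.SS V := by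
  induction n with
  | zero =>
    intro V hV _ h0
    rw [Set.eq_of_subset_of_ncard_le (Set.diff_eq_empty.1 ((Set.ncard_eq_zero (Set.toFinite _)).1 h0)) (by omega)]
  | succ n ih =>
    intro V hV hc h0
    obtain ⟨b, hb⟩ : (V' \ V).Nonempty := Set.nonempty_of_ncard_ne_zero (by omega)
    obtain ⟨a, ha, ha'⟩ : ∃ a ∈ V, a ∉ V' := by
      by_contra hn
      push Not at hn
      exact hb.2 (Set.eq_of_subset_of_ncard_le hn (by omega) ▸ hb.1)
    have hW := card_del hV ha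
    have bW : b ∉ V \ {a} := fun hh => hb.2 hh.1
    have h1 : b ∈ c.E (V \ {a}) a := by
      rw [h.E_eq hW (by simp), ins_del ha]
      exact ⟨hc hb.1, bW⟩
    have h2 : c.SS (insert b (V \ {a})) = c.SS V := by
      have h1 : c.SS (insert b (V \ {a})) = c.SS (insert a (V \ {a})) := h1
      rwa [ins_del ha] at h1
    rw [← h2]
    refine ih _ (card_ins hW bW) (by rwa [(SS_congr h2).1]) ?_
    have h3 : V' \ insert b (V \ {a}) = (V' \ V) \ {b} := by
      ext x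
      simp only [Set.mem_diff, Set.mem_insert_iff, Set.mem_singleton_iff, not_or, not_and, not_not]
      exact ⟨fun ⟨h1, h2, h3⟩ => ⟨⟨h1, fun hx => ha' (h3 hx ▸ h1)⟩, h2⟩,
        fun ⟨⟨h1, h2⟩, h3⟩ => ⟨h1, h3, fun hx => (h2 hx).elim⟩⟩
    rw [h3]
    have := Set.ncard_diff_singleton_add_one hb
    omega

theorem Ar.St.fl_cl (h : c.St s l) {V : Set Ω} (hV : V.ncard = s + 1) : c.Fl s (c.cl V) where
  good := by rw [SS_cl]; exact h.cx.good1 h.k h.one (by have := h.le; omega) hV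
  cl_eq := cl_cl
  lt := by have := Set.ncard_le_ncard (sub_cl (c := c) (S := V)); omega
  span V' h1 h2 := by rw [SS_cl]; exact Ex.span h h2 _ V hV h1 rfl

theorem Ar.St.ns_cl (h : c.St s l) {W : Set Ω} (hW : W.ncard = s) {z : Ω} (hz : z ∉ W) (hz' : z ∉ c.U W) :
    c.NS s l (c.cl (insert z W)) where
  fl := h.fl_cl (card_ins hW hz)
  eq := by
    obtain ⟨-, hc, hl, -⟩ := h.k W hW
    have zc : z ∉ c.cl W := by rwa [hc]
    rw [(SS_congr SS_cl).2.2.1, ← hl]
    exact le_antisymm (h.cx.le_c (ne_of h.one hW) zc) (not_lt.1 fun hh => hz' ⟨zc, hh⟩)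

theorem Ar.St.not_U (h : c.St s l) {T W : Set Ω} (hT : c.NS s l T) (hW : W ⊆ T) (hs : W.ncard = s) :
    Disjoint (c.U W) T := by
  refine Set.disjoint_left.2 fun y hy hy' => ?_
  obtain ⟨h1, h2⟩ := hy
  obtain ⟨-, hc, hl, -⟩ := h.k W hs
  rw [hc] at h1
  rw [(SS_congr (hT.fl.ins hW hs hy' h1).1).2.2.1, hl, hT.eq] at h2
  exact lt_irrefl _ h2

theorem Ar.St.gam_sub (h : c.St s l) {T W : Set Ω} (hT : c.NS s l T) (hW : W ⊆ T) (hs : W.ncard = s) :
    c.U W ⊆ c.U T := by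
  obtain ⟨z, hz, hz'⟩ : ∃ z ∈ T, z ∉ W := by
    by_contra hn
    push Not at hn
    have := Set.ncard_le_ncard hn
    have := hT.fl.lt
    omega
  obtain ⟨-, hc, -, -⟩ := h.k W hs
  have hd := Set.disjoint_left.1 (h.not_U hT hW hs)
  obtain ⟨e1, e2⟩ := hT.fl.ins hW hs hz hz'
  rw [← (SS_congr e1).2.2.2.1]
  refine h.cx.av_pos (ne_of h.one hs) (by rwa [hc]) (fun hh => hd hh hz) inv_U (fun y hy hm => hd hy ?_) subset_rfl
  rw [← e2]
  exact h.ex hs hz' (fun hh => hd hy (hW hh)) hm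

theorem Ar.St.D_UW (h : c.St s l) {W : Set Ω} (hs : W.ncard = s) {P : Sylow p G} (hP : P ∈ c.SS W) :
    D P (c.U W) = s - 1 := by
  rw [h.cx.D_U (ne_of h.one hs) hP, (h.k W hs).2.1, hs]

theorem Ar.St.twW (h : c.St s l) (h2 : 2 ≤ s) {R : Set Ω} {a b : Ω} (hR : R.ncard + 1 = s) (ha : a ∉ R) (hb : b ∉ R)
    (hU : c.U (insert a R) = c.U (insert b R)) : a = b := by
  have ka := h.k _ ((card_ins rfl ha).trans hR)
  have kb := h.k _ ((card_ins rfl hb).trans hR)
  obtain ⟨r, hr⟩ : R.Nonempty := Set.nonempty_of_ncard_ne_zero (by omega)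
  have h1 := h.cx.tw (Set.insert_nonempty a R) ka.1
    ⟨r, sub_cl (Set.mem_insert_of_mem _ hr), sub_cl (Set.mem_insert_of_mem _ hr)⟩ hU
  rw [ka.2.1, kb.2.1] at h1
  exact (h1 (Set.mem_insert _ _)).resolve_right ha

end Cfsg.Agent.SyF
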