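import Mathlib
import Cfsg.Agent.SyF.Ex
import Cfsg.Agent.SyF.Blk

set_option autoImplicit false
set_option linter.unusedSectionVars false

namespace Cfsg.Agent.SyF

open Pointwise

universe u v

variable {p : ℕ} [Fact p.Prime] {G : Type u} [Group G] [Finite G] {Ω : Type v} [MulAction G Ω] [Finite Ω]
  {c : Ar p G Ω} {s l : ℕ}

open Ex

namespace Tit

/-- counting a disjoint family -/
theorem cnt {ι α : Type*} [Finite α] (K : ι → Set α) (m : ℕ) {V : Set ι} (hV : V.Finite) :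
    ∀ B : Set α, (∀ a ∈ V, K a ⊆ B) → (∀ a ∈ V, m ≤ (K a).ncard) →
      (∀ a ∈ V, ∀ b ∈ V, a ≠ b → Disjoint (K a) (K b)) → V.ncard * m ≤ B.ncard := by
  induction V, hV using Set.Finite.induction_on with
  | empty => intros; simp
  | @insert a V ha hV ih =>
    intro B h1 h2 h3
    have h4 := ih (B \ K a) (fun b hb => Set.subset_diff.2 ⟨h1 b (Or.inr hb),
      h3 b (Or.inr hb) a (Or.inl rfl) fun e => ha (e ▸ hb)⟩) (fun b hb => h2 b (Or.inr hb))
      (fun b hb e he => h3 b (Or.inr hb) e (Or.inr he))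
    have h5 := Set.ncard_diff_add_ncard_of_subset (h1 a (Or.inl rfl))
    have h6 := h2 a (Or.inl rfl)
    rw [Set.ncard_insert_of_notMem ha hV, add_mul, one_mul]
    omega

theorem self_mem (S : Set Ω) (y : Ω) : y ∈ c.E S y := rfl

theorem E_mono {W T : Set Ω} (hW : W ⊆ T) (y : Ω) : c.E W y ⊆ c.E T y := fun z hz => by
  have hz : c.SS (insert z W) = c.SS (insert y W) := hz
  refine Set.Subset.antisymm (fun P hP => ?_) (fun P hP => ?_)
  · obtain ⟨h1, h2⟩ := mem_SS_insert.1 hP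
    exact mem_SS_insert.2 ⟨(mem_SS_insert.1 (hz ▸ mem_SS_insert.2 ⟨h1, SS_anti hW h2⟩)).1, h2⟩
  · obtain ⟨h1, h2⟩ := mem_SS_insert.1 hP
    exact mem_SS_insert.2 ⟨(mem_SS_insert.1 (hz.symm ▸ mem_SS_insert.2 ⟨h1, SS_anti hW h2⟩)).1, h2⟩

theorem E_notMem {S : Set Ω} {y z : Ω} (hy : y ∉ c.cl S) (hz : z ∈ c.E S y) : z ∉ c.cl S := fun h =>
  hy (mem_cl'.2 (Eq.trans (Eq.symm hz) (mem_cl'.1 h)))

theorem E_U {S : Set Ω} {y : Ω} (hy : y ∈ c.U S) : c.E S y ⊆ c.U S := fun z hz =>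
  ⟨E_notMem hy.1 hz, by rw [(SS_congr (show c.SS (insert z S) = c.SS (insert y S) from hz)).2.2.1]; exact hy.2⟩

theorem E_card (h : c.St s l) {W : Set Ω} (hs : W.ncard = s) {y : Ω} (hy : y ∉ W) :
    (c.E W y).ncard + s = (c.cl (insert y W)).ncard := by
  rw [h.E_eq hs hy, ← hs]
  exact Set.ncard_diff_add_ncard_of_subset ((Set.subset_insert _ _).trans sub_cl)

end Tit

open Tit

theorem Ar.St.good2 (h : c.St s l) {T W : Set Ω} (hT : c.Fl s T) (hW : W ⊆ T) (hs : W.ncard = s) {y : Ω} (hy : y ∉ T)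
    (hc : T.ncard ≤ (c.cl (insert y W)).ncard) : (c.SS (insert y T)).Nonempty := by
  by_contra hn
  have yW : y ∉ W := fun hh => hy (hW hh)
  have h1 := E_card h hs yW
  have hK : c.E W y ⊆ (c.cl T)ᶜ := fun z hz hz' => by
    rw [hT.cl_eq] at hz'
    have h2 := (hT.ins hW hs hz' ((h.E_eq hs yW ▸ hz).2)).2
    rw [(SS_congr (show c.SS (insert z W) = c.SS (insert y W) from hz)).1] at h2
    exact hy (h2 ▸ sub_cl (Set.mem_insert _ _))
  obtain ⟨P, hP⟩ := hT.good
  have h3 : fx P (Reg (c.X T) (c.E W y)) = 0 := by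
    refine (Set.ncard_eq_zero (Set.toFinite _)).2 (Set.eq_empty_of_forall_notMem ?_)
    rintro _ ⟨⟨x, hx, z, hz, rfl⟩, hf⟩
    have q1 : x⁻¹ • P ∈ c.SS T := mem_SS_iff_le.2 (smul_le_of_mem (mem_SS_iff_le.1 hP) (inv_mem hx))
    have q2 : z ∈ Fix ((x⁻¹ • P : Sylow p G) : Subgroup G) := (smul_mem_Fix (x := x)).1 (by rwa [smul_inv_smul])
    have q3 : x⁻¹ • P ∈ c.SS (insert y W) :=
      (show c.SS (insert z W) = c.SS (insert y W) from hz) ▸ mem_SS_insert.2 ⟨q2, SS_anti hW q1⟩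
    exact hn ⟨_, mem_SS_insert.2 ⟨(mem_SS_insert.1 q3).1, q1⟩⟩
  have h4 := (clw hW (h.cx.good1 h.k h.one (by have := h.le; omega) (card_ins hs yW)) inv_univ hP).2 y
    ⟨self_mem _ _, trivial⟩ (by rwa [hT.cl_eq])
  rw [Set.inter_univ] at h4
  have h5 := D_mul (inv_P hP (inv_Reg (K := c.E W y)))
  have h6 := h.cx.D_le ((ne_of h.one hs).mono hW) hP inv_Reg
    (Set.disjoint_left.2 fun a ha => Reg_sub inv_cl.compl hK ha)
  rw [hT.cl_eq] at h6
  rw [h3] at h5
  have h7 := hT.lt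
  have hp := p_pos (p := p)
  have a1 : (s : ℤ) + 2 ≤ p := by exact_mod_cast h.le
  have a2 : (p : ℤ) * (c.E W y).ncard ≤ (Reg (c.X T) (c.E W y)).ncard := by exact_mod_cast h4
  have a3 : (T.ncard : ℤ) ≤ (c.E W y).ncard + s := by exact_mod_cast (by omega)
  have a4 : (1 : ℤ) ≤ (c.E W y).ncard := by exact_mod_cast (by omega)
  have a5 : ((p : ℤ) - 1) * (c.E W y).ncard ≤ D P (Reg (c.X T) (c.E W y)) := by
    refine le_of_mul_le_mul_left ?_ hp
    push_cast at h5
    nlinarith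
  have a6 : (0 : ℤ) ≤ s := Int.natCast_nonneg _
  nlinarith

theorem Ar.St.E_lt (h : c.St s l) {T : Set Ω} (hT : c.Fl s T) {y : Ω} (hy : y ∈ c.U T)
    (hg : (c.SS (insert y T)).Nonempty) : (c.E T y).ncard < T.ncard := by
  obtain ⟨P, hP⟩ := hT.good
  obtain ⟨d, hd⟩ := (clw subset_rfl hg inv_univ hP).1
  rw [Set.inter_univ] at hd
  have hne : T.Nonempty := Set.nonempty_of_ncard_ne_zero (by have := hT.lt; omega)
  have hdis : Disjoint (Reg (c.X T) (c.E T y)) (c.cl T) := U_disj.mono_left (Reg_sub inv_U (E_U hy))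
  have h1 := h.cx.D_pos hne hP inv_Reg hdis (sub_Reg (self_mem T y)) hy
  have h2 := h.cx.D_le hne hP inv_Reg hdis
  rw [hT.cl_eq, hd] at h2
  rw [hd] at h1
  have h3 : (0 : ℤ) ≤ (c.E T y).ncard := Int.natCast_nonneg _
  have h4 : 1 ≤ d := by
    by_contra hc
    push Not at hc
    nlinarith
  have : ((c.E T y).ncard : ℤ) < T.ncard := by nlinarith
  exact_mod_cast this

theorem Ar.St.tits (h : c.St s l) {T V : Set Ω} (hT : c.Fl s T) (h2 : s + 2 ≤ T.ncard) (hV : V ⊆ T)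
    (hs : V.ncard = s + 1) {y : Ω} (hy : y ∈ c.U T) (hc : ∀ a ∈ V, T.ncard ≤ (c.cl (insert y (V \ {a}))).ncard) : False := by
  have yT : y ∉ T := fun hh => hy.1 (sub_cl hh)
  have yW : ∀ a, y ∉ V \ {a} := fun a hh => yT (hV hh.1)
  obtain ⟨a0, ha0⟩ : V.Nonempty := Set.nonempty_of_ncard_ne_zero (by omega)
  have h3 := h.E_lt hT hy (h.good2 hT (Set.diff_subset.trans hV) (card_del hs ha0) yT (hc a0 ha0))
  have h4 := cnt (fun a => c.E (V \ {a}) y \ {y}) (T.ncard - s - 1) (Set.toFinite V) (c.E T y \ {y})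
    (fun a _ => Set.diff_subset_diff_left (E_mono (Set.diff_subset.trans hV) y)) (fun a ha => ?_)
    (fun a ha b hb hab => Set.disjoint_left.2 fun z hz hz' => ?_)
  · have h5 := Set.ncard_diff_singleton_add_one (self_mem (c := c) T y)
    obtain ⟨k, hk⟩ : ∃ k, T.ncard = s + 2 + k := ⟨T.ncard - (s + 2), by omega⟩
    rw [hs, show T.ncard - s - 1 = k + 1 by omega] at h4
    nlinarith
  · have h5 := Set.ncard_diff_singleton_add_one (self_mem (c := c) (V \ {a}) y)
    have h6 := E_card h (card_del hs ha) (yW a)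
    have h7 := hc a ha
    omega
  · rw [h.E_eq (card_del hs ha) (yW a)] at hz
    rw [h.E_eq (card_del hs hb) (yW b)] at hz'
    have fa := h.fl_cl (card_ins (card_del hs ha) (yW a))
    have fb := h.fl_cl (card_ins (card_del hs hb) (yW b))
    have bW : b ∈ V \ {a} := ⟨hb, fun e => hab (Eq.symm e)⟩
    have c1 := Set.ncard_diff_singleton_add_one bW
    have c2 := card_del hs ha
    have n1 : z ∉ (V \ {a}) \ {b} := fun hh => hz.1.2 hh.1
    have n2 : y ∉ insert z ((V \ {a}) \ {b}) := fun hh => hh.elim (fun e => hz.2 e.symm) fun hh => yW a hh.1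
    have e : c.cl (insert y (V \ {a})) = c.cl (insert y (V \ {b})) := by
      refine fa.eq_of fb (V := insert y (insert z ((V \ {a}) \ {b}))) ?_ ?_ ?_
      · exact Set.insert_subset (sub_cl (Set.mem_insert _ _)) (Set.insert_subset hz.1.1
          fun x hx => sub_cl (Or.inr hx.1))
      · exact Set.insert_subset (sub_cl (Set.mem_insert _ _)) (Set.insert_subset hz'.1.1
          fun x hx => sub_cl (Or.inr ⟨hx.1.1, hx.2⟩))
      · rw [Set.ncard_insert_of_notMem n2, Set.ncard_insert_of_notMem n1]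
        omega
    have e2 : T = c.cl (insert y (V \ {a})) := by
      refine hT.eq_of fa hV (fun x hx => ?_) hs
      by_cases hxa : x = a
      · rw [e]
        exact sub_cl (Or.inr ⟨hx, fun hh => hab (hxa.symm.trans hh)⟩)
      · exact sub_cl (Or.inr ⟨hx, hxa⟩)
    exact yT (e2 ▸ sub_cl (Set.mem_insert _ _))

end Cfsg.Agent.SyF
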