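import Mathlib
import Cfsg.Agent.SyF.Tit

set_option autoImplicit false
set_option linter.unusedSectionVars false
set_option linter.unusedVariables false

namespace Cfsg.Agent.SyF

open Pointwise

universe u v

variable {p : ℕ} [Fact p.Prime] {G : Type u} [Group G] [Finite G] {Ω : Type v} [MulAction G Ω] [Finite Ω]
  {c : Ar p G Ω} {s l : ℕ}

theorem Ar.St.sig_inv (h : c.St s l) {T W : Set Ω} (hW : W ⊆ T) : Inv (c.X T) (c.Sig T W) :=
  inv_U.diff (inv_U.mono (X_anti hW))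

theorem sig_ne {T : Set Ω} (hT : c.NS s l T) : T.Nonempty :=
  Set.nonempty_of_ncard_ne_zero (by have := hT.fl.lt; omega)

theorem Ar.St.sig_D (h : c.St s l) {T W : Set Ω} (hT : c.NS s l T) (hW : W ⊆ T) (hs : W.ncard = s) {P : Sylow p G}
    (hP : P ∈ c.SS T) : D P (c.Sig T W) = T.ncard - s := by
  have hle := mem_SS_iff_le.1 hP
  rw [Ar.Sig, D_diff (inv_U.mono hle) (inv_U.mono (hle.trans (X_anti hW))) (h.gam_sub hT hW hs),
    h.cx.D_U (sig_ne hT) hP, h.D_UW hs (SS_anti hW hP), hT.fl.cl_eq]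
  ring

theorem Ar.St.sig_reg (h : c.St s l) {T W : Set Ω} (hT : c.NS s l T) (hW : W ⊆ T) (hs : W.ncard = s) {y : Ω}
    (hy : y ∈ c.Sig T W) : ∃ x ∈ c.X W, c.cl (insert y W) = x • T := by
  obtain ⟨P, hP⟩ := hT.fl.good
  have hc : c.cl W = W := (h.k W hs).2.1
  have yT : y ∉ T := hT.fl.cl_eq ▸ hy.1.1
  have key : y ∈ Reg (c.X W) (T \ W) := by
    by_contra hn
    have hi : Inv (c.X W) (c.cl W ∪ c.U W ∪ Reg (c.X W) (T \ W))ᶜ := ((inv_cl.union inv_U).union inv_Reg).compl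
    have h0 := h.cx.D_zero (Set.nonempty_of_ncard_ne_zero (by have := h.one; omega)) (SS_anti hW hP) hi
      (Set.disjoint_left.2 fun a ha hb => ha (.inl (.inl hb))) (Set.disjoint_left.2 fun a ha hb => ha (.inl (.inr hb)))
    have h1 := h.cx.D_pos (sig_ne hT) hP (hi.mono (X_anti hW)) (Set.disjoint_left.2 fun a ha hb => ha (by
      rw [hT.fl.cl_eq] at hb
      by_cases e : a ∈ W
      · exact .inl (.inl (sub_cl e))
      · exact .inr (sub_Reg ⟨hb, e⟩))) (y := y) (by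
      rintro ((e | e) | e)
      · exact yT (hW (hc ▸ e))
      · exact hy.2 e
      · exact hn e) hy.1
    omega
  obtain ⟨x, hx, z, hz, rfl⟩ := key
  refine ⟨x, hx, ?_⟩
  rw [← (hT.fl.ins hW hs hz.1 hz.2).2, ← cl_smul, Set.smul_set_insert, X_smul_eq hx sub_cl]

theorem sig_up {T W : Set Ω} (hW : W ⊆ T) {y z : Ω} (hz : z ∈ c.E W y) : z ∈ c.E T y := by
  have := (SS_congr hz).2.2.2.2 T
  rwa [Set.union_insert, Set.union_insert, Set.union_eq_self_of_subset_right hW] at this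

theorem sig_pos {T : Set Ω} {y z : Ω} (hz : z ∈ c.E T y) (hy : y ∈ c.U T) : z ∈ c.U T :=
  ⟨fun e => hy.1 (mem_cl'.2 (hz.symm.trans (mem_cl'.1 e))), (SS_congr hz).2.2.1 ▸ hy.2⟩

theorem Ar.St.sig_eq (h : c.St s l) {T W : Set Ω} (hT : c.NS s l T) (hW : W ⊆ T) (hs : W.ncard = s) {y : Ω}
    (hy : y ∈ c.Sig T W) : Reg (c.X T) (c.E W y) = c.Sig T W ∧ c.E T y ∩ c.Sig T W = c.E W y ∧
      (c.E W y).ncard + s = T.ncard ∧ p * (c.E W y).ncard ≤ (c.Sig T W).ncard ∧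
      ∀ z ∈ c.Sig T W, c.nu (insert z T) = c.nu (insert y T) := by
  obtain ⟨P, hP⟩ := hT.fl.good
  have hne := sig_ne hT
  have yT : y ∉ T := hT.fl.cl_eq ▸ hy.1.1
  have yW : y ∉ W := fun e => yT (hW e)
  have hI := h.sig_inv hW
  have hsub : c.E W y ⊆ c.Sig T W := fun z hz =>
    ⟨sig_pos (sig_up hW hz) hy.1, fun e => hy.2 (sig_pos (show y ∈ c.E W z from Eq.symm hz) e)⟩
  have hdis : Disjoint (c.Sig T W) (c.cl T) := U_disj.mono_left Set.sdiff_subset
  obtain ⟨x, -, ex⟩ := h.sig_reg hT hW hs hy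
  have hcl : (c.cl (insert y W)).ncard = T.ncard := by rw [ex, Set.ncard_smul_set]
  have hk : (c.E W y).ncard + s = T.ncard := by
    rw [h.E_eq hs yW, ← hcl, ← hs]
    exact Set.ncard_sdiff_add_ncard_of_subset ((Set.subset_insert y W).trans sub_cl)
  have hD := h.sig_D hT hW hs hP
  -- the deficiency of the region of a class is at least its size
  have big : ∀ K ⊆ c.Sig T W, y ∈ K → (∃ d : ℤ, D P (Reg (c.X T) K) = K.ncard * d) →
      (K.ncard : ℤ) ≤ D P (Reg (c.X T) K) := fun K hK yK ⟨d, e⟩ => by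
    have := h.cx.D_pos hne hP inv_Reg (hdis.mono_left (Reg_sub hI hK)) (sub_Reg yK) hy.1
    rw [e] at this ⊢
    exact le_mul_of_one_le_right (Nat.cast_nonneg _) (pos_of_mul_pos_right (show 0 < (K.ncard : ℤ) * d by omega)
      (Nat.cast_nonneg _))
  obtain ⟨a1, a2⟩ := clw hW (h.cx.good1 h.k h.one (by have := h.le; omega)
    (by rw [Set.ncard_insert_of_notMem yW, hs])) hI hP
  rw [Set.inter_eq_left.2 hsub] at a1 a2
  have e1 : Reg (c.X T) (c.E W y) = c.Sig T W := h.cx.eq_of_D_le hne hP inv_Reg hI (Reg_sub hI hsub) Set.sdiff_subset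
    (by have := big _ hsub rfl a1; omega)
  obtain ⟨b1, -⟩ := clw (W := T) subset_rfl (h.good2 hT.fl hW hs yT hcl.ge) hI hP
  have b2 := big (c.E T y ∩ c.Sig T W) Set.inter_subset_right ⟨rfl, hy⟩ b1
  have b3 := h.cx.D_mono hne hP inv_Reg hI (Reg_sub hI (Set.inter_subset_right (s := c.E T y))) hdis
  refine ⟨e1, (Set.eq_of_subset_of_ncard_le (t := c.E T y ∩ c.Sig T W) (fun z hz => ⟨sig_up hW hz, hsub hz⟩)
    (by omega)).symm, hk,
    e1 ▸ a2 y rfl hy.1.1, fun z hz => ?_⟩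
  obtain ⟨x, hx, z', hz', rfl⟩ := e1 ▸ hz
  rw [nu_ins_X hx, (SS_congr (sig_up hW hz')).2.2.1]

end Cfsg.Agent.SyF
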