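import Mathlib
import Cfsg.Agent.SyF.Sig

set_option autoImplicit false
set_option linter.unusedSectionVars false

namespace Cfsg.Agent.SyF

open Pointwise

universe u v

variable {p : ℕ} [Fact p.Prime] {G : Type u} [Group G] [Finite G] {Ω : Type v} [MulAction G Ω] [Finite Ω]
  {c : Ar p G Ω} {s l : ℕ}

open Ex

namespace Clq

variable {T W : Set Ω} {y : Ω}

theorem nT (hy : y ∈ c.Sig T W) : y ∉ T := fun hh => hy.1.1 (sub_cl hh)

theorem ns (h : c.St s l) (hW : W ⊆ T) (hs : W.ncard = s) (hy : y ∈ c.Sig T W) : c.NS s l (c.cl (insert y W)) :=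
  h.ns_cl hs (fun hh => nT hy (hW hh)) hy.2

theorem Wsub (W : Set Ω) (y : Ω) : W ⊆ c.cl (insert y W) := (Set.subset_insert _ _).trans sub_cl

theorem s1 (h : c.St s l) (hT : c.NS s l T) (hW : W ⊆ T) (hs : W.ncard = s) (hy : y ∈ c.Sig T W) :
    T \ W ⊆ c.Sig (c.cl (insert y W)) W := fun z hz => by
  have h1 := ns h hW hs hy
  refine ⟨⟨fun hh => nT hy ?_, ?_⟩, fun hh => Set.disjoint_left.1 (h.not_U hT hW hs) hh hz.1⟩
  · rw [cl_cl] at hh
    rw [hT.fl.eq_of h1.fl (Set.insert_subset hz.1 hW) (Set.insert_subset hh (Wsub W y)) (card_ins hs hz.2)]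
    exact sub_cl (Set.mem_insert _ _)
  · have e1 : c.SS (insert z (c.cl (insert y W))) = c.SS (insert y T) := by
      rw [SS_ins_congr SS_cl, Set.insert_comm, SS_ins_congr (hT.fl.ins hW hs hz.1 hz.2).1]
    have e2 : (c.nu (c.cl (insert y W)) : ℤ) = c.nu T :=
      mul_left_cancel₀ (a := 2 * (p : ℤ) - 1) (by have := two_le (p := p); omega) (h1.eq.trans hT.eq.symm)
    rw [(SS_congr e1).2.2.1, e2]
    exact hy.1.2

theorem s0 (h : c.St s l) (hT : c.NS s l T) (hW : W ⊆ T) (hs : W.ncard = s) (hy : y ∈ c.Sig T W) :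
    (c.Sig (c.cl (insert y W)) W).ncard = (c.Sig T W).ncard ∧ (c.cl (insert y W)).ncard = T.ncard := by
  obtain ⟨x, hx, e⟩ := h.sig_reg hT hW hs hy
  rw [e]
  refine ⟨?_, Set.ncard_smul_set _ _⟩
  rw [← Set.ncard_smul_set x (c.Sig T W)]
  congr 1
  ext a
  obtain ⟨b, rfl⟩ := MulAction.surjective x a
  rw [Set.smul_mem_smul_set_iff]
  have h1 : x • b ∈ c.U W ↔ b ∈ c.U W := by
    conv_lhs => rw [← X_smul_eq hx (sub_cl (S := W))]
    exact Pos_smul
  exact and_congr Pos_smul h1.not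

theorem ar {p n m v a f k : ℤ} (hp : 3 ≤ p) (hv : 0 < v) (hk : 0 < k) (c1 : (2 * p - 1) * n ≤ (p - 1) * m)
    (c2 : (2 * p - 1) * m ≤ (p - 1) * v) (d1 : a * n = v * f) (d2 : p * k = (p - 1) * a - (2 * p - 1) * f)
    (d3 : p * k ≤ a) : False := by
  have a0 : 0 ≤ a := by nlinarith
  have a1 : (2 * p - 1) ^ 2 * n ≤ (p - 1) ^ 2 * v := by nlinarith
  have a2 : (2 * p - 1) ^ 2 * f ≤ (p - 1) ^ 2 * a := by
    refine le_of_mul_le_mul_left ?_ hv
    calc v * ((2 * p - 1) ^ 2 * f) = a * ((2 * p - 1) ^ 2 * n) := by linear_combination (-(2 * p - 1) ^ 2) * d1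
      _ ≤ _ := mul_le_mul_of_nonneg_left a1 a0
      _ = _ := by ring
  have a3 : (p - 1) * a ≤ (2 * p - 1) * k := by
    refine le_of_mul_le_mul_left ?_ (show 0 < p by omega)
    have : p * ((2 * p - 1) * k) = (2 * p - 1) * ((p - 1) * a) - (2 * p - 1) ^ 2 * f := by
      linear_combination (2 * p - 1) * d2
    nlinarith
  have a4 : (p - 1) * (p * k) ≤ (p - 1) * a := mul_le_mul_of_nonneg_left d3 (by omega)
  have a5 : 0 < ((p - 1) * p - (2 * p - 1)) * k := mul_pos (by nlinarith) hk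
  nlinarith

theorem avoid (h : c.St s l) (hT : c.NS s l T) (hW : W ⊆ T) (hs : W.ncard = s) {z : Ω} (hz : z ∉ T) (hz' : z ∉ c.U T)
    (hy : y ∈ c.Sig T W) : z ∉ c.cl (insert y T) := fun hm => by
  have zc : z ∉ c.cl T := by rwa [hT.fl.cl_eq]
  have e1 : c.nu (insert y (insert z T)) = c.nu (insert y T) := by
    rw [Set.insert_comm]
    exact (SS_congr (mem_cl'.1 hm)).2.2.1
  have yc : y ∉ c.cl (insert z T) := fun hh => hz' ⟨zc, by
    rw [← (SS_congr (mem_cl'.1 hh)).2.2.1, e1]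
    exact hy.1.2⟩
  have hne : T.Nonempty := (ne_of h.one hs).mono hW
  have c1 := h.cx.le_c (Set.insert_nonempty z T) yc
  have c2 := h.cx.le_c hne zc
  rw [e1] at c1
  obtain ⟨P, hP⟩ := hT.fl.good
  obtain ⟨-, -, q1, q2, q3⟩ := h.sig_eq hT hW hs hy
  have d1 := dcS_const hP (h.sig_inv hW) q3
  have d2 := D_mul (inv_P hP (h.sig_inv hW))
  rw [h.sig_D hT hW hs hP] at d2
  have hlt := hT.fl.lt
  have q4 : ((c.E W y).ncard : ℤ) = T.ncard - s := by rw [← q1]; push_cast; ring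
  refine ar (by have := h.le; have := h.one; omega) (by exact_mod_cast nu_pos.2 ⟨P, hP⟩) (by omega) c1 c2
    (by exact_mod_cast d1) d2 ?_
  rw [← q4]
  exact_mod_cast q2

theorem U_eq (h : c.St s l) (hT : c.NS s l T) (hW : W ⊆ T) (hs : W.ncard = s) : c.U T = c.U W ∪ c.Sig T W :=
  (Set.union_diff_cancel (h.gam_sub hT hW hs)).symm

theorem s2 (h : c.St s l) (hT : c.NS s l T) (hW : W ⊆ T) (hs : W.ncard = s) (hy : y ∈ c.Sig T W) {w : Ω}
    (hw : w ∈ c.Sig T W) (n1 : w ∉ c.cl (insert y W)) (n2 : w ∉ c.U (c.cl (insert y W))) : False := by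
  have h1 := ns h hW hs hy
  have h2 := ns h hW hs hw
  have W1 := Wsub (c := c) W y
  have W2 := Wsub (c := c) W w
  have S1 := s1 h hT hW hs hy
  have S2 := s1 h hT hW hs hw
  obtain ⟨c1, t1⟩ := s0 h hT hW hs hy
  obtain ⟨c2, -⟩ := s0 h hT hW hs hw
  have X2 : c.X (insert w (c.cl (insert y W))) ≤ c.X (c.cl (insert w W)) := by
    rw [(SS_congr SS_cl).2.1]
    exact X_anti (Set.insert_subset_insert W1)
  have w2 : w ∈ c.cl (insert w W) := sub_cl (Set.mem_insert _ _)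
  generalize c.cl (insert y W) = T1 at *
  generalize c.cl (insert w W) = T2 at *
  have hne := ne_of h.one hs
  have wc : w ∉ c.cl T1 := by rwa [h1.fl.cl_eq]
  have hU : c.Sig T1 W ⊆ c.U (insert w T1) := h.cx.av_pos (hne.mono W1) wc n2 (h.sig_inv W1)
    (fun x hx => avoid h h1 W1 hs n1 n2 hx) Set.diff_subset
  obtain ⟨P, hP⟩ : (c.SS (insert w T1)).Nonempty := by
    have a1 : ((p : ℤ) - 1) * c.nu T1 ≤ (2 * p - 1) * c.nu (insert w T1) := not_lt.1 fun hh => n2 ⟨wc, hh⟩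
    have a2 : (0 : ℤ) < c.nu T1 := by exact_mod_cast nu_pos.2 h1.fl.good
    have a3 := two_le (p := p)
    refine nu_pos.1 (Nat.pos_of_ne_zero fun e => ?_)
    rw [e] at a1
    push_cast at a1
    nlinarith
  obtain ⟨z, hz, hz'⟩ : ∃ z ∈ T, z ∉ W := by
    by_contra hn
    push Not at hn
    have := Set.ncard_le_ncard hn
    have := hT.fl.lt
    omega
  obtain ⟨e1, e2⟩ := hT.fl.ins hW hs hz hz'
  obtain ⟨d, hd⟩ := (clw (W1.trans (Set.subset_insert w T1)) (y := z) (e1 ▸ hT.fl.good) inv_univ hP).1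
  rw [Set.inter_univ, h.E_eq hs hz', e2] at hd
  have iA : Inv (c.X (insert w T1)) (c.Sig T1 W) := (h.sig_inv W1).mono (X_anti (Set.subset_insert _ _))
  have r1 : Reg (c.X (insert w T1)) (T \ W) ⊆ c.Sig T1 W := Reg_sub iA S1
  have p1 := h.cx.D_pos (Set.insert_nonempty w T1) hP inv_Reg (U_disj.mono_left (r1.trans hU))
    (sub_Reg (K := T \ W) ⟨hz, hz'⟩) (hU (S1 ⟨hz, hz'⟩))
  have p2 := h.sig_D h1 W1 hs (SS_anti (Set.subset_insert _ _) hP)
  have p3 := Set.ncard_diff_add_ncard_of_subset hW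
  have p4 : ((T \ W).ncard : ℤ) = T1.ncard - s := by rw [t1, ← p3, hs]; push_cast; ring
  have p5 : (0 : ℤ) ≤ (T \ W).ncard := Int.natCast_nonneg _
  have p6 : 1 ≤ d := by
    rw [hd] at p1
    by_contra hc
    push Not at hc
    nlinarith
  have r2 := h.cx.eq_of_D_le (Set.insert_nonempty w T1) hP inv_Reg iA r1 hU (by rw [p2, hd, ← p4]; nlinarith)
  have r3 : c.Sig T1 W ⊆ c.Sig T2 W := r2 ▸ Reg_sub ((h.sig_inv W2).mono X2) S2
  have r4 := Set.eq_of_subset_of_ncard_le r3 (by omega)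
  have r5 := h.cx.tw (hne.mono W2) h2.fl.good (S' := T1)
    (hne.mono (Set.subset_inter (W2.trans sub_cl) (W1.trans sub_cl)))
    (by rw [U_eq h h1 W1 hs, U_eq h h2 W2 hs, r4])
  exact wc (r5 (sub_cl w2))

theorem sub (h : c.St s l) (hT : c.NS s l T) (hW : W ⊆ T) (hs : W.ncard = s) (hy : y ∈ c.Sig T W) :
    T ∪ c.U T ⊆ c.cl (insert y W) ∪ c.U (c.cl (insert y W)) := by
  rintro x (hx | hx)
  · by_cases hxW : x ∈ W
    · exact Or.inl (Wsub W y hxW)
    · exact Or.inr (s1 h hT hW hs hy ⟨hx, hxW⟩).1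
  · by_cases hxW : x ∈ c.U W
    · exact Or.inr (h.gam_sub (ns h hW hs hy) (Wsub W y) hs hxW)
    · by_contra hn
      exact s2 h hT hW hs hy ⟨hx, hxW⟩ (fun hh => hn (Or.inl hh)) fun hh => hn (Or.inr hh)

end Clq

open Clq

theorem Ar.St.clq (h : c.St s l) {T W : Set Ω} (hT : c.NS s l T) (hW : W ⊆ T) (hs : W.ncard = s) {y : Ω}
    (hy : y ∈ c.Sig T W) : T ∪ c.U T = c.cl (insert y W) ∪ c.U (c.cl (insert y W)) := by
  refine (sub h hT hW hs hy).antisymm ?_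
  obtain ⟨z, hz, hz'⟩ : ∃ z ∈ T, z ∉ W := by
    by_contra hn
    push Not at hn
    have := Set.ncard_le_ncard hn
    have := hT.fl.lt
    omega
  have h1 := sub h (ns h hW hs hy) (Wsub W y) hs (s1 h hT hW hs hy ⟨hz, hz'⟩)
  rwa [(hT.fl.ins hW hs hz hz').2] at h1

end Cfsg.Agent.SyF
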