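import Mathlib
import Cfsg.Agent.SyF.Clq
import Cfsg.Agent.SyF.Al2

set_option autoImplicit false
set_option linter.unusedSectionVars false

namespace Cfsg.Agent.SyF

open Pointwise

universe u v

variable {p : ℕ} [Fact p.Prime] {G : Type u} [Group G] [Finite G] {Ω : Type v} [MulAction G Ω] [Finite Ω]
  {c : Ar p G Ω} {s l : ℕ}

open Ex

theorem Ar.St.allU (h : c.St s l) {T : Set Ω} (hT : c.NS s l T) : T ∪ c.U T = Set.univ := by
  obtain ⟨P, hP⟩ := hT.fl.good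
  have hlt := hT.fl.lt
  have hne : T.Nonempty := Set.nonempty_of_ncard_ne_zero (by omega)
  refine h.cx.all_of_neg (𝒯 := {Q | ∃ T', c.cl T' = T' ∧ T' ∪ c.U T' = T ∪ c.U T ∧ Q ∈ c.SS T'}) (P := P)
    ⟨T, hT.fl.cl_eq, rfl, hP⟩ (inv_gen.2 ?_) (Set.disjoint_left.2 fun a _ ha => ?_) ?_
  · rintro Q ⟨T', h1, h2, h3⟩
    rw [← h2]
    have h4 := inv_P h3 (inv_cl.union inv_U)
    rwa [h1] at h4
  · have key : ∀ T', c.cl T' = T' → T' ∪ c.U T' = T ∪ c.U T → a ∈ T' := fun T' h1 h2 =>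
      h1 ▸ mem_cl.2 fun Q hQ => mem_Fix_gen.1 ha Q ⟨T', h1, h2, hQ⟩
    have aT := key T hT.fl.cl_eq rfl
    have c1 := Set.ncard_diff_singleton_add_one aT
    obtain ⟨W, hW, hs⟩ := Set.exists_subset_card_eq (s := T \ {a}) (n := s) (by omega)
    have WT := hW.trans Set.diff_subset
    obtain ⟨y, hy⟩ : (c.Sig T W).Nonempty := by
      by_contra hn
      have h1 := h.sig_D hT WT hs hP
      rw [Set.not_nonempty_iff_eq_empty.1 hn, D_fixed (Set.empty_subset _), Set.ncard_empty] at h1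
      omega
    have h1 := key _ cl_cl (h.clq hT WT hs hy).symm
    have h2 := hT.fl.eq_of (Clq.ns h WT hs hy).fl (Set.insert_subset aT WT) (Set.insert_subset h1 (Clq.Wsub W y))
      (card_ins hs fun hh => (hW hh).2 rfl)
    exact Clq.nT hy (h2 ▸ sub_cl (Set.mem_insert _ _))
  · have h1 : T ⊆ Fix (P : Subgroup G) := hP
    rw [D_union (inv_of_sub_Fix h1) (inv_P hP inv_U) (U_disj.symm.mono_left sub_cl), D_fixed h1, h.cx.D_U hne hP,
      hT.fl.cl_eq]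
    omega

theorem Ar.St.alt_stab (h : c.St s l) {T W : Set Ω} (hT : c.NS s l T) (hW : W ⊆ T) (hs : W.ncard = s) :
    Alt (MulAction.stabilizer G T) W := by
  intro a ha b hb e he ab ae be
  obtain ⟨g, hg, g1, g2, g3, g4⟩ := (h.k W hs).2.2.2.stab a ha b hb e he ab ae be
  have gW : g • W = W := (Subgroup.mem_inf.1 hg).2
  have hT' := hT.smul g
  have hW' : W ⊆ g • T := gW ▸ Set.smul_set_mono hW
  obtain ⟨z, hz, hz'⟩ : ∃ z ∈ g • T, z ∉ W := by
    by_contra hn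
    push Not at hn
    have := Set.ncard_le_ncard hn
    have := hT'.fl.lt
    omega
  have e1 := (hT'.fl.ins hW' hs hz hz').2
  by_cases zT : z ∈ T
  · exact ⟨g, e1.symm.trans (hT.fl.ins hW hs zT hz').2, g1, g2, g3, g4⟩
  have zU : z ∈ c.U T := ((h.allU hT).symm ▸ Set.mem_univ z : z ∈ T ∪ c.U T).resolve_left zT
  obtain ⟨x, hx, e2⟩ := h.sig_reg hT hW hs ⟨zU, fun hh => Set.disjoint_left.1 (h.not_U hT' hW' hs) hh hz⟩
  have fx : ∀ w ∈ W, x⁻¹ • w = w := fun w hw => sub_cl (c := c) hw _ (inv_mem hx)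
  refine ⟨x⁻¹ * g, ?_, ?_, ?_, ?_, fun w hw h1 h2 h3 => ?_⟩
  · rw [MulAction.mem_stabilizer_iff, mul_smul, ← e1, e2, inv_smul_smul]
  · rw [mul_smul, g1, fx b hb]
  · rw [mul_smul, g2, fx e he]
  · rw [mul_smul, g3, fx a ha]
  · rw [mul_smul, g4 w hw h1 h2 h3, fx w hw]

end Cfsg.Agent.SyF
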