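import Mathlib
import Cfsg.Agent.SyF.Tit
import Cfsg.Agent.SyF.Al2

set_option autoImplicit false
set_option linter.unusedSectionVars false

namespace Cfsg.Agent.SyF

open Pointwise

universe u v

variable {p : ℕ} [Fact p.Prime] {G : Type u} [Group G] [Finite G] {Ω : Type v} [MulAction G Ω] [Finite Ω]
  {c : Ar p G Ω} {s l : ℕ}

theorem Ar.St.flat (h : c.St s l) {T : Set Ω} (hT : c.Fl s T) (h2 : s + 2 ≤ T.ncard) (h5 : 5 ≤ T.ncard)
    (hA : Alt (MulAction.stabilizer G T) T) : False := by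
  obtain ⟨V, hV, hs⟩ := Set.exists_subset_card_eq (s := T) (n := s + 1) (by omega)
  obtain ⟨a0, ha0⟩ : V.Nonempty := Set.nonempty_of_ncard_ne_zero (by omega)
  have hW : (V \ {a0}).ncard = s := by
    have := Set.ncard_diff_singleton_add_one ha0
    omega
  have hWT : V \ {a0} ⊆ T := Set.diff_subset.trans hV
  have hW0 : (V \ {a0}).Nonempty := Set.nonempty_of_ncard_ne_zero (by have := h.one; omega)
  have hT0 : T.Nonempty := hW0.mono hWT
  obtain ⟨P, hP⟩ := hT.good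
  have hP' := SS_anti hWT hP
  have hcl := (h.k _ hW).2.1
  have hB : Reg (c.X (V \ {a0})) (T \ (V \ {a0})) ⊆ (c.cl (V \ {a0}))ᶜ :=
    Reg_sub inv_cl.compl fun z hz => by rw [hcl]; exact hz.2
  have d1 := h.cx.D_nonneg hW0 hP' inv_Reg (Set.subset_compl_iff_disjoint_right.1 hB)
  have hF : T \ (V \ {a0}) ⊆ Fix (P : Subgroup G) := Set.diff_subset.trans hP
  have d2 := D_diff (inv_Reg.mono (mem_SS_iff_le.1 hP')) (inv_of_sub_Fix hF) sub_Reg
  have d3 : 0 < (T \ (V \ {a0})).ncard := (Set.ncard_pos (Set.toFinite _)).2 ⟨a0, hV ha0, fun e => e.2 rfl⟩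
  rw [D_fixed hF] at d2
  obtain ⟨y, ⟨⟨x, hx, z, hz, rfl⟩, -⟩, hy⟩ : ∃ y ∈ Reg (c.X (V \ {a0})) (T \ (V \ {a0})) \ (T \ (V \ {a0})),
      y ∈ c.U T := by
    by_contra hn
    have := h.cx.D_zero hT0 hP ((inv_Reg.mono (X_anti hWT)).diff (inv_of_sub_Fix (Set.diff_subset.trans sub_cl)))
      (Set.disjoint_left.2 fun y hy hy' => hy.2 ⟨hT.cl_eq ▸ hy', fun e => hB hy.1 (sub_cl e)⟩)
      (Set.disjoint_left.2 fun y hy hy' => hn ⟨y, hy, hy'⟩)
    omega
  have e0 : (c.cl (insert (x • z) (V \ {a0}))).ncard = T.ncard := by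
    nth_rewrite 1 [← X_smul_eq hx sub_cl]
    rw [← Set.smul_set_insert, cl_smul, Set.ncard_smul_set, (hT.ins hWT hW hz.1 hz.2).2]
  generalize x • z = y at hy e0
  refine h.tits hT h2 hV hs hy fun a ha => ?_
  by_cases e : a = a0
  · rw [e, e0]
  obtain ⟨b, hb, hb'⟩ : ∃ b ∈ T, b ∉ V := Set.exists_mem_notMem_of_ncard_lt_ncard (by omega)
  obtain ⟨g, hg, g1, -, -, g4⟩ := alt_ker5 hA inv_stab h5 (𝒪 := c.Orbs T) (fun g hg => orbs_smul hg)
    ((h.cx.orbs_lt hT0 ⟨P, hP⟩).trans_eq (by rw [hT.cl_eq])) a (hV ha) a0 (hV ha0) b hb e (fun e => hb' (e ▸ ha))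
    (fun e => hb' (e ▸ ha0))
  obtain ⟨x', hx', e1⟩ := ker_orb (Subgroup.mem_inf.1 hg).2 hy
  have e2 : g • (V \ {a0}) = V \ {a} := by
    have k : ∀ u ∈ V, u ≠ a → u ≠ a0 → g • u = u := fun u hu h1 h3 => g4 u (hV hu) h1 h3 fun e => hb' (e ▸ hu)
    ext u
    constructor
    · rintro ⟨w, hw, rfl⟩
      by_cases h1 : w = a
      · change g • w ∈ _
        rw [h1, g1]
        exact ⟨ha0, Ne.symm e⟩
      · change g • w ∈ _
        rw [k w hw.1 h1 hw.2]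
        exact ⟨hw.1, h1⟩
    · intro hu
      by_cases h1 : u = a0
      · exact ⟨a, ⟨ha, e⟩, g1.trans h1.symm⟩
      · exact ⟨u, ⟨hu.1, h1⟩, k u hu.1 hu.2 h1⟩
  have e3 : (x'⁻¹ * g) • insert y (V \ {a0}) = insert y (V \ {a}) := by
    rw [Set.smul_set_insert, mul_smul, mul_smul, e1, e2, inv_smul_smul,
      X_smul_eq (inv_mem hx') ((Set.diff_subset.trans hV).trans sub_cl)]
  rw [← e3, cl_smul, Set.ncard_smul_set, e0]

end Cfsg.Agent.SyF
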