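import Mathlib
import Cfsg.Agent.SyF.Sig

set_option autoImplicit false
set_option linter.unusedSectionVars false

namespace Cfsg.Agent.SyF

open Pointwise

universe u v

variable {p : ℕ} [Fact p.Prime] {G : Type u} [Group G] [Finite G] {Ω : Type v} [MulAction G Ω] [Finite Ω]
  {c : Ar p G Ω} {s l : ℕ}

theorem Int_cnt {A B : Set Ω} (f : Ω → Set Ω) {k : ℕ} (hf : ∀ y ∈ A, f y ⊆ B ∧ (f y).ncard = k)
    (hd : ∀ y ∈ A, ∀ y' ∈ A, ∀ z ∈ f y, z ∈ f y' → y = y') : A.ncard * k ≤ B.ncard := by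
  classical
  have e := Finset.card_biUnion (s := (Set.toFinite A).toFinset) (t := fun y => (Set.toFinite (f y)).toFinset)
    fun y hy y' hy' ne => Finset.disjoint_left.2 fun z h1 h2 =>
      ne (hd y (by simpa using hy) y' (by simpa using hy') z (by simpa using h1) (by simpa using h2))
  rw [Finset.sum_const_nat (m := k) fun y hy => by
    rw [← Set.ncard_eq_toFinset_card]; exact (hf y (by simpa using hy)).2] at e
  rw [Set.ncard_eq_toFinset_card A, Set.ncard_eq_toFinset_card B, ← e]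
  refine Finset.card_le_card fun z hz => ?_
  obtain ⟨y, hy, hz⟩ := Finset.mem_biUnion.1 hz
  simpa using (hf y (by simpa using hy)).1 (by simpa using hz)

theorem Int_ie {P : Sylow p G} {A B : Set Ω} (hA : Inv (P : Subgroup G) A) (hB : Inv (P : Subgroup G) B) :
    D P (A ∪ B) + D P (A ∩ B) = D P A + D P B := by
  rw [← Set.union_diff_self, D_union hA (hB.diff hA) Set.disjoint_sdiff_right, ← Set.diff_inter_self_eq_diff,
    D_diff hB (hA.inter hB) Set.inter_subset_right]
  ring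

theorem Int_one (h : c.St s l) {T R : Set Ω} (hT : c.NS s l T) (hR : R ⊆ T) (hs : R.ncard + 1 = s) {a b : Ω}
    (ha : a ∈ T) (hb : b ∈ T) (ha' : a ∉ R) (hb' : b ∉ R) (hab : a ≠ b) {y z : Ω} (h1 : y ∈ c.Sig T (insert a R))
    (h2 : y ∈ c.Sig T (insert b R)) (h3 : z ∈ c.E (insert a R) y) (h4 : z ∈ c.Sig T (insert b R)) : y = z := by
  by_contra ne
  have sa : insert a R ⊆ T := Set.insert_subset ha hR
  have sb : insert b R ⊆ T := Set.insert_subset hb hR
  have ca : (insert a R).ncard = s := by rw [Set.ncard_insert_of_notMem ha', hs]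
  have cb : (insert b R).ncard = s := by rw [Set.ncard_insert_of_notMem hb', hs]
  have nT : ∀ x ∈ c.U T, x ∉ T := fun x hx k => Set.disjoint_left.1 U_disj hx (sub_cl k)
  have yT := nT y h1.1
  have zT := nT z h4.1
  have k1 : z ∈ c.E (insert b R) y := by
    rw [← (h.sig_eq hT sb cb h2).2.1]
    exact ⟨((h.sig_eq hT sa ca h1).2.1.ge h3).1, h4⟩
  rw [h.E_eq ca fun k => yT (sa k)] at h3
  rw [h.E_eq cb fun k => yT (sb k)] at k1
  have fa := h.fl_cl (V := insert y (insert a R)) (by rw [Set.ncard_insert_of_notMem fun k => yT (sa k), ca])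
  have fb := h.fl_cl (V := insert y (insert b R)) (by rw [Set.ncard_insert_of_notMem fun k => yT (sb k), cb])
  have sub : ∀ x, z ∈ c.cl (insert y (insert x R)) → insert y (insert z R) ⊆ c.cl (insert y (insert x R)) :=
    fun x hx => Set.insert_subset (sub_cl (Set.mem_insert _ _)) (Set.insert_subset hx
      (((Set.subset_insert _ _).trans (Set.subset_insert _ _)).trans sub_cl))
  have e1 := fa.eq_of fb (sub a h3.1) (sub b k1.1) (by
    rw [Set.ncard_insert_of_notMem (by rintro (k | k); exacts [ne k, yT (hR k)]),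
      Set.ncard_insert_of_notMem fun k => zT (hR k), hs])
  have e2 := hT.fl.eq_of fb (V := insert a (insert b R)) (Set.insert_subset ha sb)
    (Set.insert_subset (e1 ▸ sub_cl (Set.mem_insert_of_mem _ (Set.mem_insert _ _)))
      ((Set.subset_insert _ _).trans sub_cl))
    (by rw [Set.ncard_insert_of_notMem (by rintro (k | k); exacts [hab k, ha' k]), cb])
  exact yT (e2 ▸ sub_cl (Set.mem_insert _ _))

theorem Ar.St.sig_inter (h : c.St s l) {T R : Set Ω} (hT : c.NS s l T) (hR : R ⊆ T) (hs : R.ncard + 1 = s) {a b : Ω}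
    (ha : a ∈ T) (hb : b ∈ T) (ha' : a ∉ R) (hb' : b ∉ R) (hab : a ≠ b) {P : Sylow p G} (hP : P ∈ c.SS T) :
    D P (c.Sig T (insert a R) ∩ c.Sig T (insert b R)) ≤ 1 := by
  have sa : insert a R ⊆ T := Set.insert_subset ha hR
  have sb : insert b R ⊆ T := Set.insert_subset hb hR
  have ca : (insert a R).ncard = s := by rw [Set.ncard_insert_of_notMem ha', hs]
  rcases (c.Sig T (insert a R) ∩ c.Sig T (insert b R)).eq_empty_or_nonempty with e | ⟨y0, hy0⟩
  · rw [e, D_fixed (Set.empty_subset _)]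
    simp
  have lt := hT.fl.lt
  have k1 := Int_cnt (A := c.Sig T (insert a R) ∩ c.Sig T (insert b R)) (B := c.Sig T (insert a R))
    (c.E (insert a R)) (k := T.ncard - s) (fun y hy => by
      obtain ⟨-, e1, e2, -⟩ := h.sig_eq hT sa ca hy.1
      exact ⟨e1.ge.trans Set.inter_subset_right, by omega⟩)
    fun y hy y' hy' z h1 h2 => Int_one h hT hR hs ha hb ha' hb' hab hy.1 hy.2 (Eq.trans (Eq.symm h2) h1 :) hy'.2
  have k2 := D_prop hP ((h.sig_inv sa).inter (h.sig_inv sb)) (h.sig_inv sa) (n := c.nu (insert y0 T)) fun y hy =>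
    (h.sig_eq hT sa ca hy0.1).2.2.2.2 y (hy.elim (fun k => k.1) id)
  rw [h.sig_D hT sa ca hP] at k2
  have k3 : 0 < (c.Sig T (insert a R)).ncard := (Set.ncard_pos (Set.toFinite _)).2 ⟨y0, hy0.1⟩
  zify [lt.le] at k1 k3
  nlinarith

theorem Ar.St.ns_bound (h : c.St s l) {T : Set Ω} (hT : c.NS s l T) (h2 : s + 2 ≤ T.ncard) :
    2 * T.ncard ≤ 3 * s + 2 := by
  have h1 := h.one
  obtain ⟨R, hR, cR⟩ := Set.exists_subset_card_eq (s := T) (n := s - 1) (by omega)
  have c3 : 2 < (T \ R).ncard := by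
    rw [Set.ncard_diff hR]
    omega
  obtain ⟨a, b, e, ha, hb, he, ab, ae, be⟩ := (Set.two_lt_ncard_iff (Set.toFinite _)).1 c3
  obtain ⟨P, hP⟩ := hT.fl.good
  have hle := mem_SS_iff_le.1 hP
  have hs : R.ncard + 1 = s := by omega
  have ne : T.Nonempty := ⟨a, ha.1⟩
  have i : ∀ x ∈ T \ R, Inv (c.X T) (c.Sig T (insert x R)) := fun x hx => h.sig_inv (Set.insert_subset hx.1 hR)
  have d : ∀ x ∈ T \ R, D P (c.Sig T (insert x R)) = T.ncard - s := fun x hx =>
    h.sig_D hT (Set.insert_subset hx.1 hR) (by rw [Set.ncard_insert_of_notMem hx.2, hs]) hP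
  have dj : ∀ A : Set Ω, A ⊆ c.U T → Disjoint A (c.cl T) := fun A hA => U_disj.mono_left hA
  have k1 := Int_ie ((i a ha).mono hle) ((i b hb).mono hle)
  have k2 := Int_ie (((i a ha).union (i b hb)).mono hle) ((i e he).mono hle)
  have k3 := Int_ie (((i a ha).inter (i e he)).mono hle) (((i b hb).inter (i e he)).mono hle)
  have k4 := h.cx.D_nonneg ne hP (((i a ha).inter (i e he)).inter ((i b hb).inter (i e he)))
    (dj _ fun x hx => hx.1.1.1)
  have k5 := h.cx.D_le ne hP (((i a ha).union (i b hb)).union (i e he))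
    (dj _ fun x hx => hx.elim (fun k => k.elim (fun k => k.1) fun k => k.1) fun k => k.1)
  have m1 := h.sig_inter hT hR hs ha.1 hb.1 ha.2 hb.2 ab hP
  have m2 := h.sig_inter hT hR hs ha.1 he.1 ha.2 he.2 ae hP
  have m3 := h.sig_inter hT hR hs hb.1 he.1 hb.2 he.2 be hP
  rw [Set.union_inter_distrib_right, d e he] at k2
  rw [d a ha, d b hb] at k1
  rw [hT.fl.cl_eq] at k5
  omega

end Cfsg.Agent.SyF
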