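import Mathlib
import Cfsg.Agent.SyF.Int
import Cfsg.Agent.SyF.AllU
import Cfsg.Agent.SyF.Flat

set_option autoImplicit false
set_option linter.unusedSectionVars false

namespace Cfsg.Agent.SyF

open Pointwise

universe u v

variable {p : ℕ} [Fact p.Prime] {G : Type u} [Group G] [Finite G] {Ω : Type v} [MulAction G Ω] [Finite Ω]
  {c : Ar p G Ω} {s l : ℕ}

theorem NoNS.eq (h : c.Cx) {S A B : Set Ω} (hS : S.Nonempty) {P : Sylow p G} (hP : P ∈ c.SS S) (hA : Inv (c.X S) A)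
    (hB : Inv (c.X S) B) (hA' : A ⊆ c.U S) (hB' : B ⊆ c.U S) (dA : D P A = 1) (dB : D P B = 1) {y : Ω} (h1 : y ∈ A)
    (h2 : y ∈ B) : A = B := by
  have d := h.D_pos hS hP (hA.inter hB) (U_disj.mono_left (Set.inter_subset_left.trans hA')) ⟨h1, h2⟩ (hA' h1)
  exact (h.eq_of_D_le hS hP (hA.inter hB) hA Set.inter_subset_left hA' (dA ▸ d)).symm.trans
    (h.eq_of_D_le hS hP (hA.inter hB) hB Set.inter_subset_right hB' (dB ▸ d))

theorem NoNS.ne {P : Sylow p G} {A : Set Ω} (h : D P A = 1) : A.Nonempty := by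
  refine Set.nonempty_iff_ne_empty.2 fun e => ?_
  rw [e, D_fixed (Set.empty_subset _)] at h
  simp at h

theorem Ar.St.nons1 (h : c.St s l) (h2 : 2 ≤ s) {T : Set Ω} (hT : c.NS s l T) (h1 : T.ncard = s + 1) : False := by
  obtain ⟨P, hP⟩ := hT.fl.good
  have hT0 : T.Nonempty := Set.nonempty_of_ncard_ne_zero (by omega)
  have hW : ∀ a ∈ T, (T \ {a}).ncard = s := fun a ha => by
    have := Set.ncard_diff_singleton_add_one ha
    omega
  have hD : ∀ a ∈ T, D P (c.Sig T (T \ {a})) = 1 := fun a ha => by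
    rw [h.sig_D hT Set.diff_subset (hW a ha) hP, h1]
    push_cast
    ring
  have hy : ∀ a, ∃ y, a ∈ T → y ∈ c.Sig T (T \ {a}) := fun a => by
    by_cases ha : a ∈ T
    · obtain ⟨y, hy⟩ := NoNS.ne (hD a ha)
      exact ⟨y, fun _ => hy⟩
    · exact ⟨a, fun e => absurd e ha⟩
  choose y hy using hy
  have hle := Set.ncard_le_ncard_of_injOn (s := T) (t := c.Orbs T) (fun a => Reg (c.X T) {y a})
    (fun a ha => ⟨y a, (hy a ha).1, rfl⟩) (fun a ha b hb e => by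
      by_contra hab
      have h3 : y a ∈ c.Sig T (T \ {b}) := Reg_sub (h.sig_inv Set.diff_subset)
        (Set.singleton_subset_iff.2 (hy b hb)) (e.subset (sub_Reg rfl))
      have h4 := NoNS.eq h.cx hT0 hP (h.sig_inv Set.diff_subset) (h.sig_inv Set.diff_subset) Set.diff_subset
        Set.diff_subset (hD a ha) (hD b hb) (hy a ha) h3
      have h5 : c.U (T \ {a}) = c.U (T \ {b}) := by
        rw [← Set.diff_diff_cancel_left (h.gam_sub hT Set.diff_subset (hW a ha)),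
          ← Set.diff_diff_cancel_left (h.gam_sub hT Set.diff_subset (hW b hb))]
        exact congrArg (c.U T \ ·) h4
      have e1 : T \ {a} = insert b ((T \ {a}) \ {b}) := by
        rw [Set.insert_diff_singleton, Set.insert_eq_of_mem (show b ∈ T \ {a} from ⟨hb, Ne.symm hab⟩)]
      have e2 : T \ {b} = insert a ((T \ {a}) \ {b}) := by
        rw [Set.diff_diff_comm, Set.insert_diff_singleton, Set.insert_eq_of_mem (show a ∈ T \ {b} from ⟨ha, hab⟩)]
      rw [e1, e2] at h5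
      refine hab (h.twW h2 ?_ (fun e => e.2 rfl) (fun e => e.1.2 rfl) h5).symm
      rw [Set.ncard_diff_singleton_add_one (show b ∈ T \ {a} from ⟨hb, Ne.symm hab⟩), hW a ha])
  have := h.cx.orbs_lt hT0 ⟨P, hP⟩
  rw [hT.fl.cl_eq] at this
  omega

namespace NoNS

theorem sw (h : c.St 2 l) {a b e : Ω} (hab : a ≠ b) (he : e ∈ c.U {a, b}) : a ≠ e ∧ b ≠ e ∧ b ∈ c.U {a, e} := by
  obtain ⟨-, c1, n1, -⟩ := h.k _ (Set.ncard_pair hab)
  obtain ⟨h1, h2⟩ := he
  rw [c1] at h1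
  have hae : a ≠ e := fun e => h1 (by simp [e])
  have hbe : b ≠ e := fun e => h1 (by simp [e])
  obtain ⟨-, c2, n2, -⟩ := h.k _ (Set.ncard_pair hae)
  refine ⟨hae, hbe, by rw [c2]; simp [hab.symm, hbe], ?_⟩
  have e1 : insert b {a, e} = (insert e {a, b} : Set Ω) := by
    ext
    simp only [Set.mem_insert_iff, Set.mem_singleton_iff]
    tauto
  rw [n2, ← n1, e1]
  exact h2

theorem dj (h : c.St 2 l) {T : Set Ω} (hT : c.NS 2 l T) {a x y b : Ω} (ha : a ∈ T) (hx : x ∈ T) (hy : y ∈ T)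
    (hax : a ≠ x) (hay : a ≠ y) (h1 : b ∈ c.U {a, x}) (h2 : b ∈ c.U {a, y}) : x = y := by
  obtain ⟨P, hP⟩ := hT.fl.good
  have s1 : {a, x} ⊆ T := Set.pair_subset ha hx
  have s2 : {a, y} ⊆ T := Set.pair_subset ha hy
  have := NoNS.eq h.cx ⟨a, ha⟩ hP (inv_U.mono (X_anti s1)) (inv_U.mono (X_anti s2))
    (h.gam_sub hT s1 (Set.ncard_pair hax)) (h.gam_sub hT s2 (Set.ncard_pair hay))
    (by rw [h.D_UW (Set.ncard_pair hax) (SS_anti s1 hP)]; norm_num)
    (by rw [h.D_UW (Set.ncard_pair hay) (SS_anti s2 hP)]; norm_num) h1 h2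
  rw [Set.pair_comm a x, Set.pair_comm a y] at this
  exact h.twW le_rfl (R := {a}) (by simp) hax.symm hay.symm this

theorem sub (h : c.St 2 l) {a b e : Ω} (hab : a ≠ b) (he : e ∈ c.U {a, b}) :
    {a, b} ∪ c.U {a, b} ⊆ {a, e} ∪ c.U {a, e} := by
  obtain ⟨hae, -, hb⟩ := sw h hab he
  rintro y ((rfl | rfl) | hy)
  · exact .inl (.inl rfl)
  · exact .inr hb
  obtain ⟨hay, -, hb'⟩ := sw h hab hy
  by_contra hn
  have hT := h.ns_cl (Set.ncard_pair hae) (fun e => hn (.inl e)) fun e => hn (.inr e)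
  exact hn (.inl (.inr (dj h hT (sub_cl (by simp)) (sub_cl (by simp)) (sub_cl (by simp)) hae hay hb hb').symm))

theorem eq' (h : c.St 2 l) {a b e : Ω} (hab : a ≠ b) (he : e ∈ c.U {a, b}) :
    {a, b} ∪ c.U {a, b} = {a, e} ∪ c.U {a, e} :=
  (sub h hab he).antisymm (sub h (sw h hab he).1 (sw h hab he).2.2)

theorem inv {W : Set Ω} {P : Sylow p G} (hP : P ∈ c.SS W) : Inv (P : Subgroup G) (W ∪ c.U W) :=
  (inv_of_sub_Fix hP).union (inv_U.mono (mem_SS_iff_le.1 hP))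

end NoNS

theorem Ar.St.as2 (h : c.St 2 l) : c.AS 2 := by
  intro W hW y hy
  obtain ⟨a, b, hab, rfl⟩ := Set.ncard_eq_two.1 hW
  obtain ⟨⟨P, hP⟩, c1, -⟩ := h.k _ hW
  have d1 : D P (c.U {a, b}) = 1 := by rw [h.D_UW hW hP]; norm_num
  obtain ⟨e, he⟩ := NoNS.ne d1
  obtain ⟨hae, hbe, -⟩ := NoNS.sw h hab he
  have e1 := NoNS.eq' h hab he
  have e2 := NoNS.eq' h hab.symm (Set.pair_comm a b ▸ he)
  rw [Set.pair_comm b a] at e2
  have := h.cx.all_of_neg (𝒯 := c.SS {a, b} ∪ c.SS {a, e} ∪ c.SS {b, e}) (C := {a, b} ∪ c.U {a, b}) (.inl (.inl hP))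
    (inv_gen.2 (by
      rintro Q ((hQ | hQ) | hQ)
      exacts [NoNS.inv hQ, e1 ▸ NoNS.inv hQ, e2 ▸ NoNS.inv hQ]))
    (Set.disjoint_right.2 fun u hu => by
      have h1 : u ∈ c.cl {a, b} := mem_cl.2 fun Q hQ => mem_Fix_gen.1 hu Q (.inl (.inl hQ))
      have h2 : u ∈ c.cl {a, e} := mem_cl.2 fun Q hQ => mem_Fix_gen.1 hu Q (.inl (.inr hQ))
      have h3 : u ∈ c.cl {b, e} := mem_cl.2 fun Q hQ => mem_Fix_gen.1 hu Q (.inr hQ)
      rw [c1] at h1
      rw [(h.k _ (Set.ncard_pair hae)).2.1] at h2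
      rw [(h.k _ (Set.ncard_pair hbe)).2.1] at h3
      rcases h1 with rfl | rfl
      · exact (h3.elim hab hae).elim
      · exact (h2.elim hab.symm hbe).elim)
    (by
      rw [D_union (inv_of_sub_Fix hP) (inv_U.mono (mem_SS_iff_le.1 hP)) (U_disj.mono_right sub_cl).symm, D_fixed hP,
        d1, hW]
      norm_num)
  exact ((this.ge (Set.mem_univ y)).resolve_left hy :)

theorem Ar.St.as_all (h : c.St s l) (h2 : 2 ≤ s) : c.AS s := by
  rcases h2.eq_or_lt with rfl | h3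
  · exact h.as2
  intro W hW y hy
  by_contra hn
  have hT := h.ns_cl hW hy hn
  have h4 := hT.fl.lt
  by_cases h1 : (c.cl (insert y W)).ncard = s + 1
  · exact h.nons1 h2 hT h1
  have h5 := h.ns_bound hT (by omega)
  exact h.flat hT.fl (by omega) (by omega)
    (alt_up inv_stab h3 h4 (by omega) fun W' h6 h7 => h.alt_stab hT h6 h7)

end Cfsg.Agent.SyF
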