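import Mathlib
import Cfsg.Agent.SyF.Ex
import Cfsg.Agent.SyF.Al2

set_option autoImplicit false
set_option linter.unusedSectionVars false

namespace Cfsg.Agent.SyF

open Pointwise

universe u v

variable {p : ℕ} [Fact p.Prime] {G : Type u} [Group G] [Finite G] {Ω : Type v} [MulAction G Ω] [Finite Ω]
  {c : Ar p G Ω} {s l : ℕ}

theorem StA_reg (h : c.St 2 l) (ha : c.AS 2) {W : Set Ω} (hW : W.ncard = 2) {y : Ω} (hy : y ∉ W) :
    Reg (c.X W) {y} = c.U W := by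
  obtain ⟨⟨P, hP⟩, -⟩ := h.k W hW
  have ne : W.Nonempty := Set.nonempty_of_ncard_ne_zero (by omega)
  have sub : Reg (c.X W) {y} ⊆ c.U W := Reg_sub inv_U (Set.singleton_subset_iff.2 (ha W hW y hy))
  refine h.cx.eq_of_D_le ne hP inv_Reg inv_U sub le_rfl ?_
  have := h.cx.D_pos ne hP inv_Reg (U_disj.mono_left sub) (sub_Reg (Set.mem_singleton y)) (ha W hW y hy)
  rw [h.D_UW hW hP]
  simpa using this

theorem StA_mv (h : c.St 2 l) (ha : c.AS 2) {u w y y' : Ω} (h0 : u ≠ w) (h1 : y ≠ u) (h2 : y ≠ w) (h3 : y' ≠ u)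
    (h4 : y' ≠ w) : ∃ g : G, g • u = u ∧ g • w = w ∧ g • y = y' := by
  have hW : ({u, w} : Set Ω).ncard = 2 := Set.ncard_pair h0
  obtain ⟨g, hg, z, rfl, e⟩ := (StA_reg h ha hW (y := y) (by simp [h1, h2])).ge (ha _ hW y' (by simp [h3, h4]))
  exact ⟨g, sub_cl (c := c) (S := {u, w}) (by simp) g hg, sub_cl (c := c) (S := {u, w}) (by simp) g hg, e⟩

theorem StA_two (h : c.St 2 l) (ha : c.AS 2) {V : Set Ω} (hV : V.ncard = 2 + 1) : Alt (⊤ : Subgroup G) V := by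
  intro a h1 b h2 e h3 ab ae be
  have eV : ({a, b, e} : Set Ω) = V := Set.eq_of_subset_of_ncard_le (by simp [Set.insert_subset_iff, h1, h2, h3]) (by
    rw [Set.ncard_insert_of_notMem (by simp [ab, ae]), Set.ncard_pair be, hV])
  have hW : ({a, b} : Set Ω).ncard = 2 := Set.ncard_pair ab
  obtain ⟨⟨P, hP⟩, cW, -⟩ := h.k _ hW
  have k := (orb_mov hP (a := e) (by
    change e ∉ c.cl {a, b}
    rw [cW]
    simp [ae.symm, be.symm])).2
  obtain ⟨d, -, hd⟩ := Set.exists_mem_notMem_of_ncard_lt_ncard (s := V) (t := Reg (gen (c.SS {a, b})) {e})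
    (by have := h.le; omega)
  have da : d ≠ a := fun k => hd (k ▸ h1)
  have db : d ≠ b := fun k => hd (k ▸ h2)
  have de : d ≠ e := fun k => hd (k ▸ h3)
  obtain ⟨g1, a1, b1, c1⟩ := StA_mv h ha be ab ae db de
  obtain ⟨g2, a2, b2, c2⟩ := StA_mv h ha db de.symm be.symm da.symm ab
  obtain ⟨g3, a3, b3, c3⟩ := StA_mv h ha da db.symm ab.symm de.symm ae.symm
  obtain ⟨g4, a4, b4, c4⟩ := StA_mv h ha ae.symm de da be ab.symm
  refine ⟨g4 * g3 * g2 * g1, trivial, ?_, ?_, ?_, fun x hx k1 k2 k3 => ?_⟩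
  · simp only [mul_smul, c1, a2, a3, c4]
  · simp only [mul_smul, a1, b2, c3, a4]
  · simp only [mul_smul, b1, c2, b3, b4]
  · rw [← eV] at hx
    simp [k1, k2, k3] at hx

theorem StA_fix (ha : c.AS s) {V W : Set Ω} (hV : V.ncard = s + 1) (hW : W ⊆ V) (hs : W.ncard = s) {g : G}
    (hg : g ∈ ((⊤ : Subgroup G) ⊓ MulAction.stabilizer G W) ⊓ Ker G (c.Orbs W)) :
    ∃ g' ∈ (⊤ : Subgroup G) ⊓ fixingSubgroup G (V \ W), ∀ w ∈ W, g' • w = g • w := by
  obtain ⟨y, hy⟩ := Set.ncard_eq_one.1 (show (V \ W).ncard = 1 by rw [Set.ncard_diff hW]; omega)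
  obtain ⟨x, hx, e⟩ := ker_orb hg.2 (ha W hs y (hy.ge (Set.mem_singleton y)).2)
  refine ⟨x⁻¹ * g, ⟨trivial, (mem_fixingSubgroup_iff G).2 fun z hz => ?_⟩, fun w hw => ?_⟩
  · rw [hy] at hz
    rw [hz, mul_smul, e, inv_smul_smul]
  · rw [mul_smul]
    exact sub_cl (inv_stab g hg.1.2 w hw) _ (inv_mem hx)

theorem Ar.St.alt1 (h : c.St s l) (h2 : 2 ≤ s) (ha : c.AS s) {V : Set Ω} (hV : V.ncard = s + 1) :
    Alt (⊤ : Subgroup G) V := by
  have lt : ∀ W : Set Ω, W.ncard = s → (c.Orbs W).ncard < W.ncard := fun W hW => by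
    have := h.cx.orbs_lt (Set.nonempty_of_ncard_ne_zero (s := W) (by omega)) (h.k W hW).1
    rwa [(h.k W hW).2.1] at this
  rcases h2.eq_or_lt with rfl | h3
  · exact StA_two h ha hV
  rcases (show 3 ≤ s from h3).eq_or_lt with e3 | h4
  · refine altA e3.le (by omega) fun W hW hs a h1 b h2 e h3 ab ae be => ?_
    obtain ⟨g, hg, k1, k2, k3, k4⟩ := alt_ker3 (h.k W hs).2.2.2.stab (hs.trans e3.symm) (𝒪 := c.Orbs W)
      (fun g hg => orbs_smul hg.2) (by have := lt W hs; omega) a h1 b h2 e h3 ab ae be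
    obtain ⟨g', hg', k⟩ := StA_fix ha hV hW hs hg
    exact ⟨g', hg', (k a h1).trans k1, (k b h2).trans k2, (k e h3).trans k3,
      fun x hx m1 m2 m3 => (k x hx).trans (k4 x hx m1 m2 m3)⟩
  · refine altB h4 (by omega) (by omega) fun W hW hs a h1 b h2 e h3 f h5 ab ae af be bf ef => ?_
    obtain ⟨g, hg, k1, k2, k3, k4, k5⟩ := dbl_ker (h.k W hs).2.2.2.stab (inv_stab.mono inf_le_right) (by omega)
      (𝒪 := c.Orbs W) (fun g hg => orbs_smul hg.2) (lt W hs) a h1 b h2 e h3 f h5 ab ae af be bf ef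
    obtain ⟨g', hg', k⟩ := StA_fix ha hV hW hs hg
    exact ⟨g', hg', (k a h1).trans k1, (k b h2).trans k2, (k e h3).trans k3, (k f h5).trans k4,
      fun x hx m1 m2 m3 m4 => (k x hx).trans (k5 x hx m1 m2 m3 m4)⟩

end Cfsg.Agent.SyF
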