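import Mathlib
import Cfsg.Agent.SyF.Flat
import Cfsg.Agent.SyF.StA
import Cfsg.Agent.SyF.Sig

set_option autoImplicit false
set_option linter.unusedSectionVars false

namespace Cfsg.Agent.SyF

open Pointwise

universe u v

variable {p : ℕ} [Fact p.Prime] {G : Type u} [Group G] [Finite G] {Ω : Type v} [MulAction G Ω] [Finite Ω]
  {c : Ar p G Ω} {s l : ℕ}

theorem stB_del {V : Set Ω} (hV : V.ncard = s + 1) {a : Ω} (ha : a ∈ V) : (V \ {a}).ncard = s := by
  have := Set.ncard_diff_singleton_add_one ha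
  omega

theorem Ar.St.closed1 (h : c.St s l) (h2 : 2 ≤ s) (ha : c.AS s) {V : Set Ω} (hV : V.ncard = s + 1) : c.cl V = V := by
  have hT := h.fl_cl hV
  obtain ⟨a, haV⟩ : V.Nonempty := Set.nonempty_of_ncard_ne_zero (by omega)
  have hW := stB_del hV haV
  have aW : a ∉ V \ {a} := by simp
  have e : insert a (V \ {a}) = V := by simpa using haV
  have WT : V \ {a} ⊆ c.cl V := Set.diff_subset.trans sub_cl
  generalize V \ {a} = W at hW aW e WT
  obtain ⟨⟨P, hP⟩, hcl, -, -⟩ := h.k W hW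
  have hne : W.Nonempty := Set.nonempty_of_ncard_ne_zero (by omega)
  have hE := h.E_eq hW aW
  obtain ⟨⟨d, hd⟩, -⟩ := clw (c := c) (W := W) (S := W) (A := Set.univ) le_rfl (y := a)
    (by rw [e, ← SS_cl]; exact hT.good) inv_univ hP
  rw [Set.inter_univ, hE, e] at hd
  have dj : Disjoint (Reg (c.X W) (c.cl V \ W)) (c.cl W) :=
    Set.subset_compl_iff_disjoint_right.1 (Reg_sub inv_cl.compl fun x hx => by rw [hcl]; exact hx.2)
  have d1 := h.cx.D_pos hne hP inv_Reg dj (sub_Reg ⟨sub_cl haV, aW⟩) (ha W hW a aW)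
  have d2 := h.cx.D_le hne hP inv_Reg dj
  have hk := Set.ncard_diff_add_ncard_of_subset WT
  rw [hcl, hW, hd] at d2
  rw [hd] at d1
  have d3 : 1 ≤ d := by by_contra hh; nlinarith [Int.natCast_nonneg (c.cl V \ W).ncard]
  have d4 : ((c.cl V \ W).ncard : ℤ) ≤ s - 1 := by nlinarith [Int.natCast_nonneg (c.cl V \ W).ncard]
  refine (Set.eq_of_subset_of_ncard_le sub_cl ?_).symm
  by_contra hh
  refine h.flat hT (by omega) (by omega) (alt_up (s := s + 1) inv_stab (by omega) (by omega) (by omega)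
    fun V' hV' hs => (h.alt1 h2 ha hs).stab.mono fun g hg => ?_)
  have e' : c.cl V' = c.cl V := (SS_congr (hT.span V' hV' hs)).1.trans cl_cl
  rw [MulAction.mem_stabilizer_iff, ← e', ← cl_smul, MulAction.mem_stabilizer_iff.1 hg.2]

theorem Ar.St.k_one (h : c.St 1 l) : ∃ l', c.K 2 l' := by
  have hU : ∀ W : Set Ω, W.ncard = 1 → ∀ y, y ∉ c.U W := fun W hW y hy => by
    obtain ⟨⟨P, hP⟩, -⟩ := h.k W hW
    have d1 := h.cx.D_pos (Set.nonempty_of_ncard_ne_zero (by omega)) hP inv_U U_disj hy hy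
    have d2 := h.D_UW hW hP
    omega
  refine ⟨((((p : ℤ) - 1) * l) / (2 * p - 1)).toNat, fun V hV => ?_⟩
  obtain ⟨a, haV⟩ : V.Nonempty := Set.nonempty_of_ncard_ne_zero (by omega)
  have hW := stB_del (s := 1) hV haV
  have e : insert a (V \ {a}) = V := by simpa using haV
  have hT := h.ns_cl hW (z := a) (by simp) (hU _ hW a)
  rw [e] at hT
  refine ⟨SS_cl (c := c) (S := V) ▸ hT.fl.good, (Set.eq_of_subset_of_ncard_le sub_cl ?_).symm, ?_,
    fun a ha b hb e he ab ae be => ?_⟩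
  · by_contra hh
    obtain ⟨P, hP⟩ := hT.fl.good
    have d1 := h.cx.D_U ⟨a, sub_cl haV⟩ hP
    obtain ⟨y, hy⟩ : (c.U (c.cl V)).Nonempty := by
      by_contra hn
      rw [Set.not_nonempty_iff_eq_empty.1 hn, D_fixed (Set.empty_subset _), cl_cl, Set.ncard_empty] at d1
      omega
    refine h.tits hT.fl (by omega) sub_cl hV hy fun b hb => ?_
    have hW' := stB_del (s := 1) hV hb
    obtain ⟨x, -, hx⟩ := h.sig_reg hT (Set.diff_subset.trans sub_cl) hW' ⟨hy, hU _ hW' y⟩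
    rw [hx, Set.ncard_smul_set]
  · have h2 : 2 ≤ p := (Fact.out : p.Prime).two_le
    rw [← hT.eq, Int.mul_ediv_cancel_left _ (by omega), Int.toNat_natCast, (SS_congr SS_cl).2.2.1]
  · have := (Set.two_lt_ncard (Set.toFinite V)).2 ⟨a, ha, b, hb, e, he, ab, ae, be⟩
    omega

end Cfsg.Agent.SyF
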