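import Mathlib
import Cfsg.Agent.SyF.StB

set_option autoImplicit false
set_option linter.unusedSectionVars false

namespace Cfsg.Agent.SyF

open Pointwise

universe u v

variable {p : ℕ} [Fact p.Prime] {G : Type u} [Group G] [Finite G] {Ω : Type v} [MulAction G Ω] [Finite Ω]
  {c : Ar p G Ω} {s l : ℕ}

theorem StC_card {V : Set Ω} (hV : V.ncard = s + 1) {a : Ω} (ha : a ∈ V) : (V \ {a}).ncard = s := by
  have := Set.ncard_diff_singleton_add_one ha
  omega

theorem StC_card' {V : Set Ω} (hV : V.ncard = s + 1) {a z : Ω} (ha : a ∈ V) (hz : z ∉ V) :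
    (insert z (V \ {a})).ncard = s + 1 := by
  rw [Set.ncard_insert_of_notMem fun k => hz k.1, StC_card hV ha]

theorem StC_ind (h : c.St s l) (h2 : 2 ≤ s) (ha : c.AS s) {V : Set Ω} (hV : V.ncard = s + 1)
    (mx : ∀ V' : Set Ω, V'.ncard = s + 1 → c.nu V' ≤ c.nu V) {a a' z : Ω} (h1 : a ∈ V) (h1' : a' ∈ V) (hz : z ∉ V)
    (e : c.nu (insert z (V \ {a})) = c.nu V) : c.nu (insert z (V \ {a'})) = c.nu V := by
  have hp : p.Prime := Fact.out
  have cV := h.closed1 h2 ha hV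
  by_cases hU : z ∈ c.U V
  · obtain ⟨g, hg, e1⟩ := trans_ker (h.alt1 h2 ha hV).stab (inv_stab.mono inf_le_right) (by omega)
      (𝒪 := c.Orbs V) (fun g hg => orbs_smul hg.2) (by
        have := h.cx.orbs_lt (S := V) ⟨a, h1⟩ (h.cx.good1 h.k h.one (by have := h.le; omega) hV)
        rwa [cV] at this) h1 h1'
    obtain ⟨x, hx, e2⟩ := ker_orb hg.2 hU
    have e3 : g • V = V := hg.1.2
    rw [← e, ← nu_smul (insert z (V \ {a})) g, Set.smul_set_insert, Set.smul_set_sdiff, Set.smul_set_singleton, e3, e1,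
      e2, nu_ins_X (X_anti Set.diff_subset hx)]
  · have c1 := StC_card' hV h1' hz
    have k1 := h.cx.le_c (S := insert z (V \ {a'})) ⟨z, Set.mem_insert _ _⟩ (y := a') (by
      rw [h.closed1 h2 ha c1]
      rintro (rfl | k)
      · exact hz h1'
      · exact k.2 rfl)
    rw [Set.insert_comm, Set.insert_diff_singleton, Set.insert_eq_of_mem h1'] at k1
    have k2 : ((p : ℤ) - 1) * c.nu V ≤ (2 * (p : ℤ) - 1) * c.nu (insert z V) :=
      not_lt.1 fun k => hU ⟨by rwa [cV], k⟩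
    have k3 : (0 : ℤ) < (p : ℤ) - 1 := by have := hp.two_le; omega
    have k4 := le_of_mul_le_mul_left (k2.trans k1) k3
    exact le_antisymm (mx _ c1) (by exact_mod_cast k4)

theorem StC_nb (h : c.St s l) (h2 : 2 ≤ s) (ha : c.AS s) {V : Set Ω} (hV : V.ncard = s + 1)
    (mx : ∀ V' : Set Ω, V'.ncard = s + 1 → c.nu V' ≤ c.nu V) {a z : Ω} (h1 : a ∈ V) (hz : z ∉ V) :
    c.nu (insert z (V \ {a})) = c.nu V := by
  obtain ⟨C, hC⟩ : ∃ C : Set Ω, C = V ∪ {z | z ∉ V ∧ c.nu (insert z (V \ {a})) = c.nu V} := ⟨_, rfl⟩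
  have eC : ∀ b ∈ V, C = (V \ {b}) ∪ {z | z ∉ V \ {b} ∧ c.nu (insert z (V \ {b})) = c.nu V} := fun b hb => by
    rw [hC]
    ext z
    constructor
    · rintro (k | ⟨k1, k2⟩)
      · by_cases e : z = b
        · exact Or.inr ⟨fun k => k.2 e, by rw [e, Set.insert_diff_singleton, Set.insert_eq_of_mem hb]⟩
        · exact Or.inl ⟨k, e⟩
      · exact Or.inr ⟨fun k => k1 k.1, StC_ind h h2 ha hV mx h1 hb k1 k2⟩
    · rintro (k | ⟨k1, k2⟩)
      · exact Or.inl k.1
      · by_cases e : z ∈ V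
        · exact Or.inl e
        · exact Or.inr ⟨e, StC_ind h h2 ha hV mx hb h1 e k2⟩
  have kb : ∀ b ∈ V, c.cl (V \ {b}) = V \ {b} := fun b hb => (h.k _ (StC_card hV hb)).2.1
  have i1 : ∀ b ∈ V, Inv (c.X (V \ {b})) (V \ {b}) := fun b hb => by
    have := inv_cl (c := c) (S := V \ {b})
    rwa [kb b hb] at this
  have i2 : ∀ b ∈ V, Inv (c.X (V \ {b})) {z | z ∉ V \ {b} ∧ c.nu (insert z (V \ {b})) = c.nu V} :=
    fun b hb x hx y hy => ⟨(i1 b hb).compl x hx y hy.1, (nu_ins_X hx y).trans hy.2⟩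
  obtain ⟨P, hP⟩ := (h.k _ (StC_card hV h1)).1
  have hle := mem_SS_iff_le.1 hP
  have ne : (V \ {a}).Nonempty := Set.nonempty_of_ncard_ne_zero (by rw [StC_card hV h1]; omega)
  have all := h.cx.all_of_neg (𝒯 := {Q | ∃ b ∈ V, Q ∈ c.SS (V \ {b})}) (P := P) ⟨a, h1, hP⟩ (C := C)
    (inv_gen.2 fun Q ⟨b, hb, hQ⟩ => by
      rw [eC b hb]
      exact ((i1 b hb).union (i2 b hb)).mono (mem_SS_iff_le.1 hQ))
    (Set.disjoint_left.2 fun y _ hy => by
      have k : ∀ b ∈ V, y ∈ V \ {b} := fun b hb => by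
        rw [← kb b hb]
        exact mem_cl.2 fun Q hQ => mem_Fix_gen.1 hy Q ⟨b, hb, hQ⟩
      exact (k y (k a h1).1).2 rfl) (by
      have d : Disjoint (V \ {a}) {z | z ∉ V \ {a} ∧ c.nu (insert z (V \ {a})) = c.nu V} :=
        Set.disjoint_left.2 fun y k1 k2 => k2.1 k1
      have k := h.cx.D_le ne hP (i2 a h1) (by rw [kb a h1]; exact d.symm)
      rw [kb a h1] at k
      rw [eC a h1, D_union ((i1 a h1).mono hle) ((i2 a h1).mono hle) d, D_fixed hP]
      omega)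
  have : z ∈ C := all ▸ Set.mem_univ z
  rw [hC] at this
  exact (this.resolve_left hz).2

theorem Ar.St.const1 (h : c.St s l) (h2 : 2 ≤ s) (ha : c.AS s) :
    ∃ l', ∀ V : Set Ω, V.ncard = s + 1 → c.nu V = l' := by
  by_cases ne : {V : Set Ω | V.ncard = s + 1}.Nonempty
  swap
  · exact ⟨0, fun V hV => absurd ⟨V, hV⟩ ne⟩
  obtain ⟨V0, hV0, mx0⟩ := Set.exists_max_image _ c.nu (Set.toFinite _) ne
  refine ⟨c.nu V0, fun V' hV' => ?_⟩
  have key : ∀ n, ∀ V : Set Ω, V.ncard = s + 1 → c.nu V = c.nu V0 → (V' \ V).ncard = n → c.nu V' = c.nu V0 := by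
    intro n
    induction n with
    | zero =>
      intro V hV e h0
      rw [Set.ncard_eq_zero, Set.diff_eq_empty] at h0
      rw [Set.eq_of_subset_of_ncard_le h0 (by omega), e]
    | succ n ih =>
      intro V hV e h0
      obtain ⟨z, hz⟩ := Set.nonempty_of_ncard_ne_zero (s := V' \ V) (by omega)
      obtain ⟨a, h1, h1'⟩ : ∃ a ∈ V, a ∉ V' := by
        by_contra! k
        exact hz.2 (Set.eq_of_subset_of_ncard_le k (by omega) ▸ hz.1)
      refine ih _ (StC_card' hV h1 hz.2) ((StC_nb h h2 ha hV (fun W hW => e ▸ mx0 W hW) h1 hz.2).trans e) ?_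
      have e1 : V' \ insert z (V \ {a}) = (V' \ V) \ {z} := by
        ext y
        simp only [Set.mem_diff, Set.mem_insert_iff, Set.mem_singleton_iff, not_or, not_and, not_not]
        exact ⟨fun k => ⟨⟨k.1, fun k1 => h1' (k.2.2 k1 ▸ k.1)⟩, k.2.1⟩, fun k => ⟨k.1.1, k.2, fun k1 => absurd k1 k.1.2⟩⟩
      have := Set.ncard_diff_singleton_add_one hz
      rw [e1]
      omega
  exact key _ V0 hV0 rfl rfl

end Cfsg.Agent.SyF
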