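import Mathlib
import Cfsg.Agent.SyF.StC
import Cfsg.Agent.SyF.NoNS

set_option autoImplicit false
set_option linter.unusedSectionVars false

namespace Cfsg.Agent.SyF

open Pointwise

universe u v

variable {p : ℕ} [Fact p.Prime] {G : Type u} [Group G] [Finite G] {Ω : Type v} [MulAction G Ω] [Finite Ω]
  {c : Ar p G Ω} {s l : ℕ}

theorem Fin_K (h : c.Cx) (n : ℕ) (hn : n + 2 ≤ p) : ∃ l, c.K (n + 1) l := by
  induction n with
  | zero => exact h.k1
  | succ n ih =>
    obtain ⟨l, k⟩ := ih (by omega)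
    have st : c.St (n + 1) l := ⟨h, k, by omega, by omega⟩
    rcases Nat.eq_zero_or_pos n with rfl | h0
    · exact st.k_one
    · have h2 : 2 ≤ n + 1 := by omega
      have ha := st.as_all h2
      obtain ⟨l', hl⟩ := st.const1 h2 ha
      exact ⟨l', fun V hV => ⟨h.good1 k (by omega) (by omega) hV, st.closed1 h2 ha hV, hl V hV, st.alt1 h2 ha hV⟩⟩

theorem Ar.Cx.false (h : c.Cx) : False := by
  classical
  have hp : p.Prime := Fact.out
  have h2 := hp.two_le
  obtain ⟨l, k⟩ := Fin_K h (p - 2) (by omega)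
  obtain ⟨P, a, ha⟩ := h.mv
  simp only [Fix, Set.mem_setOf_eq, not_forall] at ha
  obtain ⟨g0, hg0, ha⟩ := ha
  have ex : ∃ n, ∀ x : Ω, g0 ^ p ^ n • x = x := by
    obtain ⟨n, hn⟩ := P.isPGroup' ⟨g0, hg0⟩
    exact ⟨n, fun x => by rw [show g0 ^ p ^ n = 1 from congrArg Subtype.val hn, one_smul]⟩
  have h0 : Nat.find ex ≠ 0 := fun e => ha (by simpa [e] using Nat.find_spec ex a)
  obtain ⟨m, hm⟩ := Nat.exists_eq_succ_of_ne_zero h0
  have h1 := Nat.find_spec ex
  obtain ⟨b, hb⟩ := not_forall.1 (Nat.find_min ex (show m < Nat.find ex by omega))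
  rw [hm, pow_succ, pow_mul] at h1
  have hg : g0 ^ p ^ m ∈ (P : Subgroup G) := pow_mem hg0 _
  generalize g0 ^ p ^ m = g at h1 hb hg
  have hc : (MulAction.orbit (Subgroup.zpowers g) b).ncard = p - 2 + 1 + 1 := by
    letI := Fintype.ofFinite (MulAction.orbit (Subgroup.zpowers g) b)
    rw [← Nat.card_coe_set_eq, Nat.card_eq_fintype_card, ← MulAction.minimalPeriod_eq_card,
      Function.minimalPeriod_eq_prime (p := p) (by simpa [Function.IsPeriodicPt, Function.IsFixedPt] using h1 b) hb]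
    omega
  have hi : Inv (Subgroup.zpowers g) (MulAction.orbit (Subgroup.zpowers g) b) := fun x hx y hy =>
    MulAction.mem_orbit_of_mem_orbit (⟨x, hx⟩ : Subgroup.zpowers g) hy
  obtain ⟨R, hR, hle⟩ := exists_le_of_norm (h.good1 k (by omega) (by omega) hc)
    (P.isPGroup'.to_le (Subgroup.zpowers_le.2 hg)) fun x hx R hR => by
      rw [← hi.smul_eq hx]; exact smul_mem_SS.2 hR
  exact hb (hR (MulAction.mem_orbit_self b) g (hle (Subgroup.mem_zpowers g)))

end Cfsg.Agent.SyF
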