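import Mathlib
import Cfsg.Agent.SyF.Fin

set_option autoImplicit false
set_option linter.unusedSectionVars false

namespace Cfsg.Agent.SyF

open Pointwise

universe u v

variable {p : ℕ} [Fact p.Prime] {G : Type u} [Group G] [Finite G] {Ω : Type v} [MulAction G Ω] [Finite Ω]
  {c : Ar p G Ω} {s l : ℕ}

theorem red_ex {L : Subgroup G} {P : Sylow p G} (hP : (P : Subgroup G) ≤ L) (R : Sylow p L) :
    ∃ (Q : Sylow p G) (hQ : (Q : Subgroup G) ≤ L), Q.subtype hQ = R := by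
  obtain ⟨x, hx⟩ := MulAction.exists_smul_eq L (P.subtype hP) R
  exact ⟨_, _, (Sylow.smul_subtype hP x).symm.trans hx⟩

theorem red_card {L M : Subgroup G} {P : Sylow p G} (hP : (P : Subgroup G) ≤ L) (hM : M ≤ L) :
    {Q : Sylow p G | (Q : Subgroup G) ≤ M}.ncard = {R : Sylow p L | (R : Subgroup L) ≤ M.subgroupOf L}.ncard := by
  refine Set.ncard_congr (fun Q hQ => Q.subtype (le_trans hQ hM)) (fun Q hQ => ?_)
    (fun Q Q' hQ hQ' h => Sylow.subtype_injective h) (fun R hR => ?_)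
  · intro x hx
    exact hQ hx
  · obtain ⟨Q, hQ, rfl⟩ := red_ex hP R
    exact ⟨Q, fun x hx => hR (x := ⟨x, hQ hx⟩) hx, rfl⟩

theorem red_card_top {L : Subgroup G} {P : Sylow p G} (hP : (P : Subgroup G) ≤ L) :
    {Q : Sylow p G | (Q : Subgroup G) ≤ L}.ncard = Nat.card (Sylow p L) := by
  rw [red_card hP le_rfl, Subgroup.subgroupOf_self, ← Set.ncard_univ]
  congr 1
  ext R
  simp

theorem red_gen {𝒯 : Set (Sylow p G)} : gen (Set.univ : Set (Sylow p (gen 𝒯))) = ⊤ := by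
  have h : gen 𝒯 ≤ (gen (Set.univ : Set (Sylow p (gen 𝒯)))).map (gen 𝒯).subtype := gen_le.2 fun Q hQ x hx =>
    ⟨⟨x, le_gen hQ hx⟩, le_gen (P := Q.subtype (le_gen hQ)) (Set.mem_univ _) hx, rfl⟩
  refine top_le_iff.1 fun x _ => ?_
  obtain ⟨y, hy, h2⟩ := h x.2
  exact (Subtype.ext h2 : y = x) ▸ hy

theorem red_cnt {L : Subgroup G} {P : Sylow p G} (hP : (P : Subgroup G) ≤ L) (a : Ω) :
    (Reg L {a}).ncard * {Q : Sylow p G | (Q : Subgroup G) ≤ L ⊓ MulAction.stabilizer G a}.ncard =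
      {Q : Sylow p G | (Q : Subgroup G) ≤ L}.ncard * fx P (Reg L {a}) := by
  rw [← dc hP inv_Reg, Finset.sum_const_nat (m := {Q : Sylow p G | (Q : Subgroup G) ≤ L ⊓ MulAction.stabilizer G a}.ncard),
    Set.ncard_eq_toFinset_card _ (Set.toFinite _)]
  intro b hb
  obtain ⟨x, hx, _, rfl, rfl⟩ := (Set.Finite.mem_toFinset _).1 hb
  rw [← Set.ncard_smul_set x {Q : Sylow p G | (Q : Subgroup G) ≤ L ⊓ MulAction.stabilizer G _}]
  congr 1
  ext Q
  rw [Set.mem_smul_set_iff_inv_smul_mem, Set.mem_setOf_eq, Set.mem_setOf_eq, le_inf_iff,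
    ← smul_mem_Fix (x := x⁻¹), inv_smul_smul]
  refine and_congr ⟨fun h => bas_le h (inv_mem hx), fun h => ?_⟩ Iff.rfl
  simpa using bas_le h hx

theorem red_iff {L : Subgroup G} {P : Sylow p G} (hP : (P : Subgroup G) ≤ L) (a : Ω) :
    0 ≤ D P (Reg L {a}) ↔ (2 * (p : ℤ) - 1) * {Q : Sylow p G | (Q : Subgroup G) ≤ L ⊓ MulAction.stabilizer G a}.ncard ≤
      ((p : ℤ) - 1) * {Q : Sylow p G | (Q : Subgroup G) ≤ L}.ncard := by
  have h1 := red_cnt hP a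
  have h2 := D_mul (P := P) (A := Reg L {a}) (inv_Reg.mono hP)
  have h3 : 0 < (Reg L {a}).ncard := (Set.ncard_pos (Set.toFinite _)).2 ⟨a, sub_Reg rfl⟩
  have h4 : 0 < {Q : Sylow p G | (Q : Subgroup G) ≤ L}.ncard := (Set.ncard_pos (Set.toFinite _)).2 ⟨P, hP⟩
  have hp : (0 : ℤ) < p := by exact_mod_cast (Fact.out : p.Prime).pos
  generalize (Reg L {a}).ncard = r at *
  generalize {Q : Sylow p G | (Q : Subgroup G) ≤ L}.ncard = N at *
  generalize {Q : Sylow p G | (Q : Subgroup G) ≤ L ⊓ MulAction.stabilizer G a}.ncard = n at *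
  generalize fx P (Reg L {a}) = f at *
  generalize D P (Reg L {a}) = d at *
  have h1' : (r : ℤ) * n = N * f := by exact_mod_cast h1
  have h3' : (0 : ℤ) < r := by exact_mod_cast h3
  have h4' : (0 : ℤ) < N := by exact_mod_cast h4
  have key : (N * p) * d = r * (((p : ℤ) - 1) * N - (2 * (p : ℤ) - 1) * n) := by
    linear_combination (N : ℤ) * h2 + (2 * (p : ℤ) - 1) * h1'
  rw [← mul_nonneg_iff_of_pos_left (mul_pos h4' hp), key, mul_nonneg_iff_of_pos_left h3', sub_nonneg]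

theorem red_tr {𝒯 : Set (Sylow p G)} {P : Sylow p G} (hP : P ∈ 𝒯) {a : Ω} (ha : a ∉ Fix (gen 𝒯))
    (h : ∀ H : Subgroup (gen 𝒯), H ≠ ⊤ → H.index = (Reg (gen 𝒯) {a}).ncard →
      (2 * (p : ℤ) - 1) * {Q : Sylow p (gen 𝒯) | (Q : Subgroup (gen 𝒯)) ≤ H}.ncard ≤
        ((p : ℤ) - 1) * Nat.card (Sylow p (gen 𝒯))) : 0 ≤ D P (Reg (gen 𝒯) {a}) := by
  rw [red_iff (le_gen hP), red_card (le_gen hP) inf_le_left, red_card_top (le_gen hP)]
  have e : (gen 𝒯 ⊓ MulAction.stabilizer G a).subgroupOf (gen 𝒯) = MulAction.stabilizer (gen 𝒯) a := by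
    ext x
    simp [Subgroup.mem_subgroupOf, Subgroup.smul_def]
  rw [e]
  refine h _ (fun h0 => ha fun g hg => ?_) ?_
  · have : (⟨g, hg⟩ : gen 𝒯) ∈ MulAction.stabilizer (gen 𝒯) a := h0 ▸ Subgroup.mem_top _
    exact this
  · rw [MulAction.index_stabilizer]
    congr 1
    ext b
    exact ⟨fun ⟨x, hx⟩ => ⟨x, x.2, a, rfl, hx⟩, fun ⟨x, hx, _, h1, h2⟩ => ⟨⟨x, hx⟩, h1 ▸ h2⟩⟩

theorem red_ind (n : ℕ) : ∀ (G : Type u) [Group G] [Finite G], gen (Set.univ : Set (Sylow p G)) = ⊤ →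
    ∀ H : Subgroup G, H ≠ ⊤ → H.index = n →
    (2 * (p : ℤ) - 1) * {Q : Sylow p G | (Q : Subgroup G) ≤ H}.ncard ≤ ((p : ℤ) - 1) * Nat.card (Sylow p G) := by
  induction n using Nat.strong_induction_on with
  | _ n ih =>
  intro G _ _ hg H hH hn
  by_contra hneg
  have hp : (1 : ℤ) ≤ p := by exact_mod_cast (Fact.out : p.Prime).pos
  obtain ⟨P, hP⟩ : {Q : Sylow p G | (Q : Subgroup G) ≤ H}.Nonempty := by
    by_contra h0
    rw [Set.not_nonempty_iff_eq_empty.1 h0] at hneg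
    exact hneg (by simpa using (Fact.out : p.Prime).one_le)
  have htop : ∀ K : Subgroup G, (∀ Q : Sylow p G, (Q : Subgroup G) ≤ K) → K = ⊤ := fun K hK =>
    top_le_iff.1 (hg ▸ gen_le.2 fun Q _ => hK Q)
  set 𝒮 := {Q : Sylow p G | (Q : Subgroup G) ≤ H} with h𝒮
  have hst : ∀ g : G, (∀ Q ∈ 𝒮, g • Q ∈ 𝒮) → g ∈ MulAction.stabilizer G 𝒮 := fun g h =>
    Set.eq_of_subset_of_ncard_le (by rintro _ ⟨Q, hQ, rfl⟩; exact h Q hQ) (by rw [Set.ncard_smul_set])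
  have hHN : H ≤ MulAction.stabilizer G 𝒮 := fun g hg => hst g fun Q hQ => bas_le hQ hg
  have hS : {Q : Sylow p G | (Q : Subgroup G) ≤ MulAction.stabilizer G 𝒮} = 𝒮 := by
    refine Set.Subset.antisymm (fun Q hQ => ?_) fun Q hQ => le_trans hQ hHN
    obtain ⟨x, hx, rfl⟩ := exists_conj (le_trans hP hHN) hQ
    exact (MulAction.mem_stabilizer_iff.1 hx) ▸ Set.smul_mem_smul_set hP
  have hNH : MulAction.stabilizer G 𝒮 = H := by
    by_contra hne
    refine hneg (hS ▸ ih _ (hn ▸ Subgroup.index_strictAnti (lt_of_le_of_ne hHN (Ne.symm hne))) G hg _ (fun h0 => hH ?_) rfl)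
    refine htop H fun Q => ?_
    have : Q ∈ 𝒮 := hS ▸ (show (Q : Subgroup G) ≤ _ from h0 ▸ le_top)
    exact this
  let c : Ar p G (G ⧸ H) := ⟨⟩
  have hst0 := MulAction.stabilizer_quotient H
  set a0 : G ⧸ H := ((1 : G) : G ⧸ H)
  have hfix : ∀ Q : Sylow p G, a0 ∈ Fix (Q : Subgroup G) ↔ Q ∈ 𝒮 := fun Q =>
    (show _ ↔ (Q : Subgroup G) ≤ MulAction.stabilizer G a0 from Iff.rfl).trans (by rw [hst0]; rfl)
  have hSS : ∀ Q : Sylow p G, Q ∈ c.SS {a0} ↔ Q ∈ 𝒮 := fun Q => Set.singleton_subset_iff.trans (hfix Q)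
  have htr : ∀ b : G ⧸ H, ∃ g : G, g • a0 = b := fun b => MulAction.exists_smul_eq G a0 b
  have hcl : c.cl {a0} = {a0} := by
    refine Set.Subset.antisymm (fun b hb => ?_) sub_cl
    obtain ⟨g, rfl⟩ := htr b
    have : g⁻¹ ∈ H := hNH ▸ hst g⁻¹ fun Q hQ => by
      rw [← hfix, ← smul_mem_Fix (x := g), smul_inv_smul]
      exact mem_cl.1 hb Q ((hSS Q).2 hQ)
    have h2 : g ∈ MulAction.stabilizer G a0 := by rw [hst0]; exact inv_mem_iff.1 this
    exact h2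
  refine Ar.Cx.false (c := c) ⟨fun 𝒯 Q hQ a h1 h2 => red_tr hQ h2 fun K hK hi => ih _ ?_ _ red_gen K hK rfl,
    fun Q => ?_, ⟨c.nu {a0}, fun W hW => ?_⟩, ?_⟩
  · rw [hi, ← hn, Subgroup.index, ← Set.ncard_univ]
    exact Set.ncard_lt_ncard (Set.ssubset_univ_iff.2 h1)
  · have e : Reg (⊤ : Subgroup G) {a0} = Set.univ := Set.eq_univ_of_forall fun b =>
      (htr b).imp fun g h => ⟨trivial, a0, rfl, h⟩
    rw [← e, ← not_le, red_iff le_top, top_inf_eq, hst0]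
    convert hneg
    simp [Set.ncard_univ]
  · obtain ⟨b, rfl⟩ := Set.ncard_eq_one.1 hW
    obtain ⟨g, rfl⟩ := htr b
    rw [← Set.smul_set_singleton, cl_smul, nu_smul, hcl]
    refine ⟨⟨g • P, smul_mem_SS.2 ((hSS P).2 hP)⟩, rfl, rfl, fun a ha b hb _ _ hab => (hab ?_).elim⟩
    rw [Set.smul_set_singleton] at ha hb
    exact ha.trans hb.symm
  · by_contra h0
    push Not at h0
    exact hH (htop H fun Q => (hfix Q).1 (h0 Q a0))

theorem sub_bound (hg : gen (Set.univ : Set (Sylow p G)) = ⊤) {H : Subgroup G} (hH : H ≠ ⊤) :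
    (2 * (p : ℤ) - 1) * {Q : Sylow p G | (Q : Subgroup G) ≤ H}.ncard ≤ ((p : ℤ) - 1) * Nat.card (Sylow p G) :=
  red_ind _ G hg H hH rfl

theorem orb_bound {𝒯 : Set (Sylow p G)} {P : Sylow p G} (hP : P ∈ 𝒯) {a : Ω} (ha : a ∉ Fix (gen 𝒯)) :
    0 ≤ D P (Reg (gen 𝒯) {a}) :=
  red_tr hP ha fun _ hK _ => sub_bound red_gen hK

end Cfsg.Agent.SyF
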